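import Cfsg.Agent.Lib.Helper8.Abelian2
import Mathlib.GroupTheory.SpecificGroups.Dihedral
import Mathlib.GroupTheory.SpecificGroups.Quaternion
import Mathlib.FieldTheory.Finite.Basic

set_option autoImplicit false

namespace Cfsg.Agent.Lib.Helper8.Aut2

open Cfsg
open Cfsg.Agent.Lib.Helper8.Fusion Cfsg.Agent.Lib.Helper8.GroupFusion Cfsg.Agent.Lib.Helper8.Sat
  Cfsg.Agent.Lib.Helper8.Sat2 Cfsg.Agent.Lib.Helper8.Alperin Cfsg.Agent.Lib.Helper8.Alperin2
  Cfsg.Agent.Lib.Helper8.Normal Cfsg.Agent.Lib.Helper8.Chain Cfsg.Agent.Lib.Helper8.Chain2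
  Cfsg.Agent.Lib.Helper8.Normal2 Cfsg.Agent.Lib.Helper8.Essential Cfsg.Agent.Lib.Helper8.Inner
  Cfsg.Agent.Lib.Helper8.Abelian Cfsg.Agent.Lib.Helper8.Coprime Cfsg.Agent.Lib.Helper8.Abelian2

variable {Ω : Type*} [Group Ω] {S : Subgroup Ω}

/-- If the full automorphism group of `S` is a `p`-group, then in every saturated fusion
system over `S` the automizer of `S` consists of inner automorphisms. -/
theorem autGroup_eq_inn [Finite S] {p : ℕ} [Fact p.Prime] (hS : IsPGroup p S)
    (F : FusionSystem S) (hF : F.IsSaturated p) (hA : IsPGroup p (MulAut S)) :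
    F.autGroup S = Inn S := by
  apply le_antisymm _ (inn_le_autGroup F le_rfl)
  obtain ⟨-, R₀, hR₀⟩ :=
    (isFullyCentralized_and_isFullyAutomized hS F hF (isFullyNormalized_self F)).2
  have hpg : IsPGroup p (F.autGroup S) := hA.to_subgroup _
  have htop : (R₀ : Subgroup (F.autGroup S)) = ⊤ :=
    (R₀.is_maximal' (hpg.to_subgroup ⊤) le_top).symm
  rw [hR₀] at htop
  have h1 : F.autGroup S ≤ autInducedBy S S := Subgroup.subgroupOf_eq_top.1 htop
  intro α hα
  obtain ⟨g, hg, hax⟩ := mem_autInducedBy_iff.mp (h1 hα)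
  refine ⟨⟨g, hg⟩, ?_⟩
  apply MulEquiv.ext
  intro x
  apply Subtype.ext
  rw [hax x]
  rfl

/-- If `S` is abelian and its full automorphism group is a `p`-group, then every saturated
fusion system over `S` is the inner one. -/
theorem hom_eq_inner_of_abelian [Finite S] {p : ℕ} [Fact p.Prime] (hS : IsPGroup p S)
    (F : FusionSystem S) (hF : F.IsSaturated p) (hA : IsPGroup p (MulAut S))
    (hab : ∀ x ∈ S, ∀ y ∈ S, x * y = y * x) (P : Subgroup Ω) :
    F.Hom P = (innerFusionSystem S).Hom P := by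
  apply Set.Subset.antisymm _ (innerFusionSystem_le F le_rfl P)
  intro φ hφ
  have hPS : P ≤ S := (F.le_of_mem hφ).1
  have hcomm : IsMulCommutative S := ⟨⟨fun a b => Subtype.ext (hab a a.2 b b.2)⟩⟩
  have hSn : F.IsNormal S :=
    isNormal_of_abelian_stronglyClosed hS F hF hcomm (stronglyClosed_self F)
  obtain ⟨α, hα, hαφ⟩ := (isNormal_iff_extend hS F hF S le_rfl).mp hSn P hPS φ hφ
  rw [autGroup_eq_inn hS F hF hA] at hα
  obtain ⟨g, rfl⟩ := hα
  refine ⟨hPS, 1, one_mem _, fun x => ?_⟩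
  rw [← hαφ x]
  have h1 : ((MulAut.conj g (Subgroup.inclusion hPS x) : S) : Ω)
      = (g : Ω) * (x : Ω) * (g : Ω)⁻¹ := rfl
  rw [h1, conj_eq_self_of_comm (hab g g.2 x (hPS x.2))]
  simp

theorem totient_two_pow (k : ℕ) : Nat.totient (2 ^ k) = 2 ^ (k - 1) := by
  cases k with
  | zero => simp
  | succ k => rw [Nat.totient_prime_pow_succ Nat.prime_two]; simp

/-- A finite group with a cyclic subgroup of index two and of `2`-power order containing
all elements of that order has an automorphism group which is a `2`-group. -/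
theorem isPGroup_two_mulAut {G : Type*} [Group G] [Finite G] (c : G) (k : ℕ)
    (hc : orderOf c = 2 ^ k) (hcard : Nat.card G = 2 * orderOf c)
    (hout : ∀ x : G, orderOf x = orderOf c → x ∈ Subgroup.zpowers c) :
    IsPGroup 2 (MulAut G) := by
  intro α
  have hopos : 0 < orderOf c := by rw [hc]; positivity
  have hidx : (Subgroup.zpowers c).index = 2 := by
    have h1 := (Subgroup.zpowers c).card_mul_index
    rw [Nat.card_zpowers, hcard] at h1
    have h2 : orderOf c * (Subgroup.zpowers c).index = orderOf c * 2 := by rw [h1, mul_comm]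
    exact Nat.eq_of_mul_eq_mul_left hopos h2
  have hαc : α c ∈ Subgroup.zpowers c :=
    hout _ (orderOf_injective α.toMonoidHom α.injective c)
  obtain ⟨u, hu⟩ : ∃ u : ℕ, c ^ u = α c := by
    have := (mem_powers_iff_mem_zpowers).2 hαc
    exact (Submonoid.mem_powers_iff _ _).1 this
  have hpow : ∀ j : ℕ, (α ^ j) c = c ^ (u ^ j) := by
    intro j
    induction j with
    | zero => simp
    | succ j ih =>
      rw [pow_succ', MulAut.mul_apply, ih, map_pow, ← hu, ← pow_mul, pow_succ']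
  have hcop : Nat.Coprime u (2 ^ k) := by
    have h1 : orderOf (c ^ u) = orderOf c := by
      rw [hu]; exact orderOf_injective α.toMonoidHom α.injective c
    rw [orderOf_pow] at h1
    have h2 : Nat.gcd (orderOf c) u ∣ orderOf c := Nat.gcd_dvd_left _ _
    have h3 := Nat.div_mul_cancel h2
    rw [h1] at h3
    have h4 : Nat.gcd (orderOf c) u = 1 := by
      have : orderOf c * Nat.gcd (orderOf c) u = orderOf c * 1 := by rw [h3, mul_one]
      exact Nat.eq_of_mul_eq_mul_left hopos this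
    rw [hc] at h4
    exact (Nat.coprime_comm.1 h4)
  have hβc : (α ^ (2 ^ (k - 1))) c = c := by
    rw [hpow]
    have h1 := Nat.ModEq.pow_totient hcop
    rw [totient_two_pow, ← hc] at h1
    have := (pow_eq_pow_iff_modEq (x := c)).2 h1
    rw [this, pow_one]
  set β := α ^ (2 ^ (k - 1)) with hβ
  have hβC : ∀ y ∈ Subgroup.zpowers c, β y = y := by
    rintro y ⟨i, rfl⟩
    change β (c ^ i) = c ^ i
    rw [map_zpow, hβc]
  obtain ⟨x₀, hx₀⟩ : ∃ x₀ : G, x₀ ∉ Subgroup.zpowers c := by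
    by_contra hcon
    push Not at hcon
    have : Subgroup.zpowers c = ⊤ := (Subgroup.eq_top_iff' _).2 hcon
    rw [this, Subgroup.index_top] at hidx
    omega
  have hβx₀ : β x₀ ∉ Subgroup.zpowers c := by
    intro h
    have h1 := hβC _ h
    exact hx₀ (β.injective h1 ▸ h)
  have ht : x₀⁻¹ * β x₀ ∈ Subgroup.zpowers c := by
    rw [Subgroup.mul_mem_iff_of_index_two hidx, inv_mem_iff]
    exact ⟨fun h => absurd h hx₀, fun h => absurd h hβx₀⟩
  set t := x₀⁻¹ * β x₀ with htdef
  have hβx : β x₀ = x₀ * t := by rw [htdef]; group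
  have hβpow : ∀ j : ℕ, (β ^ j) x₀ = x₀ * t ^ j := by
    intro j
    induction j with
    | zero => simp
    | succ j ih =>
      rw [pow_succ', MulAut.mul_apply, ih, map_mul, map_pow, hβC t ht, hβx, pow_succ', mul_assoc]
  have htpow : t ^ (2 ^ k) = 1 := by
    obtain ⟨i, hi⟩ := ht
    rw [← hi]
    change (c ^ i) ^ (2 ^ k) = 1
    rw [← zpow_natCast, ← zpow_mul, mul_comm, zpow_mul, zpow_natCast, ← hc, pow_orderOf_eq_one,
      one_zpow]
  have hγx₀ : (β ^ (2 ^ k)) x₀ = x₀ := by rw [hβpow, htpow, mul_one]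
  have hγC : ∀ y ∈ Subgroup.zpowers c, (β ^ (2 ^ k)) y = y := by
    intro y hy
    have : ∀ j : ℕ, (β ^ j) y = y := by
      intro j
      induction j with
      | zero => simp
      | succ j ih => rw [pow_succ', MulAut.mul_apply, ih, hβC y hy]
    exact this _
  refine ⟨k - 1 + k, ?_⟩
  rw [pow_add, pow_mul, ← hβ]
  apply MulEquiv.ext
  intro y
  rw [MulAut.one_apply]
  by_cases hy : y ∈ Subgroup.zpowers c
  · exact hγC y hy
  · have h1 : x₀⁻¹ * y ∈ Subgroup.zpowers c := by
      rw [Subgroup.mul_mem_iff_of_index_two hidx, inv_mem_iff]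
      exact ⟨fun h => absurd h hx₀, fun h => absurd h hy⟩
    have h2 : y = x₀ * (x₀⁻¹ * y) := by group
    rw [h2, map_mul, hγx₀, hγC _ h1]

theorem isPGroup_two_mulAut_dihedral (n : ℕ) (hn : 4 ≤ n) :
    IsPGroup 2 (MulAut (DihedralGroup (2 ^ (n - 1)))) := by
  have : NeZero (2 ^ (n - 1)) := ⟨by positivity⟩
  have hge : 8 ≤ 2 ^ (n - 1) := by
    calc 8 = 2 ^ 3 := by norm_num
      _ ≤ 2 ^ (n - 1) := Nat.pow_le_pow_right (by norm_num) (by omega)
  apply isPGroup_two_mulAut (DihedralGroup.r 1) (n - 1)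
  · rw [DihedralGroup.orderOf_r_one]
  · rw [DihedralGroup.nat_card, DihedralGroup.orderOf_r_one]
  · intro x hx
    rw [DihedralGroup.orderOf_r_one] at hx
    cases x with
    | r i =>
      refine ⟨(i.val : ℤ), ?_⟩
      change DihedralGroup.r 1 ^ ((i.val : ℕ) : ℤ) = _
      rw [zpow_natCast, DihedralGroup.r_one_pow, ZMod.natCast_zmod_val]
    | sr i =>
      rw [DihedralGroup.orderOf_sr] at hx
      omega

theorem isPGroup_two_mulAut_quaternion (n : ℕ) (hn : 4 ≤ n) :
    IsPGroup 2 (MulAut (QuaternionGroup (2 ^ (n - 2)))) := by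
  have : NeZero (2 ^ (n - 2)) := ⟨by positivity⟩
  have : NeZero (2 * 2 ^ (n - 2)) := ⟨by positivity⟩
  have hge : 4 ≤ 2 ^ (n - 2) := by
    calc 4 = 2 ^ 2 := by norm_num
      _ ≤ 2 ^ (n - 2) := Nat.pow_le_pow_right (by norm_num) (by omega)
  have hpow : 2 * 2 ^ (n - 2) = 2 ^ (n - 1) := by
    rw [← pow_succ']
    congr 1
    omega
  apply isPGroup_two_mulAut (QuaternionGroup.a 1) (n - 1)
  · rw [QuaternionGroup.orderOf_a_one, hpow]
  · rw [Nat.card_eq_fintype_card, QuaternionGroup.card, QuaternionGroup.orderOf_a_one]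
    ring
  · intro x hx
    rw [QuaternionGroup.orderOf_a_one] at hx
    cases x with
    | a i =>
      refine ⟨(i.val : ℤ), ?_⟩
      change QuaternionGroup.a 1 ^ ((i.val : ℕ) : ℤ) = _
      rw [zpow_natCast, QuaternionGroup.a_one_pow, ZMod.natCast_zmod_val]
    | xa i =>
      rw [QuaternionGroup.orderOf_xa] at hx
      omega

/-- S5112. -/
theorem dihedral_or_quaternion [Finite S] (n : ℕ) (hn : 4 ≤ n)
    (hshape : Nonempty (S ≃* DihedralGroup (2 ^ (n - 1))) ∨
      Nonempty (S ≃* QuaternionGroup (2 ^ (n - 2))))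
    (F : FusionSystem S) (hF : F.IsSaturated 2) : F.autGroup S = Inn S := by
  have : Fact (Nat.Prime 2) := ⟨Nat.prime_two⟩
  have hpow : 2 * 2 ^ (n - 1) = 2 ^ n := by
    rw [← pow_succ']
    congr 1
    omega
  have hpow2 : 4 * 2 ^ (n - 2) = 2 ^ n := by
    have : (4 : ℕ) = 2 ^ 2 := by norm_num
    rw [this, ← pow_add]
    congr 1
    omega
  rcases hshape with ⟨⟨e⟩⟩ | ⟨⟨e⟩⟩
  · have hS : IsPGroup 2 S := by
      apply IsPGroup.of_card (n := n)
      rw [Nat.card_congr e.toEquiv, DihedralGroup.nat_card, hpow]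
    exact autGroup_eq_inn hS F hF
      ((isPGroup_two_mulAut_dihedral n hn).of_equiv (MulAut.congr e).symm)
  · have : NeZero (2 ^ (n - 2)) := ⟨by positivity⟩
    have hS : IsPGroup 2 S := by
      apply IsPGroup.of_card (n := n)
      rw [Nat.card_congr e.toEquiv, Nat.card_eq_fintype_card, QuaternionGroup.card, hpow2]
    exact autGroup_eq_inn hS F hF
      ((isPGroup_two_mulAut_quaternion n hn).of_equiv (MulAut.congr e).symm)

/-- An automorphism criterion: in a commutative group killed by `2 ^ K` whose layers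
`Ω₁ ∩ G^(2^k)` drop by index at most two, every automorphism has `2`-power order. -/
theorem isPGroup_two_mulAut_of_chain {G : Type*} [CommGroup G] (K : ℕ)
    (h3 : ∀ x : G, x ^ (2 ^ K) = 1)
    (h2 : ∀ k : ℕ, ∀ x x' : G, x ^ 2 = 1 → x' ^ 2 = 1 → (∃ y, y ^ (2 ^ k) = x) →
      (∃ y, y ^ (2 ^ k) = x') → (¬ ∃ z, z ^ (2 ^ (k + 1)) = x) →
      (¬ ∃ z, z ^ (2 ^ (k + 1)) = x') → ∃ w, w ^ (2 ^ (k + 1)) = x⁻¹ * x') :
    IsPGroup 2 (MulAut G) := by
  intro α
  -- phase 1
  have ph1 : ∀ j : ℕ, j ≤ K → ∀ x : G, x ^ 2 = 1 → (∃ y, y ^ (2 ^ (K - j)) = x) →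
      (α ^ (2 ^ j)) x = x := by
    intro j
    induction j with
    | zero =>
      intro _ x _ hx
      obtain ⟨y, rfl⟩ := hx
      simp [h3 y]
    | succ j ih =>
      intro hj x hx2 hx
      have hjK : j ≤ K := by omega
      set γ := α ^ (2 ^ j) with hγ
      have hγγ : α ^ (2 ^ (j + 1)) = γ * γ := by rw [hγ, ← pow_add, pow_succ, mul_two]
      rw [hγγ, MulAut.mul_apply]
      have hk : K - j = K - (j + 1) + 1 := by omega
      by_cases hx1 : ∃ z, z ^ (2 ^ (K - (j + 1) + 1)) = x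
      · have hfix : γ x = x := ih hjK x hx2 (by rw [hk]; exact hx1)
        rw [hfix, hfix]
      · have hγx2 : (γ x) ^ 2 = 1 := by rw [← map_pow, hx2, map_one]
        have hγx : ∃ y, y ^ (2 ^ (K - (j + 1))) = γ x := by
          obtain ⟨y, hy⟩ := hx
          exact ⟨γ y, by rw [← map_pow, hy]⟩
        have hγx1 : ¬ ∃ z, z ^ (2 ^ (K - (j + 1) + 1)) = γ x := by
          rintro ⟨z, hz⟩
          have hfix : γ (γ x) = γ x := ih hjK (γ x) hγx2 (by rw [hk]; exact ⟨z, hz⟩)
          have hxx : γ x = x := γ.injective hfix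
          exact hx1 ⟨z, by rw [hz, hxx]⟩
        obtain ⟨w, hw⟩ := h2 (K - (j + 1)) x (γ x) hx2 hγx2 hx hγx hx1 hγx1
        set v := x⁻¹ * γ x with hv
        have hv2 : v ^ 2 = 1 := by rw [hv, mul_pow, inv_pow, hx2, hγx2]; simp
        have hvfix : γ v = v := ih hjK v hv2 (by rw [hk]; exact ⟨w, hw⟩)
        have hγxv : γ x = x * v := by rw [hv]; group
        rw [hγxv, map_mul, hγxv, hvfix, mul_assoc, ← sq, hv2, mul_one]
  set δ := α ^ (2 ^ K) with hδ
  have hδ1 : ∀ x : G, x ^ 2 = 1 → δ x = x := by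
    intro x hx
    exact ph1 K le_rfl x hx ⟨x, by simp⟩
  -- phase 2
  have ph2 : ∀ j : ℕ, ∀ x : G, x ^ (2 ^ (j + 1)) = 1 → (δ ^ (2 ^ j)) x = x := by
    intro j
    induction j with
    | zero =>
      intro x hx
      simpa using hδ1 x (by simpa using hx)
    | succ j ih =>
      intro x hx
      set ε := δ ^ (2 ^ j) with hε
      have hεε : δ ^ (2 ^ (j + 1)) = ε * ε := by rw [hε, ← pow_add, pow_succ, mul_two]
      rw [hεε, MulAut.mul_apply]
      have hx2 : (x ^ 2) ^ (2 ^ (j + 1)) = 1 := by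
        rw [← pow_mul, ← pow_succ']; exact hx
      have h1 : ε (x ^ 2) = x ^ 2 := ih _ hx2
      set w := x⁻¹ * ε x with hw
      have hw2 : w ^ 2 = 1 := by
        rw [hw, mul_pow, inv_pow, ← map_pow, h1]; simp
      have hwfix : ε w = w := by
        apply ih
        rw [pow_succ', pow_mul, hw2, one_pow]
      have hεx : ε x = x * w := by rw [hw]; group
      rw [hεx, map_mul, hεx, hwfix, mul_assoc, ← sq, hw2, mul_one]
  refine ⟨K + K, ?_⟩
  rw [pow_add, pow_mul, ← hδ]
  apply MulEquiv.ext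
  intro x
  rw [MulAut.one_apply]
  apply ph2
  rw [pow_succ, pow_mul, h3, one_pow]

theorem zmod_two_torsion (b : ℕ) (hb : 1 ≤ b) (z : ZMod (2 ^ b)) (hz : z + z = 0) :
    z = 0 ∨ z = ((2 ^ (b - 1) : ℕ) : ZMod (2 ^ b)) := by
  have : NeZero (2 ^ b) := ⟨by positivity⟩
  have hv : ((z.val + z.val : ℕ) : ZMod (2 ^ b)) = 0 := by
    rw [Nat.cast_add, ZMod.natCast_zmod_val, hz]
  rw [ZMod.natCast_eq_zero_iff] at hv
  have hlt := ZMod.val_lt z
  have hb2 : 2 ^ b = 2 * 2 ^ (b - 1) := by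
    rw [← pow_succ']
    congr 1
    omega
  have hv' : 2 ^ (b - 1) ∣ z.val := by
    have : 2 * 2 ^ (b - 1) ∣ 2 * z.val := by rw [two_mul z.val, ← hb2]; exact hv
    exact (Nat.mul_dvd_mul_iff_left (by norm_num)).1 this
  obtain ⟨q, hq⟩ := hv'
  have hq2 : q < 2 := by
    by_contra hcon
    push Not at hcon
    have : 2 ^ (b - 1) * 2 ≤ 2 ^ (b - 1) * q := Nat.mul_le_mul_left _ hcon
    omega
  interval_cases q
  · left
    rw [← ZMod.natCast_zmod_val z, hq]
    simp
  · right
    rw [← ZMod.natCast_zmod_val z, hq, mul_one]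

theorem zmod_nsmul_eq_zero (b k : ℕ) (h : b ≤ k) (y : ZMod (2 ^ b)) : (2 ^ k) • y = 0 := by
  rw [nsmul_eq_mul]
  have : ((2 ^ k : ℕ) : ZMod (2 ^ b)) = 0 := by
    rw [ZMod.natCast_eq_zero_iff]
    exact pow_dvd_pow 2 h
  rw [this, zero_mul]

/-- The automorphism group of a product of cyclic `2`-groups of pairwise distinct orders is
a `2`-group. -/
theorem isPGroup_two_mulAut_pi (n : ℕ) (a : Fin n → ℕ) (ha : Function.Injective a)
    (ha1 : ∀ i, 1 ≤ a i) :
    IsPGroup 2 (MulAut (Multiplicative ((i : Fin n) → ZMod (2 ^ a i)))) := by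
  classical
  -- a bound for the exponents
  obtain ⟨K, hK⟩ : ∃ K : ℕ, ∀ i, a i ≤ K :=
    ⟨∑ i, a i, fun i => Finset.single_le_sum (fun _ _ => Nat.zero_le _) (Finset.mem_univ i)⟩
  apply isPGroup_two_mulAut_of_chain K
  · intro x
    apply Multiplicative.toAdd.injective
    rw [toAdd_pow, toAdd_one]
    funext i
    rw [Pi.smul_apply, Pi.zero_apply]
    exact zmod_nsmul_eq_zero _ _ (hK i) _
  · intro k x x' hx2 hx'2 hx hx' hx1 hx'1
    -- translate to additive statements
    have key : ∀ x : Multiplicative ((i : Fin n) → ZMod (2 ^ a i)), x ^ 2 = 1 →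
        (∃ y, y ^ (2 ^ k) = x) →
        (∀ i, a i ≠ k + 1 → ∃ z : ZMod (2 ^ a i), (2 ^ (k + 1)) • z = Multiplicative.toAdd x i) ∧
        (∀ i, a i = k + 1 →
          Multiplicative.toAdd x i = 0 ∨
          Multiplicative.toAdd x i = ((2 ^ (a i - 1) : ℕ) : ZMod (2 ^ a i))) := by
      intro x hx2 hx
      have h2 : ∀ i, Multiplicative.toAdd x i + Multiplicative.toAdd x i = 0 := by
        intro i
        have := congrArg
          (fun t : Multiplicative ((i : Fin n) → ZMod (2 ^ a i)) => Multiplicative.toAdd t i) hx2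
        simp only [toAdd_pow, toAdd_one, Pi.smul_apply, Pi.zero_apply] at this
        rw [← two_nsmul]; exact this
      obtain ⟨y, hy⟩ := hx
      have hyi : ∀ i, (2 ^ k) • (Multiplicative.toAdd y i) = Multiplicative.toAdd x i := by
        intro i
        have := congrArg
          (fun t : Multiplicative ((i : Fin n) → ZMod (2 ^ a i)) => Multiplicative.toAdd t i) hy
        simpa only [toAdd_pow, Pi.smul_apply] using this
      constructor
      · intro i hi
        rcases Nat.lt_or_ge k (a i) with hlt | hge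
        · have hge2 : k + 2 ≤ a i := by omega
          rcases zmod_two_torsion (a i) (ha1 i) _ (h2 i) with h0 | h1
          · exact ⟨0, by rw [h0, smul_zero]⟩
          · refine ⟨((2 ^ (a i - 1 - (k + 1)) : ℕ) : ZMod (2 ^ a i)), ?_⟩
            rw [h1, nsmul_eq_mul, ← Nat.cast_mul, ← pow_add]
            congr 2
            omega
        · refine ⟨0, ?_⟩
          rw [smul_zero, ← hyi i, zmod_nsmul_eq_zero _ _ hge]
      · intro i _
        exact zmod_two_torsion (a i) (ha1 i) _ (h2 i)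
    have key2 : ∀ x : Multiplicative ((i : Fin n) → ZMod (2 ^ a i)), x ^ 2 = 1 →
        (∃ y, y ^ (2 ^ k) = x) → (¬ ∃ z, z ^ (2 ^ (k + 1)) = x) →
        ∃ i, a i = k + 1 ∧
          Multiplicative.toAdd x i = ((2 ^ (a i - 1) : ℕ) : ZMod (2 ^ a i)) := by
      intro x hx2 hx hx1
      obtain ⟨hA, hB⟩ := key x hx2 hx
      by_contra hcon
      push Not at hcon
      apply hx1
      have hall : ∀ i, ∃ z : ZMod (2 ^ a i), (2 ^ (k + 1)) • z = Multiplicative.toAdd x i := by
        intro i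
        by_cases hi : a i = k + 1
        · rcases hB i hi with h0 | h1
          · exact ⟨0, by rw [h0, smul_zero]⟩
          · exact absurd h1 (hcon i hi)
        · exact hA i hi
      choose z hz using hall
      refine ⟨Multiplicative.ofAdd z, ?_⟩
      apply Multiplicative.toAdd.injective
      rw [toAdd_pow, toAdd_ofAdd]
      funext i
      rw [Pi.smul_apply, hz i]
    obtain ⟨hA, hB⟩ := key x hx2 hx
    obtain ⟨hA', hB'⟩ := key x' hx'2 hx'
    obtain ⟨i₀, hi₀, hxi₀⟩ := key2 x hx2 hx hx1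
    obtain ⟨i₁, hi₁, hxi₁⟩ := key2 x' hx'2 hx' hx'1
    have hi01 : i₀ = i₁ := ha (hi₀.trans hi₁.symm)
    subst hi01
    have hall : ∀ i, ∃ z : ZMod (2 ^ a i),
        (2 ^ (k + 1)) • z = Multiplicative.toAdd (x⁻¹ * x') i := by
      intro i
      by_cases hi : a i = k + 1
      · have : i = i₀ := ha (hi.trans hi₀.symm)
        subst this
        refine ⟨0, ?_⟩
        rw [smul_zero, toAdd_mul, toAdd_inv, Pi.add_apply, Pi.neg_apply, hxi₀, hxi₁, neg_add_cancel]
      · obtain ⟨z, hz⟩ := hA i hi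
        obtain ⟨z', hz'⟩ := hA' i hi
        refine ⟨-z + z', ?_⟩
        rw [smul_add, smul_neg, hz, hz', toAdd_mul, toAdd_inv, Pi.add_apply, Pi.neg_apply]
    choose z hz using hall
    refine ⟨Multiplicative.ofAdd z, ?_⟩
    apply Multiplicative.toAdd.injective
    rw [toAdd_pow, toAdd_ofAdd]
    funext i
    rw [Pi.smul_apply, hz i]

/-- S5331. -/
theorem distinct_invariants [Finite S] (n : ℕ) (a : Fin n → ℕ) (ha : StrictMono a)
    (ha1 : ∀ i, 1 ≤ a i) (e : ↥S ≃* Multiplicative ((i : Fin n) → ZMod (2 ^ a i)))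
    (F : FusionSystem S) (hF : F.IsSaturated 2) (P : Subgroup Ω) :
    F.Hom P = (innerFusionSystem S).Hom P := by
  have : Fact (Nat.Prime 2) := ⟨Nat.prime_two⟩
  have hA : IsPGroup 2 (MulAut S) :=
    (isPGroup_two_mulAut_pi n a ha.injective ha1).of_equiv (MulAut.congr e).symm
  have hab : ∀ x ∈ S, ∀ y ∈ S, x * y = y * x := by
    intro x hx y hy
    have h1 : e (⟨x, hx⟩ * ⟨y, hy⟩) = e (⟨y, hy⟩ * ⟨x, hx⟩) := by
      rw [map_mul, map_mul, mul_comm]
    exact congrArg Subtype.val (e.injective h1)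
  have hS : IsPGroup 2 S := by
    intro g
    have hfin : Finite (MulAut S) := inferInstance
    -- the conjugation by `g` is trivial; use the order of `g` directly
    obtain ⟨K, hK⟩ : ∃ K : ℕ, ∀ i, a i ≤ K :=
      ⟨∑ i, a i, fun i => Finset.single_le_sum (fun _ _ => Nat.zero_le _) (Finset.mem_univ i)⟩
    refine ⟨K, ?_⟩
    apply e.injective
    rw [map_pow, map_one]
    apply Multiplicative.toAdd.injective
    rw [toAdd_pow, toAdd_one]
    funext i
    rw [Pi.smul_apply, Pi.zero_apply]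
    exact zmod_nsmul_eq_zero _ _ (hK i) _
  exact hom_eq_inner_of_abelian hS F hF hA hab P

end Cfsg.Agent.Lib.Helper8.Aut2
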