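import Cfsg.Agent.Lib.Helper8.AG1
import Cfsg.Agent.Lib.Helper8.SylQuot
import Mathlib.GroupTheory.SchurZassenhaus

set_option autoImplicit false

namespace Cfsg.Agent.Lib.Helper8.CRad

open Cfsg

section

variable {X : Type*} [Group X] {p : ℕ}

theorem le_pre_of_pow (C : Subgroup X) [C.Normal] (D : Subgroup X) (hDn : D.Normal)
    (hD : ∀ x ∈ D, ∃ k : ℕ, x ^ (p ^ k) ∈ C) :
    D ≤ (pCore p (X ⧸ C)).comap (QuotientGroup.mk' C) := by
  intro x hx
  rw [Subgroup.mem_comap]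
  have h1 : (D.map (QuotientGroup.mk' C)).Normal := hDn.map _ (QuotientGroup.mk'_surjective _)
  have h2 : IsPGroup p (D.map (QuotientGroup.mk' C)) := by
    rintro ⟨y, hy⟩
    obtain ⟨d, hd, rfl⟩ := Subgroup.mem_map.1 hy
    obtain ⟨k, hk⟩ := hD d hd
    refine ⟨k, Subtype.ext ?_⟩
    show (QuotientGroup.mk' C d) ^ (p ^ k) = 1
    rw [← map_pow, QuotientGroup.mk'_apply, QuotientGroup.eq_one_iff]
    exact hk
  have h3 : D.map (QuotientGroup.mk' C) ≤ pCore p (X ⧸ C) := le_sSup ⟨h1, h2⟩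
  exact h3 ⟨x, hx, rfl⟩

theorem pow_mem_of_mem_pre (C : Subgroup X) [C.Normal] {x : X}
    (hx : x ∈ (pCore p (X ⧸ C)).comap (QuotientGroup.mk' C)) : ∃ k : ℕ, x ^ (p ^ k) ∈ C := by
  rw [Subgroup.mem_comap] at hx
  obtain ⟨k, hk⟩ := (AG1.pCore_isPGroup p : IsPGroup p (pCore p (X ⧸ C))) ⟨_, hx⟩
  refine ⟨k, ?_⟩
  have h1 : (QuotientGroup.mk' C x) ^ (p ^ k) = 1 := congrArg Subtype.val hk
  rw [← map_pow, QuotientGroup.mk'_apply, QuotientGroup.eq_one_iff] at h1
  exact h1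

theorem pre_le_pre (A B : Subgroup X) [A.Normal] [B.Normal]
    (h : A ≤ (pCore p (X ⧸ B)).comap (QuotientGroup.mk' B)) :
    (pCore p (X ⧸ A)).comap (QuotientGroup.mk' A) ≤
      (pCore p (X ⧸ B)).comap (QuotientGroup.mk' B) := by
  apply le_pre_of_pow B _ ((AG1.pCore_normal p).comap _)
  intro x hx
  obtain ⟨k, hk⟩ := pow_mem_of_mem_pre A hx
  obtain ⟨j, hj⟩ := pow_mem_of_mem_pre B (h hk)
  refine ⟨k + j, ?_⟩
  rw [pow_add, pow_mul]
  exact hj

theorem mem_of_pow_coprime (K : Subgroup X) {x : X} {a b : ℕ} (hab : Nat.Coprime a b)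
    (ha : x ^ a ∈ K) (hb : x ^ b ∈ K) : x ∈ K := by
  have h1 : (x ^ a) ^ (Nat.gcdA a b) * (x ^ b) ^ (Nat.gcdB a b) = x := by
    rw [← zpow_natCast, ← zpow_natCast, ← zpow_mul, ← zpow_mul, ← zpow_add,
      ← Nat.gcd_eq_gcd_ab, Nat.Coprime.gcd_eq_one hab]
    simp
  rw [← h1]
  exact K.mul_mem (K.zpow_mem ha _) (K.zpow_mem hb _)

theorem le_of_pgroup_of_not_dvd [Finite X] [hp : Fact p.Prime] (H Q L : Subgroup X) (hHQ : H ≤ Q)
    (hQL : Q ≤ L) (hQ : IsPGroup p Q) (h : ¬ p ∣ H.relIndex L) : Q ≤ H := by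
  rw [← Subgroup.relIndex_eq_one]
  have h1 : H.relIndex Q * Q.relIndex L = H.relIndex L :=
    Subgroup.relIndex_mul_relIndex H Q L hHQ hQL
  have h2 : H.relIndex Q ∣ Nat.card Q := Subgroup.relIndex_dvd_card H Q
  obtain ⟨n, hn⟩ := hQ.exists_card_eq
  rw [hn] at h2
  obtain ⟨m, hm, hm2⟩ := (Nat.dvd_prime_pow hp.out).1 h2
  rcases Nat.eq_zero_or_pos m with h0 | h0
  · rw [hm2, h0, pow_zero]
  · exfalso
    apply h
    rw [← h1, hm2]
    exact Dvd.dvd.mul_right (dvd_pow_self p (Nat.pos_iff_ne_zero.1 h0)) _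

theorem sz {Y : Type*} [Group Y] [Finite Y] [hp : Fact p.Prime] (Z : Subgroup Y)
    (hZc : ∀ z ∈ Z, ∀ y : Y, z * y = y * z) (hZ : IsPGroup p Z) (hidx : ¬ p ∣ Z.index) :
    ∃ K : Subgroup Y, (Nat.card K).Coprime p ∧ (∀ y : Y, ∃ k : ℕ, y ^ (p ^ k) ∈ K) ∧
      (∀ y : Y, y ∈ K ↔ y ^ Z.index = 1) := by
  haveI hZn : Z.Normal := ⟨fun z hz g => by
    have h1 : g * z * g⁻¹ = z := by
      rw [← hZc z hz g, mul_inv_cancel_right]
    rw [h1]; exact hz⟩
  obtain ⟨n, hn⟩ := hZ.exists_card_eq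
  have hcop0 : Nat.Coprime p Z.index := (Nat.Prime.coprime_iff_not_dvd hp.out).2 hidx
  have hcop : Nat.Coprime (Nat.card Z) Z.index := by
    rw [hn]; exact Nat.Coprime.pow_left n hcop0
  obtain ⟨K, hK⟩ := Subgroup.exists_right_complement'_of_coprime hcop
  have hcard : Nat.card K = Z.index := (Subgroup.IsComplement'.index_eq_card hK.symm).symm
  have hbij : Function.Bijective (fun x : ↥(Z : Set Y) × ↥(K : Set Y) => x.1.1 * x.2.1) := hK
  have hdec : ∀ y : Y, ∃ z ∈ Z, ∃ k ∈ K, z * k = y := by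
    intro y
    obtain ⟨⟨a, b⟩, hab⟩ := hbij.2 y
    exact ⟨a.1, a.2, b.1, b.2, hab⟩
  have hKpow : ∀ k ∈ K, k ^ Z.index = 1 := by
    intro k hk
    have h1 : (⟨k, hk⟩ : K) ^ Nat.card K = 1 := pow_card_eq_one'
    rw [hcard] at h1
    exact congrArg Subtype.val h1
  have hZpow : ∀ z ∈ Z, ∃ a : ℕ, z ^ (p ^ a) = 1 := by
    intro z hz
    obtain ⟨a, ha⟩ := hZ ⟨z, hz⟩
    exact ⟨a, congrArg Subtype.val ha⟩
  refine ⟨K, ?_, ?_, ?_⟩
  · rw [hcard]; exact hcop0.symm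
  · intro y
    obtain ⟨z, hz, k, hk, rfl⟩ := hdec y
    obtain ⟨a, ha⟩ := hZpow z hz
    refine ⟨a, ?_⟩
    have hcomm : Commute z k := hZc z hz k
    rw [hcomm.mul_pow, ha, one_mul]
    exact K.pow_mem hk _
  · intro y
    constructor
    · intro hy; exact hKpow y hy
    · intro hy
      obtain ⟨z, hz, k, hk, rfl⟩ := hdec y
      have hcomm : Commute z k := hZc z hz k
      rw [hcomm.mul_pow, hKpow k hk, mul_one] at hy
      obtain ⟨a, ha⟩ := hZpow z hz
      have hz1 : z = 1 :=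
        Centric.eq_one_of_pow_of_coprime ha (orderOf_dvd_of_pow_eq_one hy) hcop0.symm
      rw [hz1, one_mul]; exact hk

theorem main [Finite X] [hp : Fact p.Prime] (H C S : Subgroup X) [hHn : H.Normal]
    [hCn : C.Normal] (hH : IsPGroup p H)
    (hcent : ∀ x : X, x ∈ C ↔ ∀ h ∈ H, h * x = x * h)
    (hS : IsPGroup p S) (hSi : ¬ p ∣ S.index) (hHS : H ≤ S) :
    (H ≤ (pCore p (X ⧸ C)).comap (QuotientGroup.mk' C) ∧
      ¬ p ∣ H.relIndex ((pCore p (X ⧸ C)).comap (QuotientGroup.mk' C))) ↔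
    (S ⊓ C ≤ H ∧ pPrimePCore p X = H ⊔ C) := by
  have hMdef : pPrimePCore p X =
      (pCore p (X ⧸ pPrimeCore p X)).comap (QuotientGroup.mk' (pPrimeCore p X)) := rfl
  have hHN0 : H ≤ (pCore p (X ⧸ C)).comap (QuotientGroup.mk' C) :=
    le_pre_of_pow C H hHn (fun x hx => by
      obtain ⟨k, hk⟩ := hH ⟨x, hx⟩
      refine ⟨k, ?_⟩
      have h1 : x ^ (p ^ k) = 1 := congrArg Subtype.val hk
      rw [h1]; exact one_mem _)
  have hCN0 : C ≤ (pCore p (X ⧸ C)).comap (QuotientGroup.mk' C) := by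
    intro x hx
    rw [Subgroup.mem_comap]
    have h1 : QuotientGroup.mk' C x = 1 := by
      rw [QuotientGroup.mk'_apply, QuotientGroup.eq_one_iff]; exact hx
    rw [h1]; exact one_mem _
  have hNn0 : ((pCore p (X ⧸ C)).comap (QuotientGroup.mk' C)).Normal :=
    (AG1.pCore_normal p).comap _
  obtain ⟨Npre, hNdef⟩ : ∃ N : Subgroup X,
      N = (pCore p (X ⧸ C)).comap (QuotientGroup.mk' C) := ⟨_, rfl⟩
  rw [← hNdef]
  have hHN : H ≤ Npre := by rw [hNdef]; exact hHN0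
  have hCN : C ≤ Npre := by rw [hNdef]; exact hCN0
  have hNn : Npre.Normal := by rw [hNdef]; exact hNn0
  have hpowN : ∀ x ∈ Npre, ∃ k : ℕ, x ^ (p ^ k) ∈ C := by
    intro x hx; rw [hNdef] at hx; exact pow_mem_of_mem_pre C hx
  have hHM : H ≤ pPrimePCore p X := AG1.le_pPrimePCore_of_normal H hHn hH
  obtain ⟨n, hn⟩ := hH.exists_card_eq
  have hOcop : (Nat.card ↥(pPrimeCore p X)).Coprime p := Centric.pPrimeCore_coprime p
  have hOn : (pPrimeCore p X).Normal := inferInstance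
  have hOC : pPrimeCore p X ≤ C := by
    intro x hx
    rw [hcent]
    intro h hh
    have hbot : H ⊓ pPrimeCore p X = ⊥ := by
      apply Subgroup.inf_eq_bot_of_coprime
      rw [hn]; exact Nat.Coprime.pow_left n hOcop.symm
    have h1 : h * x * h⁻¹ * x⁻¹ ∈ H ⊓ pPrimeCore p X := by
      refine Subgroup.mem_inf.2 ⟨?_, ?_⟩
      · have h2 := H.mul_mem hh (hHn.conj_mem h⁻¹ (H.inv_mem hh) x)
        rwa [show h * (x * h⁻¹ * x⁻¹) = h * x * h⁻¹ * x⁻¹ by group] at h2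
      · exact (pPrimeCore p X).mul_mem (hOn.conj_mem x hx h) ((pPrimeCore p X).inv_mem hx)
    rw [hbot, Subgroup.mem_bot] at h1
    calc h * x = (h * x * h⁻¹ * x⁻¹) * (x * h) := by group
      _ = x * h := by rw [h1, one_mul]
  have hMN : pPrimePCore p X ≤ Npre := by
    rw [hMdef, hNdef]
    exact pre_le_pre (pPrimeCore p X) C (hOC.trans hCN0)
  have hNM : C ≤ pPrimePCore p X → Npre ≤ pPrimePCore p X := by
    intro h
    rw [hNdef, hMdef]
    rw [hMdef] at h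
    exact pre_le_pre C (pPrimeCore p X) h
  constructor
  · rintro ⟨-, hidx⟩
    have hSC : S ⊓ C ≤ H := by
      have h1 : H ⊔ (S ⊓ C) ≤ H :=
        le_of_pgroup_of_not_dvd H (H ⊔ (S ⊓ C)) Npre le_sup_left
          (sup_le hHN (inf_le_right.trans hCN)) (hS.to_le (sup_le hHS inf_le_left)) hidx
      exact le_sup_right.trans h1
    refine ⟨hSC, ?_⟩
    have hNHC : Npre ≤ H ⊔ C := by
      intro x hx
      obtain ⟨k, hk⟩ := hpowN x hx
      have h2 : x ^ (H.relIndex Npre) ∈ H := by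
        have h3 := Subgroup.pow_index_mem (H.subgroupOf Npre) (⟨x, hx⟩ : ↥Npre)
        rw [Subgroup.mem_subgroupOf] at h3
        exact h3
      have hcop : Nat.Coprime (p ^ k) (H.relIndex Npre) :=
        Nat.Coprime.pow_left k ((Nat.Prime.coprime_iff_not_dvd hp.out).2 hidx)
      exact mem_of_pow_coprime (H ⊔ C) hcop ((le_sup_right : C ≤ H ⊔ C) hk)
        ((le_sup_left : H ≤ H ⊔ C) h2)
    have hCM : C ≤ pPrimePCore p X := by
      have hZc : ∀ z ∈ H.subgroupOf C, ∀ y : ↥C, z * y = y * z := by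
        intro z hz y
        rw [Subgroup.mem_subgroupOf] at hz
        exact Subtype.ext ((hcent (y : X)).1 y.2 (z : X) hz)
      have hZp : IsPGroup p (H.subgroupOf C) := hH.comap_subtype
      have hZi : ¬ p ∣ (H.subgroupOf C).index := by
        intro hdvd
        apply hidx
        have h1 : H.relIndex (C ⊔ H) = H.relIndex C := by rw [Subgroup.relIndex_sup_right]
        have h2 := Subgroup.relIndex_mul_relIndex H (C ⊔ H) Npre le_sup_right (sup_le hCN hHN)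
        rw [← h2, h1]
        exact Dvd.dvd.mul_right hdvd _
      obtain ⟨K₀, hK1, hK2, hK3⟩ := sz (p := p) (H.subgroupOf C) hZc hZp hZi
      have hKn : (K₀.map C.subtype).Normal := by
        refine ⟨fun k hk g => ?_⟩
        obtain ⟨k₀, hk₀, rfl⟩ := Subgroup.mem_map.1 hk
        have hmem : g * (k₀ : X) * g⁻¹ ∈ C := hCn.conj_mem _ k₀.2 g
        have h1 : (⟨g * (k₀ : X) * g⁻¹, hmem⟩ : ↥C) ∈ K₀ := by
          rw [hK3]
          apply Subtype.ext
          have h2 : (k₀ : X) ^ (H.subgroupOf C).index = 1 :=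
            congrArg Subtype.val ((hK3 k₀).1 hk₀)
          show (g * (k₀ : X) * g⁻¹) ^ (H.subgroupOf C).index = 1
          rw [conj_pow, h2, mul_one, mul_inv_cancel]
        exact Subgroup.mem_map.2 ⟨_, h1, rfl⟩
      have hKcop : (Nat.card ↥(K₀.map C.subtype)).Coprime p := by
        rw [Subgroup.card_map_of_injective C.subtype_injective]
        exact hK1
      have hKO : K₀.map C.subtype ≤ pPrimeCore p X := le_sSup ⟨hKn, hKcop⟩
      rw [hMdef]
      apply le_pre_of_pow (pPrimeCore p X) C hCn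
      intro c hc
      obtain ⟨k, hk⟩ := hK2 ⟨c, hc⟩
      exact ⟨k, hKO (Subgroup.mem_map.2 ⟨_, hk, rfl⟩)⟩
    exact le_antisymm (hMN.trans hNHC) (sup_le hHM hCM)
  · rintro ⟨hSC, hM⟩
    refine ⟨hHN, ?_⟩
    have hCM : C ≤ pPrimePCore p X := by rw [hM]; exact le_sup_right
    have hNHC : Npre ≤ H ⊔ C := by rw [← hM]; exact hNM hCM
    have hSN : S ⊓ Npre ≤ H := by
      intro x hx
      obtain ⟨hxS, hxN⟩ := Subgroup.mem_inf.1 hx
      have h1 : x ∈ ((H ⊔ C : Subgroup X) : Set X) := hNHC hxN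
      rw [Subgroup.normal_mul] at h1
      obtain ⟨h, hh, c, hc, rfl⟩ := Set.mem_mul.1 h1
      have hcS : c ∈ S := by
        have h2 := S.mul_mem (S.inv_mem (hHS hh)) hxS
        rwa [inv_mul_cancel_left] at h2
      exact H.mul_mem hh (hSC (Subgroup.mem_inf.2 ⟨hcS, hc⟩))
    have hHeq : H = S ⊓ Npre := le_antisymm (le_inf hHS hHN) hSN
    intro hdvd
    apply hSi
    have h1 : (S ⊓ Npre).relIndex Npre = S.relIndex Npre := Subgroup.inf_relIndex_right S Npre
    have h2 : S.relIndex (Npre ⊔ S) = S.relIndex Npre := SylQuot.rel_sup Npre S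
    have h3 := Subgroup.relIndex_mul_index (le_sup_right : S ≤ Npre ⊔ S)
    rw [← h3, h2, ← h1, ← hHeq]
    exact Dvd.dvd.mul_right hdvd _

end

theorem transfer {G : Type*} [Group G] [Finite G] {p : ℕ} [Fact p.Prime]
    (N H C P : Subgroup G) (hHN : H ≤ N) (hCN : C ≤ N) (hPp : IsPGroup p P) (hHP : H ≤ P)
    [hHn : (H.subgroupOf N).Normal] [hC : (C.subgroupOf N).Normal]
    (hcent : ∀ g ∈ N, g ∈ C ↔ ∀ h ∈ H, h * g = g * h)
    (hSyl : ¬ p ∣ (P ⊓ N).relIndex N) :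
    (H ≤ ((pCore p (↥N ⧸ C.subgroupOf N)).comap
        (QuotientGroup.mk' (C.subgroupOf N))).map N.subtype ∧
      ¬ p ∣ H.relIndex (((pCore p (↥N ⧸ C.subgroupOf N)).comap
        (QuotientGroup.mk' (C.subgroupOf N))).map N.subtype)) ↔
    (P ⊓ C ≤ H ∧ (pPrimePCore p ↥N).map N.subtype = H ⊔ C) := by
  have hHp : IsPGroup p (H.subgroupOf N) := (hPp.to_le hHP).comap_subtype
  have hSp : IsPGroup p (P.subgroupOf N) := hPp.comap_subtype
  have hSi : ¬ p ∣ (P.subgroupOf N).index := by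
    rw [Subgroup.inf_relIndex_right] at hSyl; exact hSyl
  have hHS : H.subgroupOf N ≤ P.subgroupOf N := by
    intro x hx; rw [Subgroup.mem_subgroupOf] at hx ⊢; exact hHP hx
  have hcent' : ∀ x : ↥N, x ∈ C.subgroupOf N ↔ ∀ h ∈ H.subgroupOf N, h * x = x * h := by
    intro x
    rw [Subgroup.mem_subgroupOf, hcent (x : G) x.2]
    constructor
    · intro h1 h hh
      rw [Subgroup.mem_subgroupOf] at hh
      exact Subtype.ext (h1 _ hh)
    · intro h1 g hg
      have h2 := h1 ⟨g, hHN hg⟩ (by rw [Subgroup.mem_subgroupOf]; exact hg)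
      exact congrArg Subtype.val h2
  have key := main (p := p) (H.subgroupOf N) (C.subgroupOf N) (P.subgroupOf N) hHp hcent'
    hSp hSi hHS
  obtain ⟨Npre, hNdef⟩ : ∃ M : Subgroup ↥N, M = (pCore p (↥N ⧸ C.subgroupOf N)).comap
      (QuotientGroup.mk' (C.subgroupOf N)) := ⟨_, rfl⟩
  rw [← hNdef] at key ⊢
  have e1 : H ≤ Npre.map N.subtype ↔ H.subgroupOf N ≤ Npre := by
    constructor
    · intro h x hx
      rw [Subgroup.mem_subgroupOf] at hx
      obtain ⟨y, hy, hyx⟩ := Subgroup.mem_map.1 (h hx)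
      have hyx' : y = x := Subtype.ext hyx
      rw [← hyx']; exact hy
    · intro h g hg
      exact Subgroup.mem_map.2
        ⟨⟨g, hHN hg⟩, h (by rw [Subgroup.mem_subgroupOf]; exact hg), rfl⟩
  have e2 : H.relIndex (Npre.map N.subtype) = (H.subgroupOf N).relIndex Npre := by
    have h1 := Subgroup.relIndex_subgroupOf (H := H) (Subgroup.map_subtype_le Npre)
    have h2 : (Npre.map N.subtype).subgroupOf N = Npre :=
      Subgroup.comap_map_eq_self_of_injective N.subtype_injective Npre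
    rw [h2] at h1
    exact h1.symm
  have e3 : P ⊓ C ≤ H ↔ P.subgroupOf N ⊓ C.subgroupOf N ≤ H.subgroupOf N := by
    constructor
    · intro h x hx
      obtain ⟨h1, h2⟩ := Subgroup.mem_inf.1 hx
      rw [Subgroup.mem_subgroupOf] at h1 h2 ⊢
      exact h (Subgroup.mem_inf.2 ⟨h1, h2⟩)
    · intro h g hg
      obtain ⟨h1, h2⟩ := Subgroup.mem_inf.1 hg
      have h3 : (⟨g, hCN h2⟩ : ↥N) ∈ H.subgroupOf N :=
        h (Subgroup.mem_inf.2 ⟨by rw [Subgroup.mem_subgroupOf]; exact h1,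
          by rw [Subgroup.mem_subgroupOf]; exact h2⟩)
      rw [Subgroup.mem_subgroupOf] at h3
      exact h3
  have e4 : (pPrimePCore p ↥N).map N.subtype = H ⊔ C ↔
      pPrimePCore p ↥N = H.subgroupOf N ⊔ C.subgroupOf N := by
    have h1 : (H.subgroupOf N ⊔ C.subgroupOf N).map N.subtype = H ⊔ C := by
      rw [Subgroup.map_sup, Subgroup.map_subgroupOf_eq_of_le hHN,
        Subgroup.map_subgroupOf_eq_of_le hCN]
    constructor
    · intro h
      rw [← h1] at h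
      exact Subgroup.map_injective N.subtype_injective h
    · intro h
      rw [h, h1]
  rw [e1, e2, e3, e4]
  exact key

end Cfsg.Agent.Lib.Helper8.CRad
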