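import Cfsg.Agent.Lib.Helper8.Morph

set_option autoImplicit false

namespace Cfsg.Agent.Lib.Helper8.Closed

open Cfsg Cfsg.FusionSystem Cfsg.Agent.Lib.Helper8.Fusion Cfsg.Agent.Lib.Helper8.FactorSys
  Cfsg.Agent.Lib.Helper8.Sat Cfsg.Agent.Lib.Helper8.Sat2 Cfsg.Agent.Lib.Helper8.Morph

variable {Ω : Type*} [Group Ω] {S : Subgroup Ω}

/-- The product of two strongly closed subgroups of a saturated system is strongly closed. -/
theorem stronglyClosed_sup [Finite S] {p : ℕ} [Fact p.Prime] (hS : IsPGroup p S)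
    (F : FusionSystem S) (hF : F.IsSaturated p) {T₁ T₂ : Subgroup Ω}
    (h₁ : F.StronglyClosed T₁) (h₂ : F.StronglyClosed T₂) : F.StronglyClosed (T₁ ⊔ T₂) := by
  refine ⟨sup_le h₁.1 h₂.1, fun P hP φ hφ x => ?_⟩
  obtain ⟨-, ψ, hψ, hψT⟩ := le_modSystem hS F hF h₁ P hφ
  have hx : (x : Ω) ∈ ((T₂ ⊔ T₁ : Subgroup Ω) : Set Ω) := by
    rw [sup_comm]
    exact hP x.2
  rw [Subgroup.coe_mul_of_left_le_normalizer_right T₂ T₁
    (h₂.1.trans (le_normalizer_of_sc F h₁))] at hx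
  obtain ⟨t₂, ht₂, t₁, ht₁, hxe⟩ := Set.mem_mul.1 hx
  have ht₁' : t₁ ∈ P ⊔ T₁ := Subgroup.mem_sup_right ht₁
  have ht₂' : t₂ ∈ P ⊔ T₁ := by
    have h0 : t₂ = x * t₁⁻¹ := by rw [← hxe]; group
    rw [h0]
    exact Subgroup.mul_mem _ (Subgroup.mem_sup_left x.2) (Subgroup.inv_mem _ ht₁')
  have h2 : Subgroup.inclusion (le_sup_left : P ≤ P ⊔ T₁) x = ⟨t₂, ht₂'⟩ * ⟨t₁, ht₁'⟩ :=
    Subtype.ext hxe.symm
  have h3 : ψ (Subgroup.inclusion le_sup_left x) ∈ T₁ ⊔ T₂ := by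
    rw [h2, map_mul, sup_comm]
    exact Subgroup.mul_mem _ (Subgroup.mem_sup_left (map_mem_of_sc F h₂ hψ ⟨t₂, ht₂'⟩ ht₂))
      (Subgroup.mem_sup_right (map_mem_of_sc F h₁ hψ ⟨t₁, ht₁'⟩ ht₁))
  have h4 : φ x = ψ (Subgroup.inclusion le_sup_left x) *
      ((φ x)⁻¹ * ψ (Subgroup.inclusion le_sup_left x))⁻¹ := by group
  rw [h4]
  exact Subgroup.mul_mem _ h3 (Subgroup.inv_mem _ (Subgroup.mem_sup_left (hψT x)))

/-- For `T` strongly closed in a saturated system, `T C_S(T)` is strongly closed. -/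
theorem stronglyClosed_sup_centralizer [Finite S] {p : ℕ} [Fact p.Prime] (hS : IsPGroup p S)
    (F : FusionSystem S) (hF : F.IsSaturated p) {T : Subgroup Ω} (hT : F.StronglyClosed T) :
    F.StronglyClosed (T ⊔ FusionSystem.centralizerIn S T) := by
  refine ⟨sup_le hT.1 inf_le_left, fun P hP φ hφ x => ?_⟩
  obtain ⟨-, ψ, hψ, hψT⟩ := le_modSystem hS F hF hT P hφ
  have hCS : FusionSystem.centralizerIn S T ≤ S := inf_le_left
  have hx : (x : Ω) ∈ ((FusionSystem.centralizerIn S T ⊔ T : Subgroup Ω) : Set Ω) := by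
    rw [sup_comm]
    exact hP x.2
  rw [Subgroup.coe_mul_of_left_le_normalizer_right _ T
    (hCS.trans (le_normalizer_of_sc F hT))] at hx
  obtain ⟨c, hc, t, ht, hxe⟩ := Set.mem_mul.1 hx
  have ht' : t ∈ P ⊔ T := Subgroup.mem_sup_right ht
  have hc' : c ∈ P ⊔ T := by
    have h0 : c = x * t⁻¹ := by rw [← hxe]; group
    rw [h0]
    exact Subgroup.mul_mem _ (Subgroup.mem_sup_left x.2) (Subgroup.inv_mem _ ht')
  have h2 : Subgroup.inclusion (le_sup_left : P ≤ P ⊔ T) x = ⟨c, hc'⟩ * ⟨t, ht'⟩ :=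
    Subtype.ext hxe.symm
  have hψc : ψ ⟨c, hc'⟩ ∈ FusionSystem.centralizerIn S T := by
    refine ⟨(F.le_of_mem hψ).2 _, ?_⟩
    show ψ ⟨c, hc'⟩ ∈ Subgroup.centralizer (T : Set Ω)
    rw [Subgroup.mem_centralizer_iff]
    intro y hy
    obtain ⟨w, hwT, hw⟩ := sc_surj F hT hψ le_sup_right y hy
    have hcC : c ∈ Subgroup.centralizer (T : Set Ω) := hc.2
    have h1 : (w : Ω) * c = c * w := Subgroup.mem_centralizer_iff.mp hcC w hwT
    have h5 : w * (⟨c, hc'⟩ : ↥(P ⊔ T)) = ⟨c, hc'⟩ * w := Subtype.ext h1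
    rw [← hw, ← map_mul, ← map_mul, h5]
  have h3 : ψ (Subgroup.inclusion le_sup_left x) ∈ T ⊔ FusionSystem.centralizerIn S T := by
    rw [h2, map_mul, sup_comm]
    exact Subgroup.mul_mem _ (Subgroup.mem_sup_left hψc)
      (Subgroup.mem_sup_right (map_mem_of_sc F hT hψ ⟨t, ht'⟩ ht))
  have h4 : φ x = ψ (Subgroup.inclusion le_sup_left x) *
      ((φ x)⁻¹ * ψ (Subgroup.inclusion le_sup_left x))⁻¹ := by group
  rw [h4]
  exact Subgroup.mul_mem _ h3 (Subgroup.inv_mem _ (Subgroup.mem_sup_left (hψT x)))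

end Cfsg.Agent.Lib.Helper8.Closed
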