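import Cfsg.Agent.Lib.Helper8.Solv3

set_option autoImplicit false

namespace Cfsg.Agent.Lib.Helper8.Constr

open Cfsg Cfsg.FusionSystem Cfsg.Agent.Lib.Helper8.Fusion Cfsg.Agent.Lib.Helper8.FactorSys
  Cfsg.Agent.Lib.Helper8.Sat Cfsg.Agent.Lib.Helper8.Sat2 Cfsg.Agent.Lib.Helper8.Morph
  Cfsg.Agent.Lib.Helper8.Chain Cfsg.Agent.Lib.Helper8.Solv2 Cfsg.Agent.Lib.Helper8.Solv3
  Cfsg.Agent.Lib.Helper8.Normal Cfsg.Agent.Lib.Helper8.Normal2

open scoped commutatorElement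

variable {Ω : Type*} [Group Ω] {S : Subgroup Ω}

/-- The stability group of a two-step chain is abelian (elementwise version). -/
theorem comm_le_centralizer {G : Type*} [Group G] {Q R X : Subgroup G}
    (hXR : X ≤ Subgroup.centralizer (R : Set G))
    (hQR : ∀ q ∈ Q, ∀ r ∈ R, q * r * q⁻¹ ∈ R)
    (hXQ : ∀ x ∈ X, ∀ q ∈ Q, q⁻¹ * x * q * x⁻¹ ∈ R) :
    ⁅X, X⁆ ≤ Subgroup.centralizer (Q : Set G) := by
  have hcent : ∀ x ∈ X, ∀ r ∈ R, r * x = x * r := fun x hx r hr =>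
    (Subgroup.mem_centralizer_iff.1 (hXR hx)) r hr
  have hcentral : ∀ x ∈ X, ∀ q ∈ Q, ∀ r ∈ R,
      (q⁻¹ * x * q * x⁻¹) * r = r * (q⁻¹ * x * q * x⁻¹) := by
    intro x hx q hq r hr
    have h1 : (q * r * q⁻¹) * x = x * (q * r * q⁻¹) := hcent x hx _ (hQR q hq r hr)
    have h2 : x⁻¹ * r = r * x⁻¹ :=
      (Commute.inv_left (show Commute x r from (hcent x hx r hr).symm)).eq
    calc (q⁻¹ * x * q * x⁻¹) * r = q⁻¹ * x * q * (x⁻¹ * r) := by group
      _ = q⁻¹ * x * q * (r * x⁻¹) := by rw [h2]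
      _ = q⁻¹ * (x * (q * r * q⁻¹)) * q * x⁻¹ := by group
      _ = q⁻¹ * ((q * r * q⁻¹) * x) * q * x⁻¹ := by rw [h1]
      _ = r * (q⁻¹ * x * q * x⁻¹) := by group
  have key : ∀ x ∈ X, ∀ y ∈ X, ∀ q ∈ Q,
      x * y * q * y⁻¹ * x⁻¹ = y * x * q * x⁻¹ * y⁻¹ := by
    intro x hx y hy q hq
    obtain ⟨a, hadef⟩ : ∃ a, a = q⁻¹ * x * q * x⁻¹ := ⟨_, rfl⟩
    obtain ⟨b, hbdef⟩ : ∃ b, b = q⁻¹ * y * q * y⁻¹ := ⟨_, rfl⟩
    have haR : a ∈ R := hadef ▸ hXQ x hx q hq
    have hbR : b ∈ R := hbdef ▸ hXQ y hy q hq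
    have ha : x * q * x⁻¹ = q * a := by rw [hadef]; group
    have hb : y * q * y⁻¹ = q * b := by rw [hbdef]; group
    have hxb : x * b * x⁻¹ = b := by
      rw [← hcent x hx b hbR, mul_inv_cancel_right]
    have hya : y * a * y⁻¹ = a := by
      rw [← hcent y hy a haR, mul_inv_cancel_right]
    have hab : a * b = b * a := by
      rw [hadef]
      exact hcentral x hx q hq b hbR
    calc x * y * q * y⁻¹ * x⁻¹ = x * (y * q * y⁻¹) * x⁻¹ := by group
      _ = x * (q * b) * x⁻¹ := by rw [hb]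
      _ = (x * q * x⁻¹) * (x * b * x⁻¹) := by group
      _ = q * a * b := by rw [ha, hxb]
      _ = q * b * a := by rw [mul_assoc, hab, ← mul_assoc]
      _ = (y * q * y⁻¹) * (y * a * y⁻¹) := by rw [hb, hya]
      _ = y * (x * q * x⁻¹) * y⁻¹ := by rw [ha]; group
      _ = y * x * q * x⁻¹ * y⁻¹ := by group
  rw [Subgroup.commutator_le]
  intro x hx y hy
  rw [Subgroup.mem_centralizer_iff]
  intro q hq
  have key' := key x⁻¹ (X.inv_mem hx) y⁻¹ (X.inv_mem hy) q hq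
  rw [commutatorElement_def]
  calc q * (x * y * x⁻¹ * y⁻¹)
      = x * y * (y⁻¹ * x⁻¹ * q * x⁻¹⁻¹ * y⁻¹⁻¹) * x⁻¹ * y⁻¹ := by group
    _ = x * y * (x⁻¹ * y⁻¹ * q * y⁻¹⁻¹ * x⁻¹⁻¹) * x⁻¹ * y⁻¹ := by rw [← key']
    _ = (x * y * x⁻¹ * y⁻¹) * q := by group

/-- The intersection of a subgroup normal in `F` with the Sylow of a saturated subsystem is
normal in the subsystem. -/
theorem isNormal_inf_of_subsystem [Finite S] {p : ℕ} [Fact p.Prime] (hS : IsPGroup p S)
    (F : FusionSystem S) {Q : Subgroup Ω} (hQ : F.IsNormal Q) {T : Subgroup Ω} (hTS : T ≤ S)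
    (D : FusionSystem T) (hD : D.IsSaturated p) (hDF : D.IsSubsystemOf F) :
    D.IsNormal (Q ⊓ T) := by
  have hfinT : Finite T := finite_of_le hTS
  obtain ⟨n, Qs, h0, hn, hmono, hstep⟩ := exists_chain_of_isNormal hS F hQ
  apply isNormal_of_chain (hS.to_le hTS) D hD n (fun i => Qs i ⊓ T)
  · show Qs 0 ⊓ T = ⊥
    rw [h0, bot_inf_eq]
  · show Qs (Fin.last n) ⊓ T = Q ⊓ T
    rw [hn]
  · intro i j hij
    exact inf_le_inf_right T (hmono hij)
  · intro i
    refine ⟨⟨inf_le_right, fun R hR φ hφ x => ⟨?_, ?_⟩⟩, ?_⟩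
    · exact (hstep i).1.2 R (hR.trans inf_le_left) φ (hDF R hφ) x
    · exact (D.le_of_mem hφ).2 x
    · apply le_inf
      · exact (Subgroup.commutator_mono inf_le_left inf_le_left).trans (hstep i).2
      · exact (Subgroup.commutator_mono inf_le_right inf_le_right).trans (commutator_le_self' T)

theorem isNormal_inf_of_stronglyClosed [Finite S] {p : ℕ} [Fact p.Prime] (hS : IsPGroup p S)
    (F : FusionSystem S) (hF : F.IsSaturated p) {Q : Subgroup Ω} (hQ : F.IsNormal Q)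
    {T : Subgroup Ω} (hT : F.StronglyClosed T) : F.IsNormal (Q ⊓ T) := by
  obtain ⟨n, Qs, h0, hn, hmono, hstep⟩ := exists_chain_of_isNormal hS F hQ
  apply isNormal_of_chain hS F hF n (fun i => Qs i ⊓ T)
  · show Qs 0 ⊓ T = ⊥
    rw [h0, bot_inf_eq]
  · show Qs (Fin.last n) ⊓ T = Q ⊓ T
    rw [hn]
  · intro i j hij
    exact inf_le_inf_right T (hmono hij)
  · intro i
    refine ⟨stronglyClosed_inf F (hstep i).1 hT, ?_⟩
    apply le_inf
    · exact (Subgroup.commutator_mono inf_le_left inf_le_left).trans (hstep i).2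
    · exact (Subgroup.commutator_mono inf_le_right inf_le_right).trans (commutator_le_self' T)

/-- In a constrained system `O_p(F)` contains its centralizer. -/
theorem centralizerIn_core_le [Finite S] (F : FusionSystem S) {p : ℕ} (hF : F.IsConstrained p) :
    FusionSystem.centralizerIn S F.core ≤ F.core := by
  obtain ⟨-, Q₀, hQ₀, hQ₀c⟩ := hF
  have h1 : Q₀ ≤ F.core := le_sSup hQ₀
  have h2 : FusionSystem.centralizerIn S Q₀ ≤ Q₀ :=
    hQ₀c.2 Q₀ ⟨Q₀.subtype, id_mem F hQ₀.1, Subgroup.range_subtype Q₀⟩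
  intro x hx
  apply h1
  apply h2
  exact ⟨hx.1, Subgroup.centralizer_le (by exact_mod_cast h1) hx.2⟩

/-- In a constrained system, `C_T(O_p(F) ∩ T) ≤ O_p(F)` for `T` strongly closed. -/
theorem centralizer_inf_le_core [Finite S] {p : ℕ} [Fact p.Prime] (hS : IsPGroup p S)
    (F : FusionSystem S) (hF : F.IsConstrained p) {T : Subgroup Ω} (hT : F.StronglyClosed T) :
    T ⊓ FusionSystem.centralizerIn S (F.core ⊓ T) ≤ F.core := by
  obtain ⟨Q, hQdef⟩ : ∃ Q, Q = F.core := ⟨_, rfl⟩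
  have hQ : F.IsNormal Q := hQdef ▸ isNormal_core F
  have hQc : FusionSystem.centralizerIn S Q ≤ Q := hQdef ▸ centralizerIn_core_le F hF
  rw [← hQdef]
  have hQsc := stronglyClosed_of_isNormal F hQ
  have hR : F.IsNormal (Q ⊓ T) := isNormal_inf_of_stronglyClosed hS F hF.1 hQ hT
  obtain ⟨X, hXdef⟩ : ∃ X, X = T ⊓ FusionSystem.centralizerIn S (Q ⊓ T) := ⟨_, rfl⟩
  rw [← hXdef]
  have hXsc : F.StronglyClosed X := by
    rw [hXdef]
    exact stronglyClosed_inf F hT (stronglyClosed_centralizerIn F hR)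
  have hXT : X ≤ T := hXdef ▸ inf_le_left
  have hXS : X ≤ S := hXsc.1
  have hXR : X ≤ Subgroup.centralizer ((Q ⊓ T : Subgroup Ω) : Set Ω) := by
    rw [hXdef]
    exact inf_le_right.trans inf_le_right
  have hNT := le_normalizer_of_sc F hT
  have hNQ := le_normalizer_of_sc F hQsc
  have hconjT : ∀ s ∈ S, ∀ t ∈ T, s * t * s⁻¹ ∈ T := fun s hs t ht =>
    conj_mem_of_sc F hT hs ht
  have hconjQ : ∀ s ∈ S, ∀ t ∈ Q, s * t * s⁻¹ ∈ Q := fun s hs t ht =>
    conj_mem_of_sc F hQsc hs ht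
  have h1 : ⁅X, X⁆ ≤ Subgroup.centralizer (Q : Set Ω) := by
    apply comm_le_centralizer hXR
    · intro q hq r hr
      exact ⟨hconjQ q (hQ.1 hq) r hr.1, hconjT q (hQ.1 hq) r hr.2⟩
    · intro x hx q hq
      refine ⟨?_, ?_⟩
      · have h2 : q⁻¹ * x * q * x⁻¹ = q⁻¹ * (x * q * x⁻¹) := by group
        rw [h2]
        exact Q.mul_mem (Q.inv_mem hq) (hconjQ x (hXS hx) q hq)
      · have h2 := hconjT q⁻¹ (S.inv_mem (hQ.1 hq)) x (hXT hx)
        rw [inv_inv] at h2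
        exact T.mul_mem h2 (T.inv_mem (hXT hx))
  have h2 : ⁅X, X⁆ ≤ X ⊓ Q := by
    apply le_inf (commutator_le_self' X)
    intro z hz
    exact hQc ⟨hXS (commutator_le_self' X hz), h1 hz⟩
  have hXn : F.IsNormal X := by
    apply isNormal_of_chain hS F hF.1 2 ![⊥, X ⊓ Q, X] rfl rfl
    · rw [Fin.monotone_iff_le_succ]
      intro i
      fin_cases i
      · exact bot_le
      · exact inf_le_left
    · intro i
      fin_cases i
      · refine ⟨stronglyClosed_inf F hXsc hQsc, ?_⟩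
        show ⁅X, X ⊓ Q⁆ ≤ ⊥
        rw [Subgroup.commutator_le]
        intro a ha b hb
        rw [Subgroup.mem_bot, commutatorElement_eq_one_iff_mul_comm]
        exact ((Subgroup.mem_centralizer_iff.1 (hXR ha)) b ⟨hb.2, hXT hb.1⟩).symm
      · exact ⟨hXsc, h2⟩
  rw [hQdef]
  exact le_sSup (show X ∈ {Q : Subgroup Ω | F.IsNormal Q} from hXn)

/-- A saturated subsystem over a strongly closed subgroup of a constrained system is
constrained. -/
theorem isConstrained_of_subsystem [Finite S] {p : ℕ} [Fact p.Prime] (hS : IsPGroup p S)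
    (F : FusionSystem S) (hF : F.IsConstrained p) {T : Subgroup Ω} (hT : F.StronglyClosed T)
    (D : FusionSystem T) (hD : D.IsSaturated p) (hDF : D.IsSubsystemOf F) :
    D.IsConstrained p := by
  have hTS : T ≤ S := hT.1
  have hfinT : Finite T := finite_of_le hTS
  have hRn : D.IsNormal (F.core ⊓ T) :=
    isNormal_inf_of_subsystem hS F (isNormal_core F) hTS D hD hDF
  refine ⟨hD, F.core ⊓ T, hRn, inf_le_right, ?_⟩
  intro R' hR'
  obtain ⟨φ, hφ, hφr⟩ := hR'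
  have h1 := (weaklyClosed_of_stronglyClosed D (stronglyClosed_of_isNormal D hRn)).2 φ hφ
  rw [← hφr, h1]
  intro x hx
  have hxT : x ∈ T := hx.1
  have h2 : x ∈ T ⊓ FusionSystem.centralizerIn S (F.core ⊓ T) := ⟨hxT, hTS hxT, hx.2⟩
  exact ⟨centralizer_inf_le_core hS F hF hT h2, hxT⟩

theorem isConstrained_of_isSubnormalIn {T S : Subgroup Ω} {E : FusionSystem T}
    {F : FusionSystem S} {p : ℕ} (h : E.IsSubnormalIn F p) :
    Finite S → Fact p.Prime → IsPGroup p S → F.IsConstrained p → E.IsConstrained p := by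
  induction h with
  | refl F p =>
    intro _ _ _ h
    exact h
  | @step U S E D F p hED hDF ih =>
    intro hfin hp hS hF
    have hU : F.StronglyClosed U := hDF.1.2.2.2.1
    have hUS : U ≤ S := hU.1
    exact ih (finite_of_le hUS) hp (hS.to_le hUS)
      (isConstrained_of_subsystem hS F hF hU D hDF.1.1 hDF.1.2.2.1)

end Cfsg.Agent.Lib.Helper8.Constr
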