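import Cfsg.Agent.Lib.Helper8.Quasi2

set_option autoImplicit false

namespace Cfsg.Agent.Lib.Helper8.Direct

open Cfsg Cfsg.FusionSystem Cfsg.Agent.Lib.Helper8.Fusion Cfsg.Agent.Lib.Helper8.FactorSys
  Cfsg.Agent.Lib.Helper8.Sat Cfsg.Agent.Lib.Helper8.Sat2 Cfsg.Agent.Lib.Helper8.Alperin2
  Cfsg.Agent.Lib.Helper8.GroupSub Cfsg.Agent.Lib.Helper8.Morph Cfsg.Agent.Lib.Helper8.Normal
  Cfsg.Agent.Lib.Helper8.Normal2 Cfsg.Agent.Lib.Helper8.Chain2 Cfsg.Agent.Lib.Helper8.Central

/-- Fixed points of a group acting on an abelian `p`-group form a direct factor of the fixed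
points of a subgroup of index prime to `p`. -/
theorem exists_complement_fixed {G A : Type*} [Group G] [Finite G] [CommGroup A]
    (ρ : G →* MulAut A) (p : ℕ) [Fact p.Prime] (hA : IsPGroup p A) (P : Subgroup G)
    (hP : (P.index).Coprime p) (V C : Subgroup A)
    (hV : ∀ a, a ∈ V ↔ ∀ h ∈ P, ρ h a = a) (hC : ∀ a, a ∈ C ↔ ∀ g : G, ρ g a = a) :
    ∃ K : Subgroup A, K ≤ V ∧ C ⊓ K = ⊥ ∧ C ⊔ K = V := by
  classical
  have hfinq : Fintype (G ⧸ P) := Fintype.ofFinite _
  obtain ⟨tr, htr⟩ : ∃ tr : A →* A, ∀ a, tr a = ∏ q : G ⧸ P, ρ (Quotient.out q : G) a :=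
    ⟨{ toFun := fun a => ∏ q : G ⧸ P, ρ (Quotient.out q : G) a
       map_one' := by simp
       map_mul' := fun a b => by simp [Finset.prod_mul_distrib] }, fun a => rfl⟩
  have hCV : C ≤ V := fun a ha => (hV a).2 (fun h _ => (hC a).1 ha h)
  have htrC : ∀ a ∈ V, tr a ∈ C := by
    intro a ha
    rw [hC]
    intro g
    rw [htr, map_prod]
    have h1 : ∀ q : G ⧸ P, ρ g (ρ (Quotient.out q : G) a) = ρ (Quotient.out (g • q) : G) a := by
      intro q
      have h2 : ((Quotient.out (g • q) : G))⁻¹ * (g * Quotient.out q) ∈ P := by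
        rw [← QuotientGroup.eq, QuotientGroup.out_eq']
        calc g • q = g • (((Quotient.out q : G) : G ⧸ P)) := by rw [QuotientGroup.out_eq']
          _ = ((g * Quotient.out q : G) : G ⧸ P) := rfl
      have h3 := (hV a).1 ha _ h2
      rw [map_mul, map_mul, map_inv] at h3
      have h4 : ρ (Quotient.out (g • q) : G) ((ρ (Quotient.out (g • q) : G))⁻¹
          (ρ g (ρ (Quotient.out q : G) a))) = ρ g (ρ (Quotient.out q : G) a) :=
        MulAut.apply_inv_self _ _ _
      rw [← h4]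
      exact congrArg _ h3
    rw [Finset.prod_congr rfl (fun q _ => h1 q)]
    exact Fintype.prod_equiv (MulAction.toPerm g) _ _ (fun q => rfl)
  have htrpow : ∀ c ∈ C, tr c = c ^ P.index := by
    intro c hc
    rw [htr, Finset.prod_congr rfl (fun q _ => (hC c).1 hc _), Finset.prod_const,
      Finset.card_univ, Subgroup.index, Nat.card_eq_fintype_card]
  refine ⟨tr.ker ⊓ V, inf_le_right, ?_, ?_⟩
  · rw [eq_bot_iff]
    rintro c ⟨hc, hck, -⟩
    rw [Subgroup.mem_bot]
    have h1 : c ^ P.index = 1 := by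
      rw [← htrpow c hc]
      exact hck
    obtain ⟨k, hk⟩ := hA c
    have h2 : orderOf c ∣ P.index := orderOf_dvd_of_pow_eq_one h1
    have h3 : orderOf c ∣ p ^ k := orderOf_dvd_of_pow_eq_one hk
    have h4 : orderOf c = 1 :=
      Nat.Coprime.eq_one_of_dvd
        (Nat.Coprime.coprime_dvd_right h2 (Nat.Coprime.coprime_dvd_left h3
          (Nat.Coprime.pow_left k hP.symm))) dvd_rfl
    exact orderOf_eq_one_iff.1 h4
  · apply le_antisymm
    · exact sup_le hCV inf_le_right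
    · intro v hv
      obtain ⟨k, hk⟩ := hA (tr v)
      have h3 : orderOf (tr v) ∣ p ^ k := orderOf_dvd_of_pow_eq_one hk
      have hcop : (P.index).Coprime (orderOf (tr v)) :=
        Nat.Coprime.coprime_dvd_right h3 (Nat.Coprime.pow_right k hP)
      obtain ⟨m, hm⟩ := exists_pow_eq_self_of_coprime hcop
      obtain ⟨c, hcdef⟩ : ∃ c : A, c = (tr v) ^ m := ⟨_, rfl⟩
      have hcC : c ∈ C := by
        rw [hcdef]
        exact C.pow_mem (htrC v hv) m
      have h1 : tr c = tr v := by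
        rw [htrpow c hcC, hcdef, pow_right_comm]
        exact hm
      have h2 : v = c * (c⁻¹ * v) := by rw [mul_inv_cancel_left]
      rw [h2]
      apply Subgroup.mul_mem_sup hcC
      refine ⟨?_, V.mul_mem (V.inv_mem (hCV hcC)) hv⟩
      show c⁻¹ * v ∈ tr.ker
      rw [MonoidHom.mem_ker, map_mul, map_inv, h1, inv_mul_cancel]

variable {Ω : Type*} [Group Ω] {S : Subgroup Ω}

open scoped IsMulCommutative

/-- Restriction of automorphisms to the centre. -/
noncomputable def centerRes (G : Type*) [Group G] : MulAut G →* MulAut (Subgroup.center G) where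
  toFun α := Subgroup.centerCongr α
  map_one' := by ext; rfl
  map_mul' a b := by ext; rfl

theorem isFullyNormalized_of_isNormal [Finite S] (F : FusionSystem S) {Q : Subgroup Ω}
    (hQ : F.IsNormal Q) : F.IsFullyNormalized Q := by
  refine ⟨hQ.1, fun R hR => ?_⟩
  obtain ⟨φ, hφ, hφr⟩ := hR
  have h1 := (weaklyClosed_of_stronglyClosed F (stronglyClosed_of_isNormal F hQ)).2 φ hφ
  rw [← hφr, h1]

/-- If `Z(S) ≤ O_p(F)` then `Z(F)` is a direct factor of `Z(S)`. -/
theorem center_direct_factor [Finite S] (p : ℕ) [Fact p.Prime] (hS : IsPGroup p S)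
    (F : FusionSystem S) (hF : F.IsSaturated p)
    (hZ : (S ⊓ Subgroup.centralizer (S : Set Ω)) ≤ F.core) :
    ∃ K : Subgroup Ω, K ≤ (S ⊓ Subgroup.centralizer (S : Set Ω)) ∧ F.center ⊓ K = ⊥ ∧
      F.center ⊔ K = (S ⊓ Subgroup.centralizer (S : Set Ω)) := by
  obtain ⟨Q, hQdef⟩ : ∃ Q, Q = F.core := ⟨_, rfl⟩
  have hQ : F.IsNormal Q := hQdef ▸ isNormal_core F
  rw [← hQdef] at hZ
  have hQS : Q ≤ S := hQ.1
  have hQsc : F.StronglyClosed Q := stronglyClosed_of_isNormal F hQ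
  have hNQ : S ≤ Subgroup.normalizer (Q : Set Ω) := le_normalizer_of_sc F hQsc
  have hfinQ : Finite Q := finite_of_le hQS
  have hfinG : Finite (F.autGroup Q) := inferInstance
  obtain ⟨ρ, hρ⟩ : ∃ ρ : F.autGroup Q →* MulAut (Subgroup.center Q),
      ∀ g z, ((ρ g z : Subgroup.center Q) : Q) = (g : MulAut Q) (z : Q) :=
    ⟨(centerRes Q).comp (F.autGroup Q).subtype, fun g z => rfl⟩
  obtain ⟨ι, hι⟩ : ∃ ι : Subgroup.center Q →* Ω, ∀ z, ι z = ((z : Q) : Ω) :=
    ⟨Q.subtype.comp (Subgroup.center Q).subtype, fun z => rfl⟩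
  have hιinj : Function.Injective ι := by
    intro a b hab
    rw [hι, hι] at hab
    exact Subtype.ext (Subtype.ext hab)
  obtain ⟨P, hP⟩ : ∃ P : Subgroup (F.autGroup Q),
      P = (autInducedBy S Q).subgroupOf (F.autGroup Q) := ⟨_, rfl⟩
  have hQn : F.IsFullyNormalized Q := isFullyNormalized_of_isNormal F hQ
  obtain ⟨-, R₀, hR₀⟩ := (isFullyCentralized_and_isFullyAutomized hS F hF hQn).2
  have hidx : (P.index).Coprime p := by
    rw [hP, ← hR₀]
    exact ((Nat.Prime.coprime_iff_not_dvd Fact.out).2 R₀.not_dvd_index).symm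
  obtain ⟨V, hV⟩ : ∃ V : Subgroup (Subgroup.center Q),
      V = (S ⊓ Subgroup.centralizer (S : Set Ω)).comap ι := ⟨_, rfl⟩
  obtain ⟨C, hC⟩ : ∃ C : Subgroup (Subgroup.center Q), C = F.center.comap ι := ⟨_, rfl⟩
  have hcentral := (isCentral_iff hS F hF F.center).1 (isCentral_center F)
  have hVfix : ∀ a, a ∈ V ↔ ∀ h ∈ P, ρ h a = a := by
    intro a
    rw [hV, Subgroup.mem_comap, hι]
    constructor
    · rintro ⟨-, ha⟩ h hh
      rw [hP, Subgroup.mem_subgroupOf] at hh
      obtain ⟨s, hs, hsx⟩ := mem_autInducedBy_iff.mp hh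
      apply Subtype.ext
      apply Subtype.ext
      rw [hρ, hsx]
      have h1 := (Subgroup.mem_centralizer_iff.1 ha) s hs
      rw [h1, mul_inv_cancel_right]
    · intro h
      refine ⟨hQS (a : Q).2, ?_⟩
      show ((a : Q) : Ω) ∈ Subgroup.centralizer (S : Set Ω)
      rw [Subgroup.mem_centralizer_iff]
      intro s hs
      obtain ⟨γ, hγdef⟩ : ∃ γ : MulAut Q, γ = Q.normalizerMonoidHom ⟨s, hNQ hs⟩ := ⟨_, rfl⟩
      have hγx : ∀ x : Q, ((γ x : Q) : Ω) = s * x * s⁻¹ := fun x => by rw [hγdef]; rfl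
      have hγS : γ ∈ autInducedBy S Q := mem_autInducedBy_iff.mpr ⟨s, hs, hγx⟩
      have hγA : γ ∈ F.autGroup Q := autInducedBy_le_autGroup F hQS hγS
      have h1 := h ⟨γ, hγA⟩ (by rw [hP, Subgroup.mem_subgroupOf]; exact hγS)
      have h2 : ((γ (a : Q) : Q) : Ω) = ((a : Q) : Ω) := by
        rw [← hρ ⟨γ, hγA⟩ a, h1]
      rw [hγx] at h2
      calc s * ((a : Q) : Ω) = s * ((a : Q) : Ω) * s⁻¹ * s := by group
        _ = ((a : Q) : Ω) * s := by rw [h2]
  have hCfix : ∀ a, a ∈ C ↔ ∀ g, ρ g a = a := by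
    intro a
    rw [hC, Subgroup.mem_comap, hι]
    constructor
    · intro ha g
      apply Subtype.ext
      apply Subtype.ext
      rw [hρ]
      apply hcentral.2 _ ha
      have hzQ : Subgroup.zpowers ((a : Q) : Ω) ≤ Q := by
        rw [Subgroup.zpowers_le]
        exact (a : Q).2
      refine ⟨(Q.subtype.comp (g : MulAut Q).toMonoidHom).comp (Subgroup.inclusion hzQ),
        restrict_mem F hzQ ((mem_autGroup_iff F hQS (g : MulAut Q)).1 g.2), rfl⟩
    · intro h
      have hzc : F.IsCentral (Subgroup.zpowers ((a : Q) : Ω)) := by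
        rw [isCentral_iff hS F hF]
        have hzQ : Subgroup.zpowers ((a : Q) : Ω) ≤ Q := by
          rw [Subgroup.zpowers_le]
          exact (a : Q).2
        refine ⟨hzQ.trans hQS, ?_⟩
        intro x hx y hy
        obtain ⟨k, rfl⟩ := Subgroup.mem_zpowers_iff.1 hx
        obtain ⟨φ, hφ, hφx⟩ := hy
        have hxQ : Subgroup.zpowers (((a : Q) : Ω) ^ k) ≤ Q := by
          rw [Subgroup.zpowers_le]
          exact Q.zpow_mem (a : Q).2 k
        obtain ⟨α, hα, hαφ⟩ := (isNormal_iff_extend hS F hF Q hQS).1 hQ _ hxQ φ hφ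
        have h1 := h ⟨α, hα⟩
        have h2 : ρ ⟨α, hα⟩ (a ^ k) = a ^ k := by rw [map_zpow, h1]
        have h3 : ((α ((a ^ k : Subgroup.center Q) : Q) : Q) : Ω) =
            (((a ^ k : Subgroup.center Q) : Q) : Ω) := by
          rw [← hρ ⟨α, hα⟩ (a ^ k), h2]
        have h4 : (((a ^ k : Subgroup.center Q) : Q) : Ω) = ((a : Q) : Ω) ^ k := by
          rw [← hι, ← hι, map_zpow]
        have h5 : (Subgroup.inclusion hxQ ⟨((a : Q) : Ω) ^ k, Subgroup.mem_zpowers _⟩ : Q) =
            ((a ^ k : Subgroup.center Q) : Q) := Subtype.ext h4.symm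
        rw [← hφx, ← hαφ, h5, h3, h4]
      have hle : Subgroup.zpowers ((a : Q) : Ω) ≤ F.center :=
        le_sSup (show Subgroup.zpowers ((a : Q) : Ω) ∈ {Q : Subgroup Ω | F.IsCentral Q} from hzc)
      exact hle (Subgroup.mem_zpowers _)
  have hA : IsPGroup p (Subgroup.center Q) := (hS.to_le hQS).to_subgroup _
  obtain ⟨K, hKV, hCK, hCKV⟩ := exists_complement_fixed ρ p hA P hidx V C hVfix hCfix
  have hVr : (S ⊓ Subgroup.centralizer (S : Set Ω)) ≤ ι.range := by
    intro v hv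
    have hvQ : v ∈ Q := hZ hv
    have hvc : (⟨v, hvQ⟩ : Q) ∈ Subgroup.center Q := by
      rw [Subgroup.mem_center_iff]
      intro w
      apply Subtype.ext
      exact (Subgroup.mem_centralizer_iff.1 hv.2) w (hQS w.2)
    exact ⟨⟨⟨v, hvQ⟩, hvc⟩, hι _⟩
  have hmapV : V.map ι = S ⊓ Subgroup.centralizer (S : Set Ω) := by
    rw [hV, Subgroup.map_comap_eq, inf_of_le_right hVr]
  have hCr : F.center ≤ S ⊓ Subgroup.centralizer (S : Set Ω) := by
    intro x hx
    have hxS : x ∈ S := hcentral.1 hx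
    refine ⟨hxS, ?_⟩
    show x ∈ Subgroup.centralizer (S : Set Ω)
    rw [Subgroup.mem_centralizer_iff]
    intro s hs
    have hzS : Subgroup.zpowers x ≤ S := by
      rw [Subgroup.zpowers_le]
      exact hxS
    have h1 : F.IsConjElt x (s * x * s⁻¹) :=
      ⟨conjHom (Subgroup.zpowers x) s, F.conj_mem hzS hs, rfl⟩
    have h2 := hcentral.2 x hx _ h1
    calc s * x = s * x * s⁻¹ * s := by group
      _ = x * s := by rw [h2]
  have hmapC : C.map ι = F.center := by
    rw [hC, Subgroup.map_comap_eq, inf_of_le_right (hCr.trans hVr)]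
  refine ⟨K.map ι, ?_, ?_, ?_⟩
  · rw [← hmapV]
    exact Subgroup.map_mono hKV
  · rw [← hmapC, ← Subgroup.map_inf_eq _ _ ι hιinj, hCK, Subgroup.map_bot]
  · rw [← hmapC, ← Subgroup.map_sup, hCKV, hmapV]

end Cfsg.Agent.Lib.Helper8.Direct
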