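import Cfsg.Agent.Lib.Helper8.WNormal
import Cfsg.Prelude.Def_PLocal

set_option autoImplicit false

namespace Cfsg.Agent.Lib.Helper8.Gillam

open Cfsg
open scoped commutatorElement

variable {S : Type*} [Group S]

theorem comm3 (n b X : S) (h1 : n * b = b * n) (h2 : n * X = X * n) :
    n * (b * X) = b * X * n := by
  rw [← mul_assoc, h1, mul_assoc, h2, mul_assoc]

theorem key [Finite S] (M : Subgroup S)
    (hM : ∀ x ∈ M, ∀ y ∈ M, x * y = y * x)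
    (hMc : ∀ g h : S, g⁻¹ * h * g * h⁻¹ ∈ M)
    (B : Subgroup S) (hB : B ∈ Cfsg.maxAbelianSubgroups S) (s : S) :
    ∃ B' ∈ Cfsg.maxAbelianSubgroups S, B' ≤ B ⊔ B.map (MulAut.conj s).toMonoidHom ∧
      B ⊓ M ≤ B' ⊓ M ∧
      (Nat.card ↥(B' ⊓ M) ≤ Nat.card ↥(B ⊓ M) → ∀ b ∈ B, s * b * s⁻¹ ∈ B) := by
  have hB0 : IsMulCommutative ↥B ∧
      ∀ C : Subgroup S, IsMulCommutative ↥C → Nat.card ↥C ≤ Nat.card ↥B := hB
  have hBc : ∀ x ∈ B, ∀ y ∈ B, x * y = y * x := fun x hx y hy =>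
    congrArg Subtype.val (hB0.1.is_comm.comm ⟨x, hx⟩ ⟨y, hy⟩)
  obtain ⟨B₂, hB₂def⟩ : ∃ B₂, B₂ = B.map (MulAut.conj s).toMonoidHom := ⟨_, rfl⟩
  rw [← hB₂def]
  have hmem₂ : ∀ b ∈ B, s * b * s⁻¹ ∈ B₂ := by
    intro b hb
    rw [hB₂def]
    exact Subgroup.mem_map.2 ⟨b, hb, rfl⟩
  have hB₂c : ∀ x ∈ B₂, ∀ y ∈ B₂, x * y = y * x := by
    intro x hx y hy
    rw [hB₂def] at hx hy
    obtain ⟨b₁, hb₁, rfl⟩ := Subgroup.mem_map.1 hx
    obtain ⟨b₂, hb₂, rfl⟩ := Subgroup.mem_map.1 hy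
    show (s * b₁ * s⁻¹) * (s * b₂ * s⁻¹) = (s * b₂ * s⁻¹) * (s * b₁ * s⁻¹)
    have h1 := hBc b₁ hb₁ b₂ hb₂
    calc (s * b₁ * s⁻¹) * (s * b₂ * s⁻¹) = s * (b₁ * b₂) * s⁻¹ := by group
      _ = s * (b₂ * b₁) * s⁻¹ := by rw [h1]
      _ = (s * b₂ * s⁻¹) * (s * b₁ * s⁻¹) := by group
  have hB₂card : Nat.card ↥B₂ = Nat.card ↥B := by
    rw [hB₂def]
    exact Subgroup.card_map_of_injective (MulAut.conj s).injective
  have hmaxab : ∀ (C : Subgroup S), (∀ x ∈ C, ∀ y ∈ C, x * y = y * x) →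
      Nat.card ↥C = Nat.card ↥B → ∀ g : S, (∀ c ∈ C, g * c = c * g) → g ∈ C := by
    intro C hCc hCcard g hg
    have hcomm : ∀ a ∈ (C : Set S) ∪ {g}, ∀ b ∈ (C : Set S) ∪ {g}, a * b = b * a := by
      rintro a (ha | ha) b (hb | hb)
      · exact hCc a ha b hb
      · rw [Set.mem_singleton_iff] at hb; rw [hb]; exact (hg a ha).symm
      · rw [Set.mem_singleton_iff] at ha; rw [ha]; exact hg b hb
      · rw [Set.mem_singleton_iff] at ha hb; rw [ha, hb]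
    have hDc : IsMulCommutative ↥(Subgroup.closure ((C : Set S) ∪ {g})) :=
      Subgroup.isMulCommutative_closure hcomm
    have hle : C ≤ Subgroup.closure ((C : Set S) ∪ {g}) := fun x hx =>
      Subgroup.subset_closure (Or.inl hx)
    have hcard : Nat.card ↥(Subgroup.closure ((C : Set S) ∪ {g})) ≤ Nat.card ↥C := by
      rw [hCcard]; exact hB0.2 _ hDc
    have heq := Subgroup.eq_of_le_of_card_ge hle hcard
    rw [heq]
    exact Subgroup.subset_closure (Or.inr rfl)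
  have hμM : ∀ b : S, b⁻¹ * s * b * s⁻¹ ∈ M := fun b => hMc b s
  have hμ : ∀ b : S, s * b * s⁻¹ = b * (b⁻¹ * s * b * s⁻¹) := by
    intro b; group
  have hN₁B₂ : B ⊓ M ≤ B₂ := by
    intro n hn
    obtain ⟨hnB, hnM⟩ := Subgroup.mem_inf.1 hn
    apply hmaxab B₂ hB₂c hB₂card n
    intro y hy
    rw [hB₂def] at hy
    obtain ⟨b, hb, rfl⟩ := Subgroup.mem_map.1 hy
    show n * (s * b * s⁻¹) = (s * b * s⁻¹) * n
    rw [hμ b]
    exact comm3 n b _ (hBc n hnB b hb) (hM n hnM _ (hμM b))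
  obtain ⟨M₁, hM₁def⟩ : ∃ M₁, M₁ = M ⊓ (B ⊔ B₂) := ⟨_, rfl⟩
  obtain ⟨K, hKdef⟩ : ∃ K, K = B ⊓ B₂ := ⟨_, rfl⟩
  have hM₁M : M₁ ≤ M := by rw [hM₁def]; exact inf_le_left
  have hM₁le : M₁ ≤ B ⊔ B₂ := by rw [hM₁def]; exact inf_le_right
  have hKB : K ≤ B := by rw [hKdef]; exact inf_le_left
  have hKB₂ : K ≤ B₂ := by rw [hKdef]; exact inf_le_right
  have hN₁M₁ : B ⊓ M ≤ M₁ := by
    rw [hM₁def]; exact le_inf inf_le_right (inf_le_left.trans le_sup_left)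
  have hμM₁ : ∀ b ∈ B, b⁻¹ * s * b * s⁻¹ ∈ M₁ := by
    intro b hb
    rw [hM₁def]
    refine Subgroup.mem_inf.2 ⟨hμM b, ?_⟩
    have h1 : b⁻¹ * (s * b * s⁻¹) ∈ B ⊔ B₂ :=
      Subgroup.mul_mem _ (Subgroup.mem_sup_left (B.inv_mem hb))
        (Subgroup.mem_sup_right (hmem₂ b hb))
    have e : b⁻¹ * s * b * s⁻¹ = b⁻¹ * (s * b * s⁻¹) := by group
    rw [e]; exact h1
  have hcommB' : ∀ a ∈ (M₁ : Set S) ∪ (K : Set S), ∀ b ∈ (M₁ : Set S) ∪ (K : Set S),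
      a * b = b * a := by
    have hmk : ∀ m ∈ M₁, ∀ c ∈ K, m * c = c * m := by
      intro m hm c hc
      have h1 : B ⊔ B₂ ≤ Subgroup.centralizer ({c} : Set S) := by
        apply sup_le
        · intro b hb
          rw [Subgroup.mem_centralizer_iff]
          intro h hh
          rw [Set.mem_singleton_iff] at hh
          rw [hh]; exact hBc c (hKB hc) b hb
        · intro y hy
          rw [Subgroup.mem_centralizer_iff]
          intro h hh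
          rw [Set.mem_singleton_iff] at hh
          rw [hh]; exact hB₂c c (hKB₂ hc) y hy
      have h2 := Subgroup.mem_centralizer_iff.1 (h1 (hM₁le hm)) c (Set.mem_singleton c)
      exact h2.symm
    rintro a (ha | ha) b (hb | hb)
    · exact hM a (hM₁M ha) b (hM₁M hb)
    · exact hmk a ha b hb
    · exact (hmk b hb a ha).symm
    · exact hBc a (hKB ha) b (hKB hb)
  have hB'c : IsMulCommutative ↥(M₁ ⊔ K) := by
    rw [Subgroup.sup_eq_closure]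
    exact Subgroup.isMulCommutative_closure hcommB'
  have hfib : ∀ (b₀ b : S) (n₀ n : S), b₀ ∈ B → b ∈ B → n₀ ∈ B ⊓ M → n ∈ B ⊓ M →
      b⁻¹ * s * b * s⁻¹ * n = b₀⁻¹ * s * b₀ * s⁻¹ * n₀ → b * b₀⁻¹ ∈ K := by
    intro b₀ b n₀ n hb₀ hb hn₀ hn h
    rw [hKdef]
    refine Subgroup.mem_inf.2 ⟨B.mul_mem hb (B.inv_mem hb₀), ?_⟩
    have e : b * b₀⁻¹ = (s * b * s⁻¹) * n * n₀⁻¹ * (s * b₀ * s⁻¹)⁻¹ := by
      have h' : s * b * s⁻¹ * n = b * b₀⁻¹ * (s * b₀ * s⁻¹) * n₀ := by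
        calc s * b * s⁻¹ * n = b * (b⁻¹ * s * b * s⁻¹ * n) := by group
          _ = b * (b₀⁻¹ * s * b₀ * s⁻¹ * n₀) := by rw [h]
          _ = b * b₀⁻¹ * (s * b₀ * s⁻¹) * n₀ := by group
      calc b * b₀⁻¹ = (b * b₀⁻¹ * (s * b₀ * s⁻¹) * n₀) * n₀⁻¹ * (s * b₀ * s⁻¹)⁻¹ := by group
        _ = (s * b * s⁻¹ * n) * n₀⁻¹ * (s * b₀ * s⁻¹)⁻¹ := by rw [h']
    rw [e]
    exact B₂.mul_mem (B₂.mul_mem (B₂.mul_mem (hmem₂ b hb) (hN₁B₂ hn)) (B₂.inv_mem (hN₁B₂ hn₀)))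
      (B₂.inv_mem (hmem₂ b₀ hb₀))
  have hcount1 : Nat.card ↥B * Nat.card ↥(B ⊓ M) ≤ Nat.card ↥K * Nat.card ↥M₁ := by
    have h0 : Nat.card (↥B × ↥(B ⊓ M)) ≤ Nat.card ↥K * Nat.card ↥M₁ :=
      WNormal.card_le_of_fiber
        (fun a : ↥B × ↥(B ⊓ M) => (⟨(a.1 : S)⁻¹ * s * (a.1 : S) * s⁻¹ * (a.2 : S),
          M₁.mul_mem (hμM₁ a.1.1 a.1.2) (hN₁M₁ a.2.2)⟩ : ↥M₁))
        (fun a₀ a h => (⟨(a.1 : S) * (a₀.1 : S)⁻¹,
          hfib a₀.1.1 a.1.1 a₀.2.1 a.2.1 a₀.1.2 a.1.2 a₀.2.2 a.2.2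
            (congrArg Subtype.val h)⟩ : ↥K))
        (by
          intro a₀ a a' h h' hgg
          have h1 : (a.1 : S) * (a₀.1 : S)⁻¹ = (a'.1 : S) * (a₀.1 : S)⁻¹ :=
            congrArg Subtype.val hgg
          have h2 : (a.1 : S) = (a'.1 : S) := mul_right_cancel h1
          have h3 : (a.1 : S)⁻¹ * s * (a.1 : S) * s⁻¹ * (a.2 : S) =
              (a'.1 : S)⁻¹ * s * (a'.1 : S) * s⁻¹ * (a'.2 : S) :=
            congrArg Subtype.val (h.trans h'.symm)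
          rw [h2] at h3
          have h4 : (a.2 : S) = (a'.2 : S) := mul_left_cancel h3
          exact Prod.ext (Subtype.ext h2) (Subtype.ext h4))
    rwa [Nat.card_prod] at h0
  have hcount2 := WNormal.card_mul_le M₁ K
  have hcount3 : Nat.card ↥(M₁ ⊓ K) ≤ Nat.card ↥(B ⊓ M) :=
    Subgroup.card_le_of_le (le_inf (inf_le_right.trans hKB) (inf_le_left.trans hM₁M))
  have hpos : 0 < Nat.card ↥(B ⊓ M) := Nat.card_pos
  have hcard : Nat.card ↥B ≤ Nat.card ↥(M₁ ⊔ K) := by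
    have h1 : Nat.card ↥B * Nat.card ↥(B ⊓ M) ≤ Nat.card ↥(M₁ ⊔ K) * Nat.card ↥(B ⊓ M) :=
      calc Nat.card ↥B * Nat.card ↥(B ⊓ M) ≤ Nat.card ↥K * Nat.card ↥M₁ := hcount1
        _ = Nat.card ↥M₁ * Nat.card ↥K := mul_comm _ _
        _ ≤ Nat.card ↥(M₁ ⊔ K) * Nat.card ↥(M₁ ⊓ K) := hcount2
        _ ≤ Nat.card ↥(M₁ ⊔ K) * Nat.card ↥(B ⊓ M) := Nat.mul_le_mul_left _ hcount3
    exact Nat.le_of_mul_le_mul_right h1 hpos
  have hmemA : M₁ ⊔ K ∈ Cfsg.maxAbelianSubgroups S :=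
    show IsMulCommutative ↥(M₁ ⊔ K) ∧
      ∀ C : Subgroup S, IsMulCommutative ↥C → Nat.card ↥C ≤ Nat.card ↥(M₁ ⊔ K) from
      ⟨hB'c, fun C hC => (hB0.2 C hC).trans hcard⟩
  have hle0 : B ⊓ M ≤ (M₁ ⊔ K) ⊓ M := le_inf (hN₁M₁.trans le_sup_left) inf_le_right
  refine ⟨M₁ ⊔ K, hmemA, sup_le hM₁le (hKB.trans le_sup_left), hle0, ?_⟩
  intro hle b hb
  have heq : B ⊓ M = (M₁ ⊔ K) ⊓ M := Subgroup.eq_of_le_of_card_ge hle0 hle
  have h1 : b⁻¹ * s * b * s⁻¹ ∈ (M₁ ⊔ K) ⊓ M :=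
    Subgroup.mem_inf.2 ⟨Subgroup.mem_sup_left (hμM₁ b hb), hμM b⟩
  rw [← heq] at h1
  rw [hμ b]
  exact B.mul_mem hb (Subgroup.mem_inf.1 h1).1

theorem main [Finite S] (hmeta : IsMulCommutative ↥(commutator S))
    (A : Subgroup S) (hA : A ∈ Cfsg.maxAbelianSubgroups S) :
    ∃ B ∈ Cfsg.maxAbelianSubgroups S, B.Normal ∧ B ≤ Subgroup.normalClosure (A : Set S) := by
  have hM : ∀ x ∈ commutator S, ∀ y ∈ commutator S, x * y = y * x := fun x hx y hy =>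
    congrArg Subtype.val (hmeta.is_comm.comm ⟨x, hx⟩ ⟨y, hy⟩)
  have hMc : ∀ g h : S, g⁻¹ * h * g * h⁻¹ ∈ commutator S := by
    intro g h
    have h1 : ⁅g⁻¹, h⁆ ∈ commutator S :=
      Subgroup.commutator_mem_commutator (Subgroup.mem_top _) (Subgroup.mem_top _)
    rw [commutatorElement_def, inv_inv] at h1
    exact h1
  haveI : Nonempty {B : Subgroup S // B ∈ Cfsg.maxAbelianSubgroups S ∧
      B ≤ Subgroup.normalClosure (A : Set S)} :=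
    ⟨⟨A, hA, Subgroup.le_normalClosure⟩⟩
  obtain ⟨⟨B, hB, hBN⟩, hmax⟩ := Finite.exists_max
    (fun B : {B : Subgroup S // B ∈ Cfsg.maxAbelianSubgroups S ∧
      B ≤ Subgroup.normalClosure (A : Set S)} =>
      Nat.card ↥((B : Subgroup S) ⊓ commutator S))
  refine ⟨B, hB, ⟨fun b hb s => ?_⟩, hBN⟩
  obtain ⟨B', hB', hB'le, -, hB'imp⟩ := key (commutator S) hM hMc B hB s
  have hB'N : B' ≤ Subgroup.normalClosure (A : Set S) := by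
    refine hB'le.trans (sup_le hBN ?_)
    rintro _ ⟨x, hx, rfl⟩
    exact (Subgroup.normalClosure_normal).conj_mem x (hBN hx) s
  exact hB'imp (hmax ⟨B', hB', hB'N⟩) b hb

end Cfsg.Agent.Lib.Helper8.Gillam
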