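import Cfsg.Agent.Lib.Helper8.Morph3

set_option autoImplicit false

namespace Cfsg.Agent.Lib.Helper8.GroupFactor

open Cfsg Cfsg.FusionSystem Cfsg.Agent.Lib.Helper8.Fusion Cfsg.Agent.Lib.Helper8.FactorSys
  Cfsg.Agent.Lib.Helper8.Morph3

/-- The fusion system of `G/H` on `SH/H` is the factor system of `F_S(G)` modulo `S ∩ H`. -/
theorem group_isFactorSystem {G : Type*} [Group G] [Finite G] {p : ℕ} [Fact p.Prime]
    (S : Sylow p G) (H : Subgroup G) [H.Normal] :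
    (groupFusionSystem (S : Subgroup G)).IsFactorSystem ((S : Subgroup G) ⊓ H)
      ((QuotientGroup.mk' H).comp (S : Subgroup G).subtype)
      (groupFusionSystem ((S : Subgroup G).map (QuotientGroup.mk' H))) := by
  obtain ⟨θ, hθ⟩ : ∃ θ : (S : Subgroup G) →* G ⧸ H,
      θ = (QuotientGroup.mk' H).comp (S : Subgroup G).subtype := ⟨_, rfl⟩
  rw [← hθ]
  have hθx : ∀ s : (S : Subgroup G), θ s = ((s : G) : G ⧸ H) := fun s => by rw [hθ]; rfl
  have hker : ∀ s : (S : Subgroup G), θ s = 1 ↔ (s : G) ∈ (S : Subgroup G) ⊓ H := by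
    intro s
    rw [hθx, QuotientGroup.eq_one_iff]
    exact ⟨fun h => ⟨s.2, h⟩, fun h => h.2⟩
  have hrange : θ.range = (S : Subgroup G).map (QuotientGroup.mk' H) := by
    rw [hθ, MonoidHom.range_comp, Subgroup.range_subtype]
  refine ⟨inf_le_left, hker, hrange, fun P' φ' => ⟨?_, ?_⟩⟩
  · rintro ⟨hP'S', hφ'S', gq, hgq⟩
    refine ⟨hP'S', ?_⟩
    obtain ⟨g, rfl⟩ := QuotientGroup.mk_surjective gq
    have hQS := pre_le θ P'
    obtain ⟨T, hT⟩ : ∃ T : Subgroup G,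
        T = (preimageAlong θ P').map (MulAut.conj g).toMonoidHom := ⟨_, rfl⟩
    have hTp : IsPGroup p T := by
      rw [hT]
      exact (S.isPGroup'.to_le hQS).map _
    have hTle : T ≤ (S : Subgroup G) ⊔ H := by
      rw [hT]
      rintro _ ⟨x, hx, rfl⟩
      have h1 := hφ'S' ⟨θ ⟨x, hQS hx⟩, map_pre_mem θ P' ⟨x, hx⟩⟩
      rw [hgq] at h1
      obtain ⟨s, hs, hs'⟩ := h1
      have hs'' : ((s : G) : G ⧸ H) = (g : G ⧸ H) * ((x : G) : G ⧸ H) * (g : G ⧸ H)⁻¹ := by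
        have h0 := hs'
        rw [show ((⟨θ ⟨x, hQS hx⟩, map_pre_mem θ P' ⟨x, hx⟩⟩ : P') : G ⧸ H) =
          ((x : G) : G ⧸ H) from hθx _] at h0
        exact h0
      have h2 : ((s⁻¹ * (g * x * g⁻¹) : G) : G ⧸ H) = 1 := by
        rw [QuotientGroup.mk_mul, QuotientGroup.mk_inv, hs'']
        simp only [QuotientGroup.mk_mul, QuotientGroup.mk_inv]
        group
      have h3 : s⁻¹ * (g * x * g⁻¹) ∈ H := (QuotientGroup.eq_one_iff _).1 h2
      have h4 : (MulAut.conj g).toMonoidHom x = s * (s⁻¹ * (g * x * g⁻¹)) := by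
        show g * x * g⁻¹ = _
        group
      rw [h4]
      exact Subgroup.mul_mem _ (Subgroup.mem_sup_left hs) (Subgroup.mem_sup_right h3)
    obtain ⟨h, hhH, hh⟩ := exists_conj_le_of_le_sup S H hTp hTle
    have hval : ∀ x : ↥(preimageAlong θ P'), conjHom (preimageAlong θ P') (h * g) x ∈
        (S : Subgroup G) := by
      intro x
      have h5 := hh (g * x * g⁻¹) (hT ▸ ⟨x, x.2, rfl⟩)
      show h * g * x * (h * g)⁻¹ ∈ (S : Subgroup G)
      have e : h * g * (x : G) * (h * g)⁻¹ = h * (g * x * g⁻¹) * h⁻¹ := by group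
      rw [e]
      exact h5
    refine ⟨conjHom _ (h * g), ⟨hQS, hval, h * g, fun x => rfl⟩, hQS, hval,
      map_pre_mem θ P', fun x => ?_⟩
    rw [hgq]
    show (g : G ⧸ H) * θ ⟨x, hQS x.2⟩ * (g : G ⧸ H)⁻¹ = θ ⟨_, hval x⟩
    rw [hθx, hθx]
    show (g : G ⧸ H) * ((x : G) : G ⧸ H) * (g : G ⧸ H)⁻¹ =
      ((h * g * x * (h * g)⁻¹ : G) : G ⧸ H)
    have hh1 : ((h : G) : G ⧸ H) = 1 := (QuotientGroup.eq_one_iff h).2 hhH
    simp only [QuotientGroup.mk_mul, QuotientGroup.mk_inv, hh1, one_mul, mul_inv_rev, inv_one,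
      mul_one]
  · rintro ⟨hP'S', φ, ⟨hQS, hφS, g, hg⟩, hind⟩
    have hP'r : P' ≤ θ.range := hrange ▸ hP'S'
    have happ : ∀ x : ↥(preimageAlong θ P'),
        φ' ⟨θ ⟨x, hQS x.2⟩, map_pre_mem θ P' x⟩ = θ ⟨φ x, hφS x⟩ :=
      fun x => induced_apply θ hind x _ _ _
    refine ⟨hP'S', fun y => ?_, (g : G ⧸ H), fun y => ?_⟩
    · obtain ⟨x, hx⟩ := exists_rep θ hP'r y
      have hy : y = ⟨θ ⟨x, hQS x.2⟩, map_pre_mem θ P' x⟩ := Subtype.ext hx.symm
      rw [hy, happ x, ← hrange]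
      exact ⟨_, rfl⟩
    · obtain ⟨x, hx⟩ := exists_rep θ hP'r y
      have hy : y = ⟨θ ⟨x, hQS x.2⟩, map_pre_mem θ P' x⟩ := Subtype.ext hx.symm
      rw [hy, happ x]
      show θ ⟨φ x, hφS x⟩ = (g : G ⧸ H) * θ ⟨x, hQS x.2⟩ * (g : G ⧸ H)⁻¹
      rw [hθx, hθx]
      show ((φ x : G) : G ⧸ H) = (g : G ⧸ H) * ((x : G) : G ⧸ H) * (g : G ⧸ H)⁻¹
      rw [hg x]
      simp only [QuotientGroup.mk_mul, QuotientGroup.mk_inv]

end Cfsg.Agent.Lib.Helper8.GroupFactor
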