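import Cfsg.Agent.Lib.Helper8.Chain2

set_option autoImplicit false

namespace Cfsg.Agent.Lib.Helper8.Invariant

open Cfsg
open Cfsg.Agent.Lib.Helper8.Fusion Cfsg.Agent.Lib.Helper8.GroupFusion Cfsg.Agent.Lib.Helper8.Sat
  Cfsg.Agent.Lib.Helper8.Sat2 Cfsg.Agent.Lib.Helper8.Alperin Cfsg.Agent.Lib.Helper8.Alperin2
  Cfsg.Agent.Lib.Helper8.Normal Cfsg.Agent.Lib.Helper8.Chain

open scoped commutatorElement

variable {Ω : Type*} [Group Ω] {S : Subgroup Ω}

/-- The image of (the part in `T` of) a subgroup under an automorphism of `T`. -/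
def im {T : Subgroup Ω} (α : MulAut T) (V : Subgroup Ω) : Subgroup Ω :=
  (V.subgroupOf T).map (T.subtype.comp α.toMonoidHom)

theorem mem_im {T : Subgroup Ω} {α : MulAut T} {V : Subgroup Ω} {x : Ω} :
    x ∈ im α V ↔ ∃ (v : Ω) (hv : v ∈ T), v ∈ V ∧ ((α ⟨v, hv⟩ : T) : Ω) = x := by
  constructor
  · rintro ⟨t, ht, rfl⟩
    exact ⟨t, t.2, ht, rfl⟩
  · rintro ⟨v, hv, hvV, rfl⟩
    exact ⟨⟨v, hv⟩, hvV, rfl⟩

theorem im_le {T : Subgroup Ω} (α : MulAut T) (V : Subgroup Ω) : im α V ≤ T := by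
  rintro x ⟨t, -, rfl⟩
  exact (α t).2

theorem im_bot {T : Subgroup Ω} (α : MulAut T) : im α ⊥ = ⊥ := by
  rw [im, Subgroup.bot_subgroupOf, Subgroup.map_bot]

theorem im_mono {T : Subgroup Ω} (α : MulAut T) {V W : Subgroup Ω} (h : V ≤ W) :
    im α V ≤ im α W :=
  Subgroup.map_mono (Subgroup.comap_mono h)

theorem im_commutator {T : Subgroup Ω} (α : MulAut T) {Q W Z : Subgroup Ω} (h : ⁅Q, W⁆ ≤ Z) :
    ⁅im α Q, im α W⁆ ≤ im α Z := by
  rw [Subgroup.commutator_le]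
  intro a ha b hb
  obtain ⟨q, hqT, hq, rfl⟩ := mem_im.mp ha
  obtain ⟨w, hwT, hw, rfl⟩ := mem_im.mp hb
  have hcT : ⁅q, w⁆ ∈ T := (⁅(⟨q, hqT⟩ : T), (⟨w, hwT⟩ : T)⁆).2
  refine mem_im.mpr ⟨⁅q, w⁆, hcT, h (Subgroup.commutator_mem_commutator hq hw), ?_⟩
  have h1 : (⟨⁅q, w⁆, hcT⟩ : T) = ⁅(⟨q, hqT⟩ : T), (⟨w, hwT⟩ : T)⁆ := rfl
  rw [h1, map_commutatorElement]
  rfl

/-- The image of a strongly closed subgroup of an invariant subsystem under an automorphism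
in `Aut_F(T)` is strongly closed in the subsystem. -/
theorem stronglyClosed_im {T : Subgroup Ω} (E : FusionSystem T) (F : FusionSystem S)
    (hinv : E.IsInvariantIn F) {V : Subgroup Ω} (hV : E.StronglyClosed V) {α : MulAut T}
    (hα : α ∈ F.autGroup T) : E.StronglyClosed (im α V) := by
  refine ⟨im_le α V, fun P hP φ hφ x => ?_⟩
  have hPT : P ≤ T := hP.trans (im_le α V)
  have hα' : α⁻¹ ∈ F.autGroup T := Subgroup.inv_mem _ hα
  obtain ⟨χ, hχ, hχx⟩ := hinv.2.2.1 P hPT φ hφ α⁻¹ hα'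
  have hφx : φ x ∈ T := (E.le_of_mem hφ).2 x
  have hmem : ((α⁻¹ ⟨x, hPT x.2⟩ : T) : Ω) ∈
      (P.subgroupOf T).map (T.subtype.comp (α⁻¹).toMonoidHom) := ⟨⟨x, hPT x.2⟩, x.2, rfl⟩
  have h1 := hχx x hφx hmem
  have hle : (P.subgroupOf T).map (T.subtype.comp (α⁻¹).toMonoidHom) ≤ V := by
    rintro _ ⟨t, ht, rfl⟩
    obtain ⟨v, hvT, hv, hveq⟩ := mem_im.mp (hP ht)
    have h2 : t = α ⟨v, hvT⟩ := Subtype.ext hveq.symm
    show ((α⁻¹ t : T) : Ω) ∈ V
    rw [h2, MulAut.inv_apply_self]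
    exact hv
  have h2 := hV.2 _ hle χ hχ ⟨_, hmem⟩
  rw [h1] at h2
  refine mem_im.mpr ⟨_, (α⁻¹ ⟨φ x, hφx⟩).2, h2, ?_⟩
  have h3 : (⟨((α⁻¹ ⟨φ x, hφx⟩ : T) : Ω), (α⁻¹ ⟨φ x, hφx⟩).2⟩ : T) = α⁻¹ ⟨φ x, hφx⟩ := rfl
  rw [h3, MulAut.apply_inv_self]

/-- The image of a normal subgroup of an invariant saturated subsystem under an automorphism
in `Aut_F(T)` is normal in the subsystem. -/
theorem isNormal_im {T : Subgroup Ω} [Finite T] {p : ℕ} [Fact p.Prime] (hT : IsPGroup p T)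
    (E : FusionSystem T) (hE : E.IsSaturated p) (F : FusionSystem S)
    (hinv : E.IsInvariantIn F) {R : Subgroup Ω} (hR : E.IsNormal R) {α : MulAut T}
    (hα : α ∈ F.autGroup T) : E.IsNormal (im α R) := by
  obtain ⟨n, Qs, h0, hn, hmono, hstep⟩ := exists_chain_of_isNormal hT E hR
  refine isNormal_of_chain hT E hE n (fun i => im α (Qs i)) ?_ ?_ ?_ ?_
  · show im α (Qs 0) = ⊥
    rw [h0, im_bot]
  · show im α (Qs (Fin.last n)) = im α R
    rw [hn]
  · exact fun i j hij => im_mono α (hmono hij)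
  · intro i
    exact ⟨stronglyClosed_im E F hinv (hstep i).1 hα, im_commutator α (hstep i).2⟩

/-- The subgroup generated by the `F`-conjugates of a normal subgroup of a weakly normal
subsystem is normal in `F`. -/
theorem isNormal_closure_of_weaklyNormal [Finite S] {p : ℕ} [Fact p.Prime] (hS : IsPGroup p S)
    (F : FusionSystem S) {T : Subgroup Ω} (E : FusionSystem T) (hE : E.IsWeaklyNormalIn F p)
    {R : Subgroup Ω} (hR : E.IsNormal R) :
    F.IsNormal (Subgroup.closure {x : Ω | ∃ φ ∈ F.Hom R, ∃ r : R, x = φ r}) := by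
  obtain ⟨hEs, hFs, hinv⟩ := hE
  have hTS : T ≤ S := hinv.2.1.1
  have hfinT : Finite T := finite_of_le hTS
  have hT : IsPGroup p T := hS.to_le hTS
  have hRT : R ≤ T := hR.1
  have hRsc := stronglyClosed_of_isNormal E hR
  obtain ⟨U', hU'⟩ : ∃ U' : Subgroup Ω, U' = sSup {V | ∃ α ∈ F.autGroup T, V = im α R} :=
    ⟨_, rfl⟩
  have hU'E : E.IsNormal U' := by
    rw [hU']
    have hfin : {Q : Subgroup Ω | E.IsNormal Q}.Finite :=
      (finite_subgroups_le T).subset (fun Q hQ => hQ.1)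
    have hsc : SupClosed {Q : Subgroup Ω | E.IsNormal Q} := fun a ha b hb => isNormal_sup E ha hb
    have hsub : {V | ∃ α ∈ F.autGroup T, V = im α R} ⊆ {Q : Subgroup Ω | E.IsNormal Q} := by
      rintro V ⟨α, hα, rfl⟩
      exact isNormal_im hT E hEs F hinv hR hα
    exact hsc.sSup_mem (hfin.subset hsub) (isNormal_bot E) hsub
  have hU'T : U' ≤ T := hU'E.1
  have hU'inv : ∀ β ∈ F.autGroup T, ∀ (u : Ω) (hu : u ∈ T), u ∈ U' →
      ((β ⟨u, hu⟩ : T) : Ω) ∈ U' := by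
    intro β hβ
    have hle : sSup {V | ∃ α ∈ F.autGroup T, V = im α R} ≤
        ((U'.subgroupOf T).comap β.toMonoidHom).map T.subtype := by
      apply sSup_le
      rintro V ⟨α, hα, rfl⟩
      intro x hx
      obtain ⟨r, hrT, hr, rfl⟩ := mem_im.mp hx
      refine ⟨α ⟨r, hrT⟩, ?_, rfl⟩
      show ((β (α ⟨r, hrT⟩) : T) : Ω) ∈ U'
      rw [hU']
      apply (le_sSup (show im (β * α) R ∈ {V | ∃ α ∈ F.autGroup T, V = im α R} from
        ⟨β * α, Subgroup.mul_mem _ hβ hα, rfl⟩))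
      exact mem_im.mpr ⟨r, hrT, hr, rfl⟩
    intro u hu huU
    rw [hU'] at huU
    obtain ⟨t, ht, hteq⟩ := hle huU
    have h1 : t = ⟨u, hu⟩ := Subtype.ext hteq
    rw [← h1]
    exact ht
  have hfinU : Finite U' := finite_of_le (hU'T.trans hTS)
  have hsc : ∀ i, F.StronglyClosed (ucs U' i) := by
    intro i
    have hWE : E.IsNormal (ucs U' i) :=
      isNormal_of_characteristic E hU'E (ucs_le U' i) (ucs_characteristic U' i)
    have hWsc := stronglyClosed_of_isNormal E hWE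
    have key : ∀ α ∈ F.autGroup T, ∀ (w : Ω) (hwT : w ∈ T), w ∈ ucs U' i →
        ((α ⟨w, hwT⟩ : T) : Ω) ∈ ucs U' i := by
      intro α hα w hwT hw
      obtain ⟨f, hf⟩ : ∃ f : U' →* U',
          ∀ u : U', ((f u : U') : Ω) = ((α ⟨u, hU'T u.2⟩ : T) : Ω) :=
        ⟨((T.subtype.comp α.toMonoidHom).comp (Subgroup.inclusion hU'T)).codRestrict U'
          (fun u => hU'inv α hα u (hU'T u.2) u.2), fun u => rfl⟩
      have hfinj : Function.Injective f := by
        intro a b hab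
        have h1 := congrArg Subtype.val hab
        rw [hf, hf] at h1
        have h2 := α.injective (Subtype.ext h1)
        have h3 : (a : Ω) = b := congrArg (fun t : T => (t : Ω)) h2
        exact Subtype.ext h3
      have hfbij : Function.Bijective f := ⟨hfinj, Finite.injective_iff_surjective.mp hfinj⟩
      have hchar := ucs_characteristic U' i
      have h3 := (Subgroup.characteristic_iff_comap_eq.mp hchar) (MulEquiv.ofBijective f hfbij)
      have hwU : w ∈ U' := ucs_le U' i hw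
      have h4 : (⟨w, hwU⟩ : U') ∈ ((ucs U' i).subgroupOf U') := hw
      rw [← h3] at h4
      have h5 : ((f ⟨w, hwU⟩ : U') : Ω) ∈ ucs U' i := h4
      rw [hf] at h5
      exact h5
    refine ⟨(ucs_le U' i).trans (hU'T.trans hTS), fun P hP φ hφ x => ?_⟩
    have hPT : P ≤ T := hP.trans ((ucs_le U' i).trans hU'T)
    obtain ⟨α, hα, φ₀, hφ₀, hφeq⟩ := hinv.2.2.2 P hPT φ hφ
    have hφ₀T : φ₀ x ∈ T := (E.le_of_mem hφ₀).2 x
    rw [hφeq x hφ₀T]
    exact key α hα (φ₀ x) hφ₀T (hWsc.2 P hP φ₀ hφ₀ x)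
  have hU'F : F.IsNormal U' := by
    have hnil : Group.IsNilpotent U' := (hS.to_le (hU'T.trans hTS)).isNilpotent
    refine isNormal_of_chain hS F hFs (Group.nilpotencyClass U') (fun i => ucs U' i) (ucs_zero U')
      ?_ ?_ ?_
    · show ucs U' ((Fin.last _ : Fin _) : ℕ) = U'
      rw [Fin.val_last]
      exact ucs_class U'
    · intro i j h
      exact ucs_mono U' h
    · intro i
      refine ⟨hsc _, ?_⟩
      show ⁅U', ucs U' ((i.succ : Fin _) : ℕ)⁆ ≤ ucs U' ((Fin.castSucc i : Fin _) : ℕ)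
      rw [Fin.val_succ, Fin.val_castSucc]
      exact ucs_comm U' i
  have heq : Subgroup.closure {x : Ω | ∃ φ ∈ F.Hom R, ∃ r : R, x = φ r} = U' := by
    apply le_antisymm
    · rw [Subgroup.closure_le]
      rintro x ⟨φ, hφ, r, rfl⟩
      obtain ⟨α, hα, φ₀, hφ₀, hφeq⟩ := hinv.2.2.2 R hRT φ hφ
      have hφ₀T : φ₀ r ∈ T := (E.le_of_mem hφ₀).2 r
      rw [SetLike.mem_coe, hφeq r hφ₀T, hU']
      apply (le_sSup (show im α R ∈ {V | ∃ α ∈ F.autGroup T, V = im α R} from ⟨α, hα, rfl⟩))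
      exact mem_im.mpr ⟨φ₀ r, hφ₀T, hRsc.2 R le_rfl φ₀ hφ₀ r, rfl⟩
    · rw [hU']
      apply sSup_le
      rintro V ⟨α, hα, rfl⟩
      intro x hx
      obtain ⟨r, hrT, hr, rfl⟩ := mem_im.mp hx
      apply Subgroup.subset_closure
      have h1 : T.subtype.comp α.toMonoidHom ∈ F.Hom T := (mem_autGroup_iff F hTS α).mp hα
      exact ⟨_, restrict_mem F hRT h1, ⟨r, hr⟩, rfl⟩
  rw [heq]
  exact hU'F

end Cfsg.Agent.Lib.Helper8.Invariant
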