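import Cfsg.Agent.Lib.Helper8.Essential

set_option autoImplicit false

namespace Cfsg.Agent.Lib.Helper8.KNorm

open Cfsg
open Cfsg.Agent.Lib.Helper8.Fusion Cfsg.Agent.Lib.Helper8.GroupFusion Cfsg.Agent.Lib.Helper8.Sat
  Cfsg.Agent.Lib.Helper8.Sat2 Cfsg.Agent.Lib.Helper8.Alperin Cfsg.Agent.Lib.Helper8.Alperin2
  Cfsg.Agent.Lib.Helper8.Essential

variable {Ω : Type*} [Group Ω] {S : Subgroup Ω}

/-- `N_S^K(ρ)`: the elements of `S` whose conjugation action on the image of `ρ`, pulled back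
along `ρ`, lies in `K`. -/
def nk (S : Subgroup Ω) {Q : Subgroup Ω} (K : Subgroup (MulAut Q)) (ρ : Q →* Ω) : Subgroup Ω where
  carrier := {g | g ∈ S ∧ ∃ κ ∈ K, ∀ x : Q, g * ρ x * g⁻¹ = ρ (κ x)}
  mul_mem' := by
    rintro a b ⟨haS, κa, hκa, ha⟩ ⟨hbS, κb, hκb, hb⟩
    refine ⟨S.mul_mem haS hbS, κa * κb, K.mul_mem hκa hκb, fun x => ?_⟩
    have h1 : a * b * ρ x * (a * b)⁻¹ = a * (b * ρ x * b⁻¹) * a⁻¹ := by group
    rw [h1, hb, ha]
    rfl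
  one_mem' := ⟨S.one_mem, 1, K.one_mem, fun x => by simp⟩
  inv_mem' := by
    rintro a ⟨haS, κ, hκ, ha⟩
    refine ⟨S.inv_mem haS, κ⁻¹, K.inv_mem hκ, fun x => ?_⟩
    have h1 := ha (κ⁻¹ x)
    rw [MulAut.apply_inv_self] at h1
    rw [← h1]
    group

theorem nk_le (S : Subgroup Ω) {Q : Subgroup Ω} (K : Subgroup (MulAut Q)) (ρ : Q →* Ω) :
    nk S K ρ ≤ S := fun _ hg => hg.1

theorem nk_comp (S : Subgroup Ω) {Q : Subgroup Ω} {K : Subgroup (MulAut Q)} (ρ : Q →* Ω)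
    {κ : MulAut Q} (hκ : κ ∈ K) : nk S K (ρ.comp κ.toMonoidHom) = nk S K ρ := by
  ext g
  constructor
  · rintro ⟨hgS, κ₁, hκ₁, h⟩
    refine ⟨hgS, κ * κ₁ * κ⁻¹, K.mul_mem (K.mul_mem hκ hκ₁) (K.inv_mem hκ), fun y => ?_⟩
    have h1 := h (κ⁻¹ y)
    have h2 : (ρ.comp κ.toMonoidHom) (κ⁻¹ y) = ρ y := by
      show ρ (κ (κ⁻¹ y)) = ρ y
      rw [MulAut.apply_inv_self]
    rw [h2] at h1
    rw [h1]
    rfl
  · rintro ⟨hgS, κ₁, hκ₁, h⟩
    refine ⟨hgS, κ⁻¹ * κ₁ * κ, K.mul_mem (K.mul_mem (K.inv_mem hκ) hκ₁) hκ, fun x => ?_⟩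
    show g * ρ (κ x) * g⁻¹ = ρ (κ (κ⁻¹ (κ₁ (κ x))))
    rw [MulAut.apply_inv_self]
    exact h (κ x)

/-- The maps of the `K`-normalizer system `N_F^K(Q)` with source `P`. -/
def kHom (F : FusionSystem S) {Q : Subgroup Ω} (K : Subgroup (MulAut Q)) (P : Subgroup Ω) :
    Set (P →* Ω) :=
  {φ | φ ∈ F.Hom P ∧ P ≤ nk S K Q.subtype ∧ (∀ x : P, φ x ∈ nk S K Q.subtype) ∧
    ∃ ψ ∈ F.Hom (P ⊔ Q), (∀ x : P, ψ (Subgroup.inclusion le_sup_left x) = φ x) ∧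
      ∃ κ ∈ K, ∀ x : Q, ψ (Subgroup.inclusion le_sup_right x) = κ x}

/-- `Q` is `K`-receptive: every map of the system out of `Q` can be inverted, up to an element
of `K`, by a map defined on `N_S^K` of the image. -/
def KReceptive (F : FusionSystem S) {Q : Subgroup Ω} (K : Subgroup (MulAut Q)) : Prop :=
  ∀ ρ ∈ F.Hom Q, ∃ ψ ∈ F.Hom (nk S K ρ ⊔ ρ.range), ∃ κ ∈ K,
    ∀ x : Q, ψ ⟨ρ x, Subgroup.mem_sup_right ⟨x, rfl⟩⟩ = κ x

theorem map_mem_nk (F : FusionSystem S) {Q : Subgroup Ω} {K : Subgroup (MulAut Q)}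
    {V : Subgroup Ω} {ψ : V →* Ω} (hψ : ψ ∈ F.Hom V) {ρ : Q →* Ω} (hρV : ∀ x, ρ x ∈ V)
    {κ : MulAut Q} (hκ : κ ∈ K) (hψρ : ∀ x : Q, ψ ⟨ρ x, hρV x⟩ = κ x) {g : V}
    (hg : (g : Ω) ∈ nk S K ρ) : ψ g ∈ nk S K Q.subtype := by
  obtain ⟨hgS, κ₁, hκ₁, hg₁⟩ := hg
  refine ⟨(F.le_of_mem hψ).2 g, κ * κ₁ * κ⁻¹,
    K.mul_mem (K.mul_mem hκ hκ₁) (K.inv_mem hκ), fun y => ?_⟩
  show ψ g * (y : Ω) * (ψ g)⁻¹ = ((κ (κ₁ (κ⁻¹ y)) : Q) : Ω)
  obtain ⟨x, hx⟩ : ∃ x : Q, x = κ⁻¹ y := ⟨_, rfl⟩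
  have hy : y = κ x := by
    rw [hx]
    simp
  rw [← hx, hy, ← hψρ x, ← hψρ (κ₁ x), ← map_inv, ← map_mul, ← map_mul]
  congr 1
  apply Subtype.ext
  exact hg₁ x

theorem exists_max_nat {α : Type*} (s : Set α) (hs : s.Nonempty) (f : α → ℕ) (B : ℕ)
    (hB : ∀ a ∈ s, f a ≤ B) : ∃ a ∈ s, ∀ b ∈ s, f b ≤ f a := by
  have hfin : (f '' s).Finite := (Set.finite_Iic B).subset (by
    rintro _ ⟨a, ha, rfl⟩
    exact hB a ha)
  obtain ⟨n, ⟨a, ha, rfl⟩, hmax⟩ := Set.exists_max_image (f '' s) id hfin (hs.image f)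
  exact ⟨a, ha, fun b hb => hmax (f b) ⟨b, hb, rfl⟩⟩

/-- `M(ρ)`: the elements of `S` normalizing `ρ(P)` and acting on `ρ(Q)` through `K`. -/
def mρ (S : Subgroup Ω) {Q : Subgroup Ω} (K : Subgroup (MulAut Q)) (P : Subgroup Ω)
    (ρ : ↥(P ⊔ Q) →* Ω) : Subgroup Ω :=
  Subgroup.normalizer (((P.subgroupOf (P ⊔ Q)).map ρ : Subgroup Ω) : Set Ω) ⊓
    nk S K (ρ.comp (Subgroup.inclusion le_sup_right))

/-- `P` is good: `P ⊔ Q` is fully normalized relative to the pair `(P, K)`. -/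
def GoodK (F : FusionSystem S) {Q : Subgroup Ω} (K : Subgroup (MulAut Q)) (P : Subgroup Ω) :
    Prop :=
  ∀ ρ ∈ F.Hom (P ⊔ Q), Nat.card (mρ S K P ρ) ≤
    Nat.card ↥(nk S K Q.subtype ⊓ Subgroup.normalizer (P : Set Ω))

theorem mρ_le (S : Subgroup Ω) {Q : Subgroup Ω} (K : Subgroup (MulAut Q)) (P : Subgroup Ω)
    (ρ : ↥(P ⊔ Q) →* Ω) : mρ S K P ρ ≤ S := fun _ hg => hg.2.1

/-- Every subgroup of `N_S^K(Q)` is conjugate in the `K`-normalizer system to a good one. -/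
theorem exists_good [Finite S] (F : FusionSystem S) {Q : Subgroup Ω} (hQS : Q ≤ S)
    {K : Subgroup (MulAut Q)} (hKR : KReceptive F K) {P : Subgroup Ω}
    (hP : P ≤ nk S K Q.subtype) : ∃ φ ∈ kHom F K P, GoodK F K φ.range := by
  have hPS : P ≤ S := hP.trans (nk_le S K _)
  have hUS : P ⊔ Q ≤ S := sup_le hPS hQS
  obtain ⟨ρ, hρ, hmax⟩ := exists_max_nat (F.Hom (P ⊔ Q)) ⟨_, id_mem F hUS⟩
    (fun ρ => Nat.card (mρ S K P ρ)) (Nat.card S)
    (fun ρ _ => Subgroup.card_le_of_le (mρ_le S K P ρ))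
  obtain ⟨ρQ, hρQdef⟩ : ∃ ρQ : Q →* Ω, ρQ = ρ.comp (Subgroup.inclusion le_sup_right) := ⟨_, rfl⟩
  have hρQ : ρQ ∈ F.Hom Q := by
    rw [hρQdef]
    exact restrict_mem F le_sup_right hρ
  have hρQapply : ∀ x : Q, ρQ x = ρ (Subgroup.inclusion le_sup_right x) := fun x => by
    rw [hρQdef]; rfl
  obtain ⟨ψ, hψ, κ, hκ, hψκ⟩ := hKR ρQ hρQ
  have hψinj := F.injective_of_mem hψ
  have hρP : ∀ a : P, ρ (Subgroup.inclusion le_sup_left a) ∈ nk S K ρQ := by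
    intro a
    obtain ⟨haS, κ₁, hκ₁, h⟩ := hP a.2
    refine ⟨(F.le_of_mem hρ).2 _, κ₁, hκ₁, fun x => ?_⟩
    rw [hρQapply, hρQapply, ← map_inv, ← map_mul, ← map_mul]
    congr 1
    apply Subtype.ext
    exact h x
  have hρD : ∀ x : ↥(P ⊔ Q), ρ x ∈ nk S K ρQ ⊔ ρQ.range :=
    forall_mem_of_sup ρ _ (fun a => Subgroup.mem_sup_left (hρP a))
      (fun b => Subgroup.mem_sup_right ⟨b, hρQapply b⟩)
  obtain ⟨θ, hθdef⟩ : ∃ θ : ↥(P ⊔ Q) →* Ω, θ = ψ.comp (ρ.codRestrict _ hρD) := ⟨_, rfl⟩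
  have hθ : θ ∈ F.Hom (P ⊔ Q) := by
    rw [hθdef]
    exact F.comp_mem hρ hψ hρD
  have hθapply : ∀ x : ↥(P ⊔ Q), θ x = ψ ⟨ρ x, hρD x⟩ := fun x => by
    rw [hθdef]; rfl
  have hθQ : ∀ x : Q, θ (Subgroup.inclusion le_sup_right x) = κ x := by
    intro x
    rw [hθapply, ← hψκ x]
    congr 1
    apply Subtype.ext
    exact (hρQapply x).symm
  have hρQD : ∀ x : Q, ρQ x ∈ nk S K ρQ ⊔ ρQ.range := fun x => Subgroup.mem_sup_right ⟨x, rfl⟩
  have hψnk : ∀ (g : Ω) (hgD : g ∈ nk S K ρQ ⊔ ρQ.range), g ∈ nk S K ρQ →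
      ψ ⟨g, hgD⟩ ∈ nk S K Q.subtype := by
    intro g hgD hg
    exact map_mem_nk F hψ hρQD hκ hψκ (g := ⟨g, hgD⟩) hg
  obtain ⟨φ, hφdef⟩ : ∃ φ : P →* Ω, φ = θ.comp (Subgroup.inclusion le_sup_left) := ⟨_, rfl⟩
  have hφapply : ∀ a : P, φ a = θ (Subgroup.inclusion le_sup_left a) := fun a => by
    rw [hφdef]; rfl
  have hφ : φ ∈ kHom F K P := by
    refine ⟨?_, hP, fun a => ?_, θ, hθ, fun a => (hφapply a).symm, κ, hκ, hθQ⟩
    · rw [hφdef]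
      exact restrict_mem F le_sup_left hθ
    · rw [hφapply, hθapply]
      exact hψnk _ _ (hρP a)
  refine ⟨φ, hφ, ?_⟩
  intro ρ' hρ'
  have hθ' : ∀ x : ↥(P ⊔ Q), θ x ∈ φ.range ⊔ Q :=
    forall_mem_of_sup θ _ (fun a => Subgroup.mem_sup_left ⟨a, hφapply a⟩)
      (fun b => Subgroup.mem_sup_right (by rw [hθQ]; exact (κ b).2))
  obtain ⟨ρ'', hρ''def⟩ : ∃ ρ'' : ↥(P ⊔ Q) →* Ω, ρ'' = ρ'.comp (θ.codRestrict _ hθ') := ⟨_, rfl⟩
  have hρ'' : ρ'' ∈ F.Hom (P ⊔ Q) := by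
    rw [hρ''def]
    exact F.comp_mem hθ hρ' hθ'
  have hρ''apply : ∀ x : ↥(P ⊔ Q), ρ'' x = ρ' ⟨θ x, hθ' x⟩ := fun x => by
    rw [hρ''def]; rfl
  have h1 : mρ S K P ρ'' = mρ S K φ.range ρ' := by
    unfold mρ
    have e1 : ((P.subgroupOf (P ⊔ Q)).map ρ'' : Subgroup Ω) =
        ((φ.range.subgroupOf (φ.range ⊔ Q)).map ρ' : Subgroup Ω) := by
      ext y
      constructor
      · rintro ⟨x, hx, rfl⟩
        have hxP : (x : Ω) ∈ P := hx
        refine ⟨⟨θ x, hθ' x⟩, ?_, (hρ''apply x).symm⟩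
        show θ x ∈ φ.range
        exact ⟨⟨x, hxP⟩, hφapply _⟩
      · rintro ⟨z, hz, rfl⟩
        have hz' : (z : Ω) ∈ φ.range := hz
        obtain ⟨a, ha⟩ := hz'
        refine ⟨Subgroup.inclusion le_sup_left a, a.2, ?_⟩
        rw [hρ''apply]
        congr 1
        apply Subtype.ext
        show θ (Subgroup.inclusion le_sup_left a) = z
        rw [← hφapply, ha]
    have e2 : ρ''.comp (Subgroup.inclusion le_sup_right) =
        (ρ'.comp (Subgroup.inclusion le_sup_right)).comp κ.toMonoidHom := by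
      ext x
      show ρ'' (Subgroup.inclusion le_sup_right x) = ρ' (Subgroup.inclusion le_sup_right (κ x))
      rw [hρ''apply]
      congr 1
      apply Subtype.ext
      exact hθQ x
    rw [e1, e2, nk_comp S _ hκ]
  have h2 : Nat.card (mρ S K P ρ'') ≤ Nat.card (mρ S K P ρ) := hmax ρ'' hρ''
  rw [← h1]
  refine h2.trans ?_
  have hmD : ∀ g ∈ mρ S K P ρ, g ∈ nk S K ρQ ⊔ ρQ.range := by
    intro g hg
    apply Subgroup.mem_sup_left
    rw [hρQdef]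
    exact hg.2
  have hmnk : ∀ g ∈ mρ S K P ρ, g ∈ nk S K ρQ := by
    intro g hg
    rw [hρQdef]
    exact hg.2
  have hconj : ∀ (g : Ω) (hg : g ∈ mρ S K P ρ), ∀ y ∈ φ.range,
      ψ ⟨g, hmD g hg⟩ * y * (ψ ⟨g, hmD g hg⟩)⁻¹ ∈ φ.range := by
    rintro g hg _ ⟨a, rfl⟩
    have hgn := hg.1
    have h3 : g * ρ (Subgroup.inclusion le_sup_left a) * g⁻¹ ∈
        ((P.subgroupOf (P ⊔ Q)).map ρ : Subgroup Ω) :=
      (Subgroup.mem_normalizer_iff.mp hgn _).mp ⟨_, a.2, rfl⟩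
    obtain ⟨x, hx, hxe⟩ := h3
    have hxP : (x : Ω) ∈ P := hx
    refine ⟨⟨x, hxP⟩, ?_⟩
    rw [hφapply, hφapply, hθapply, hθapply, ← map_inv, ← map_mul, ← map_mul]
    congr 1
    apply Subtype.ext
    exact hxe
  have hmem : ∀ (g : Ω) (hg : g ∈ mρ S K P ρ), ψ ⟨g, hmD g hg⟩ ∈
      nk S K Q.subtype ⊓ Subgroup.normalizer (φ.range : Set Ω) := by
    intro g hg
    refine ⟨hψnk g _ (hmnk g hg), ?_⟩
    apply mem_normalizer_of_conj_mem
    · exact hconj g hg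
    · intro y hy
      have h4 := hconj g⁻¹ (Subgroup.inv_mem _ hg) y hy
      have h5 : ψ ⟨g⁻¹, hmD g⁻¹ (Subgroup.inv_mem _ hg)⟩ = (ψ ⟨g, hmD g hg⟩)⁻¹ := by
        rw [← map_inv]
        rfl
      rw [h5, inv_inv] at h4
      exact h4
  have hfin : Finite ↥(nk S K Q.subtype ⊓ Subgroup.normalizer (φ.range : Set Ω)) :=
    finite_of_le (inf_le_left.trans (nk_le S K _))
  apply Nat.card_le_card_of_injective
    (fun g : ↥(mρ S K P ρ) => (⟨ψ ⟨g, hmD g g.2⟩, hmem g g.2⟩ :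
      ↥(nk S K Q.subtype ⊓ Subgroup.normalizer (φ.range : Set Ω))))
  intro g g' hgg'
  have h6 : ψ ⟨g, hmD g g.2⟩ = ψ ⟨g', hmD g' g'.2⟩ := congrArg Subtype.val hgg'
  have h7 := hψinj h6
  exact Subtype.ext (congrArg (fun z : ↥(nk S K ρQ ⊔ ρQ.range) => (z : Ω)) h7)

/-- Counting `N_S^Δ(ρ)` when every element of `Δ` is realized by an element of `S`. -/
theorem card_nk [Finite S] {U : Subgroup Ω} (Δ : Subgroup (MulAut U)) (ρ : U →* Ω)
    (hinj : Function.Injective ρ)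
    (hΔ : ∀ π ∈ Δ, ∃ g ∈ S, ∀ x : U, g * ρ x * g⁻¹ = ρ (π x)) :
    Nat.card (nk S Δ ρ) = Nat.card (FusionSystem.centralizerIn S ρ.range) * Nat.card Δ := by
  have hex : ∀ g : nk S Δ ρ, ∃ π : Δ, ∀ x : U,
      (g : Ω) * ρ x * (g : Ω)⁻¹ = ρ ((π : MulAut U) x) := by
    rintro ⟨g, hgS, π, hπ, h⟩
    exact ⟨⟨π, hπ⟩, h⟩
  choose f hf using hex
  have hmul : ∀ a b, f (a * b) = f a * f b := by
    intro a b
    apply Subtype.ext
    apply MulEquiv.ext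
    intro x
    apply hinj
    rw [← hf (a * b) x]
    show ((a : Ω) * (b : Ω)) * ρ x * ((a : Ω) * (b : Ω))⁻¹ =
      ρ ((f a : MulAut U) ((f b : MulAut U) x))
    rw [← hf a, ← hf b]
    group
  obtain ⟨fh, hfh⟩ : ∃ fh : nk S Δ ρ →* Δ, ∀ g, fh g = f g := ⟨MonoidHom.mk' f hmul, fun _ => rfl⟩
  have hsurj : Function.Surjective fh := by
    rintro ⟨π, hπ⟩
    obtain ⟨g, hgS, hg⟩ := hΔ π hπ
    refine ⟨⟨g, hgS, π, hπ, hg⟩, ?_⟩
    rw [hfh]
    apply Subtype.ext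
    apply MulEquiv.ext
    intro x
    apply hinj
    rw [← hg x]
    exact (hf ⟨g, _⟩ x).symm
  have e : fh.ker.map (nk S Δ ρ).subtype = FusionSystem.centralizerIn S ρ.range := by
    ext g
    constructor
    · rintro ⟨g', hg', rfl⟩
      have h1 : fh g' = 1 := hg'
      rw [hfh] at h1
      refine ⟨g'.2.1, ?_⟩
      show (g' : Ω) ∈ Subgroup.centralizer (ρ.range : Set Ω)
      rw [Subgroup.mem_centralizer_iff]
      rintro _ ⟨x, rfl⟩
      have h2 := hf g' x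
      rw [h1] at h2
      have h4 : (g' : Ω) * ρ x * (g' : Ω)⁻¹ = ρ x := h2
      calc ρ x * (g' : Ω) = ((g' : Ω) * ρ x * (g' : Ω)⁻¹) * g' := by rw [h4]
        _ = (g' : Ω) * ρ x := by group
    · rintro ⟨hgS, hgc⟩
      have hc : ∀ x : U, g * ρ x * g⁻¹ = ρ x := by
        intro x
        have h5 := Subgroup.mem_centralizer_iff.mp hgc (ρ x) ⟨x, rfl⟩
        rw [← h5]
        group
      have hg : g ∈ nk S Δ ρ := ⟨hgS, 1, Δ.one_mem, hc⟩
      refine ⟨⟨g, hg⟩, ?_, rfl⟩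
      show fh ⟨g, hg⟩ = 1
      rw [hfh]
      apply Subtype.ext
      apply MulEquiv.ext
      intro x
      apply hinj
      rw [← hf ⟨g, hg⟩ x]
      exact hc x
  have hker : Nat.card fh.ker = Nat.card (FusionSystem.centralizerIn S ρ.range) := by
    rw [← e, Subgroup.card_map_of_injective (Subgroup.subtype_injective _)]
  have h1 := Subgroup.card_mul_index fh.ker
  rw [Subgroup.index_ker, MonoidHom.range_eq_top.mpr hsurj, Subgroup.card_top, hker] at h1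
  exact h1.symm

/-- A `p`-group of automorphisms in the system can be moved, along a map of the system, into
the automorphisms induced by `S` on a fully centralized conjugate. -/
theorem exists_hom_sylow [Finite S] {p : ℕ} [Fact p.Prime] (_hS : IsPGroup p S)
    (F : FusionSystem S) (hF : F.IsSaturated p) {U : Subgroup Ω} (hU : U ≤ S)
    {Δ : Subgroup (MulAut U)} (hΔF : Δ ≤ F.autGroup U) (hΔp : IsPGroup p Δ) :
    ∃ ρ ∈ F.Hom U, F.IsFullyCentralized ρ.range ∧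
      ∀ π ∈ Δ, ∃ g ∈ S, ∀ x : U, g * ρ x * g⁻¹ = ρ (π x) := by
  obtain ⟨R, ⟨σ, hσ, hσR⟩, hRa, hRr⟩ := hF U hU
  have hRS : R ≤ S := hRa.1
  have hfinR : Finite R := finite_of_le hRS
  obtain ⟨e, he⟩ : ∃ e : U ≃* R, e = isoOfHom σ (F.injective_of_mem hσ) hσR := ⟨_, rfl⟩
  have heσ : ∀ x : U, ((e x : R) : Ω) = σ x := fun x => by rw [he, isoOfHom_coe]
  have hΔ₁F : Δ.map (MulAut.congr e).toMonoidHom ≤ F.autGroup R := by
    rintro _ ⟨π, hπ, rfl⟩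
    rw [he]
    exact congr_mem_autGroup F hσ hσR (hΔF hπ)
  have hΔ₁p : IsPGroup p (Δ.map (MulAut.congr e).toMonoidHom) := hΔp.map _
  obtain ⟨R₀, hR₀⟩ := hRa.2
  have hΔ₁p' : IsPGroup p ((Δ.map (MulAut.congr e).toMonoidHom).subgroupOf (F.autGroup R)) :=
    hΔ₁p.of_equiv (Subgroup.subgroupOfEquivOfLe hΔ₁F).symm
  obtain ⟨χ, hχ⟩ := exists_conj_le_sylow R₀ hΔ₁p'
  have hχF : R.subtype.comp (χ : MulAut R).toMonoidHom ∈ F.Hom R :=
    (mem_autGroup_iff F hRS _).mp χ.2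
  have key : ∀ π ∈ Δ, (χ : MulAut R) * MulAut.congr e π * (χ : MulAut R)⁻¹ ∈
      autInducedBy S R := by
    intro π hπ
    have h1 : (MulAut.conj χ).toMonoidHom
        (⟨MulAut.congr e π, hΔ₁F ⟨π, hπ, rfl⟩⟩ : F.autGroup R) ∈
        (R₀ : Subgroup (F.autGroup R)) := hχ ⟨_, ⟨π, hπ, rfl⟩, rfl⟩
    rw [hR₀] at h1
    exact h1
  have hσmem : ∀ x : U, σ x ∈ R := fun x => hσR.le ⟨x, rfl⟩
  obtain ⟨ρ, hρdef⟩ : ∃ ρ : U →* Ω,
      ρ = R.subtype.comp ((χ : MulAut R).toMonoidHom.comp e.toMonoidHom) := ⟨_, rfl⟩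
  have hρapply : ∀ x : U, ρ x = (((χ : MulAut R) (e x) : R) : Ω) := fun x => by
    rw [hρdef]; rfl
  have hρ : ρ ∈ F.Hom U := by
    refine comp_mem' F hσ hχF hσmem (fun x => ?_)
    rw [hρapply]
    show (((χ : MulAut R) (e x) : R) : Ω) = (((χ : MulAut R) ⟨σ x, hσmem x⟩ : R) : Ω)
    congr 2
    exact Subtype.ext (heσ x)
  have hρr : ρ.range = R := by
    ext y
    constructor
    · rintro ⟨x, rfl⟩
      rw [hρapply]
      exact Subtype.property _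
    · intro hy
      refine ⟨e.symm ((χ : MulAut R).symm ⟨y, hy⟩), ?_⟩
      rw [hρapply]
      simp
  refine ⟨ρ, hρ, ?_, ?_⟩
  · rw [hρr]
    exact isFullyCentralized_of_isReceptive F hRr
  · intro π hπ
    obtain ⟨g, hgS, hg⟩ := mem_autInducedBy_iff.mp (key π hπ)
    refine ⟨g, hgS, fun x => ?_⟩
    have h3 := hg ((χ : MulAut R) (e x))
    rw [hρapply, hρapply, ← h3]
    show ((((χ : MulAut R) (MulAut.congr e π
      ((χ : MulAut R)⁻¹ ((χ : MulAut R) (e x)))) : R)) : Ω) = _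
    rw [MulAut.inv_apply_self]
    have h4 : MulAut.congr e π (e x) = e (π x) := by
      show e (π (e.symm (e x))) = e (π x)
      rw [MulEquiv.symm_apply_apply]
    rw [h4]

/-- `Γ`: the automorphisms of `P ⊔ Q` in the system that stabilize `P` and induce an element of
`K` on `Q`. -/
def gam (F : FusionSystem S) {Q : Subgroup Ω} (K : Subgroup (MulAut Q)) (P : Subgroup Ω) :
    Subgroup (MulAut ↥(P ⊔ Q)) where
  carrier := {β | β ∈ F.autGroup (P ⊔ Q) ∧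
    (∀ x : ↥(P ⊔ Q), ((β x : ↥(P ⊔ Q)) : Ω) ∈ P ↔ (x : Ω) ∈ P) ∧
    ∃ κ ∈ K, ∀ x : Q,
      β (Subgroup.inclusion le_sup_right x) = Subgroup.inclusion le_sup_right (κ x)}
  mul_mem' := by
    rintro a b ⟨haF, haP, κa, hκa, ha⟩ ⟨hbF, hbP, κb, hκb, hb⟩
    refine ⟨Subgroup.mul_mem _ haF hbF, fun x => ?_, κa * κb, K.mul_mem hκa hκb, fun x => ?_⟩
    · show ((a (b x) : ↥(P ⊔ Q)) : Ω) ∈ P ↔ _
      rw [haP, hbP]
    · show a (b (Subgroup.inclusion le_sup_right x)) = _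
      rw [hb, ha]
      rfl
  one_mem' := ⟨Subgroup.one_mem _, fun x => Iff.rfl, 1, K.one_mem, fun x => rfl⟩
  inv_mem' := by
    rintro a ⟨haF, haP, κa, hκa, ha⟩
    refine ⟨Subgroup.inv_mem _ haF, fun x => ?_, κa⁻¹, K.inv_mem hκa, fun x => ?_⟩
    · have h := haP (a⁻¹ x)
      rw [MulAut.apply_inv_self] at h
      exact h.symm
    · have h := ha (κa⁻¹ x)
      rw [MulAut.apply_inv_self] at h
      rw [← h, MulAut.inv_apply_self]

/-- Restriction of an automorphism stabilizing a subgroup. -/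
def resAut {P U : Subgroup Ω} (hPU : P ≤ U) (β : MulAut U)
    (hβ : ∀ x : U, ((β x : U) : Ω) ∈ P ↔ (x : Ω) ∈ P) : MulAut P where
  toFun x := ⟨β (Subgroup.inclusion hPU x), (hβ _).mpr x.2⟩
  invFun x := ⟨β⁻¹ (Subgroup.inclusion hPU x), (hβ _).mp (by
    rw [MulAut.apply_inv_self]
    exact x.2)⟩
  left_inv x := by
    apply Subtype.ext
    have h : (Subgroup.inclusion hPU ⟨β (Subgroup.inclusion hPU x), (hβ _).mpr x.2⟩ : U) =
        β (Subgroup.inclusion hPU x) := rfl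
    show ((β⁻¹ (Subgroup.inclusion hPU ⟨β (Subgroup.inclusion hPU x), (hβ _).mpr x.2⟩) : U) : Ω)
      = x
    rw [h, MulAut.inv_apply_self]
    rfl
  right_inv x := by
    apply Subtype.ext
    have hx : ((β⁻¹ (Subgroup.inclusion hPU x) : U) : Ω) ∈ P := (hβ _).mp (by
      rw [MulAut.apply_inv_self]
      exact x.2)
    have h : (Subgroup.inclusion hPU ⟨β⁻¹ (Subgroup.inclusion hPU x), hx⟩ : U) =
        β⁻¹ (Subgroup.inclusion hPU x) := rfl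
    show ((β (Subgroup.inclusion hPU ⟨β⁻¹ (Subgroup.inclusion hPU x), hx⟩) : U) : Ω) = x
    rw [h, MulAut.apply_inv_self]
    rfl
  map_mul' x y := by
    apply Subtype.ext
    show ((β (Subgroup.inclusion hPU (x * y)) : U) : Ω) =
      (β (Subgroup.inclusion hPU x) : U) * (β (Subgroup.inclusion hPU y) : U)
    rw [map_mul, map_mul]
    rfl

/-- Restriction `Γ → Aut(P)`. -/
def res (F : FusionSystem S) {Q : Subgroup Ω} (K : Subgroup (MulAut Q)) (P : Subgroup Ω) :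
    ↥(gam F K P) →* MulAut P :=
  MonoidHom.mk' (fun β => resAut le_sup_left β.1 β.2.2.1) (fun a b => by
    apply MulEquiv.ext
    intro x
    apply Subtype.ext
    rfl)

theorem res_apply (F : FusionSystem S) {Q : Subgroup Ω} (K : Subgroup (MulAut Q))
    (P : Subgroup Ω) (β : gam F K P) (x : P) :
    ((res F K P β x : P) : Ω) = ((β : MulAut ↥(P ⊔ Q)) (Subgroup.inclusion le_sup_left x)) :=
  rfl

/-- `A`: the automorphisms of `P ⊔ Q` induced by `N_S^K(Q) ∩ N(P)`. -/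
def aS (S : Subgroup Ω) {Q : Subgroup Ω} (K : Subgroup (MulAut Q)) (P : Subgroup Ω) :
    Subgroup (MulAut ↥(P ⊔ Q)) :=
  autInducedBy (nk S K Q.subtype ⊓ Subgroup.normalizer (P : Set Ω)) (P ⊔ Q)

theorem nk_le_normalizer (S : Subgroup Ω) {Q : Subgroup Ω} (K : Subgroup (MulAut Q)) :
    nk S K Q.subtype ≤ Subgroup.normalizer (Q : Set Ω) := by
  rintro g ⟨hgS, κ, hκ, h⟩
  exact mem_normalizer_of_aut (γ := κ) (fun x => (h x).symm)

theorem normalizer_inf_le_sup (P Q : Subgroup Ω) :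
    Subgroup.normalizer (P : Set Ω) ⊓ Subgroup.normalizer (Q : Set Ω) ≤
      Subgroup.normalizer ((P ⊔ Q : Subgroup Ω) : Set Ω) := by
  rintro g ⟨hP, hQ⟩
  apply mem_normalizer_of_map_conj_eq
  rw [Subgroup.map_sup, map_conj_eq_of_mem_normalizer hP, map_conj_eq_of_mem_normalizer hQ]

theorem m0_le_normalizer_sup (S : Subgroup Ω) {Q : Subgroup Ω} (K : Subgroup (MulAut Q))
    (P : Subgroup Ω) : nk S K Q.subtype ⊓ Subgroup.normalizer (P : Set Ω) ≤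
      Subgroup.normalizer ((P ⊔ Q : Subgroup Ω) : Set Ω) :=
  fun _ hg => normalizer_inf_le_sup P Q ⟨hg.2, nk_le_normalizer S K hg.1⟩

theorem exists_aut_of_mem (S : Subgroup Ω) {Q : Subgroup Ω} (K : Subgroup (MulAut Q))
    (P : Subgroup Ω) {g : Ω} (hg : g ∈ nk S K Q.subtype ⊓ Subgroup.normalizer (P : Set Ω)) :
    ∃ β ∈ aS S K P, ∀ x : ↥(P ⊔ Q), ((β x : ↥(P ⊔ Q)) : Ω) = g * x * g⁻¹ := by
  refine ⟨(P ⊔ Q).normalizerMonoidHom ⟨g, m0_le_normalizer_sup S K P hg⟩, ?_, fun x => rfl⟩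
  exact mem_autInducedBy_iff.mpr ⟨g, hg, fun x => rfl⟩

theorem aS_le_gam (F : FusionSystem S) {Q : Subgroup Ω} (hQS : Q ≤ S) (K : Subgroup (MulAut Q))
    {P : Subgroup Ω} (hP : P ≤ nk S K Q.subtype) : aS S K P ≤ gam F K P := by
  intro β hβ
  obtain ⟨g, hg, hβg⟩ := mem_autInducedBy_iff.mp hβ
  have hUS : P ⊔ Q ≤ S := sup_le (hP.trans (nk_le S K _)) hQS
  refine ⟨?_, fun x => ?_, ?_⟩
  · exact autInducedBy_le_autGroup F hUS (mem_autInducedBy_iff.mpr ⟨g, hg.1.1, hβg⟩)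
  · rw [hβg x]
    exact (Subgroup.mem_normalizer_iff.mp hg.2 x).symm
  · obtain ⟨-, κ, hκ, h⟩ := hg.1
    refine ⟨κ, hκ, fun x => ?_⟩
    apply Subtype.ext
    rw [hβg]
    exact h x

theorem nk_aS (S : Subgroup Ω) {Q : Subgroup Ω} (K : Subgroup (MulAut Q)) (P : Subgroup Ω) :
    nk S (aS S K P) (P ⊔ Q).subtype =
      nk S K Q.subtype ⊓ Subgroup.normalizer (P : Set Ω) := by
  have hconj : ∀ g ∈ nk S (aS S K P) (P ⊔ Q).subtype, ∀ y ∈ P, g * y * g⁻¹ ∈ P := by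
    rintro g ⟨hgS, β, hβ, h⟩ y hy
    obtain ⟨m, hm, hβm⟩ := mem_autInducedBy_iff.mp hβ
    have h1 : g * y * g⁻¹ = m * y * m⁻¹ := by
      have h2 := h ⟨y, Subgroup.mem_sup_left hy⟩
      have h3 := hβm ⟨y, Subgroup.mem_sup_left hy⟩
      exact h2.trans h3
    rw [h1]
    exact (Subgroup.mem_normalizer_iff.mp hm.2 y).mp hy
  ext g
  constructor
  · intro hg
    refine ⟨?_, ?_⟩
    · obtain ⟨hgS, β, hβ, h⟩ := hg
      obtain ⟨m, hm, hβm⟩ := mem_autInducedBy_iff.mp hβ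
      obtain ⟨-, κ, hκ, hmκ⟩ := hm.1
      refine ⟨hgS, κ, hκ, fun x => ?_⟩
      have h2 := h (Subgroup.inclusion le_sup_right x)
      have h3 := hβm (Subgroup.inclusion le_sup_right x)
      exact (h2.trans h3).trans (hmκ x)
    · apply mem_normalizer_of_conj_mem (hconj g hg)
      intro y hy
      have h4 := hconj g⁻¹ (Subgroup.inv_mem _ hg) y hy
      rwa [inv_inv] at h4
  · intro hg
    obtain ⟨β, hβ, hβg⟩ := exists_aut_of_mem S K P hg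
    exact ⟨hg.1.1, β, hβ, fun x => (hβg x).symm⟩

theorem nk_le_mρ (F : FusionSystem S) {Q : Subgroup Ω} {K : Subgroup (MulAut Q)}
    {P : Subgroup Ω} {Δ : Subgroup (MulAut ↥(P ⊔ Q))} (hΔ : Δ ≤ gam F K P)
    (ρ : ↥(P ⊔ Q) →* Ω) : nk S Δ ρ ≤ mρ S K P ρ := by
  have hconj : ∀ g ∈ nk S Δ ρ, ∀ y ∈ ((P.subgroupOf (P ⊔ Q)).map ρ : Subgroup Ω),
      g * y * g⁻¹ ∈ ((P.subgroupOf (P ⊔ Q)).map ρ : Subgroup Ω) := by
    rintro g ⟨hgS, π, hπ, h⟩ _ ⟨x, hx, rfl⟩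
    rw [h x]
    exact ⟨π x, ((hΔ hπ).2.1 x).mpr hx, rfl⟩
  intro g hg
  refine ⟨?_, ?_⟩
  · apply mem_normalizer_of_conj_mem (hconj g hg)
    intro y hy
    have h4 := hconj g⁻¹ (Subgroup.inv_mem _ hg) y hy
    rwa [inv_inv] at h4
  · obtain ⟨hgS, π, hπ, h⟩ := hg
    obtain ⟨κ, hκ, hπκ⟩ := (hΔ hπ).2.2
    refine ⟨hgS, κ, hκ, fun x => ?_⟩
    show g * ρ (Subgroup.inclusion le_sup_right x) * g⁻¹ =
      ρ (Subgroup.inclusion le_sup_right (κ x))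
    rw [h, hπκ]

theorem key_count [Finite S] {p : ℕ} [Fact p.Prime] (hS : IsPGroup p S)
    (F : FusionSystem S) (hF : F.IsSaturated p) {Q : Subgroup Ω} (hQS : Q ≤ S)
    {K : Subgroup (MulAut Q)} {P : Subgroup Ω} (hP : P ≤ nk S K Q.subtype)
    (hgood : GoodK F K P) {Δ : Subgroup (MulAut ↥(P ⊔ Q))} (hΔ : Δ ≤ gam F K P)
    (hΔp : IsPGroup p Δ) :
    ∃ R, F.IsConj (P ⊔ Q) R ∧ F.IsFullyCentralized R ∧
      Nat.card (FusionSystem.centralizerIn S R) * Nat.card Δ ≤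
        Nat.card ↥(nk S K Q.subtype ⊓ Subgroup.normalizer (P : Set Ω)) := by
  have hUS : P ⊔ Q ≤ S := sup_le (hP.trans (nk_le S K _)) hQS
  obtain ⟨ρ, hρ, hfc, hΔS⟩ := exists_hom_sylow hS F hF hUS (fun π hπ => (hΔ hπ).1) hΔp
  refine ⟨ρ.range, ⟨ρ, hρ, rfl⟩, hfc, ?_⟩
  rw [← card_nk Δ ρ (F.injective_of_mem hρ) hΔS]
  have hfin : Finite ↥(mρ S K P ρ) := finite_of_le (mρ_le S K P ρ)
  exact (Subgroup.card_le_of_le (nk_le_mρ F hΔ ρ)).trans (hgood ρ hρ)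

theorem good_fc_sylow [Finite S] {p : ℕ} [Fact p.Prime] (hS : IsPGroup p S)
    (F : FusionSystem S) (hF : F.IsSaturated p) {Q : Subgroup Ω} (hQS : Q ≤ S)
    {K : Subgroup (MulAut Q)} {P : Subgroup Ω} (hP : P ≤ nk S K Q.subtype)
    (hgood : GoodK F K P) :
    F.IsFullyCentralized (P ⊔ Q) ∧
      ∀ Δ : Subgroup (MulAut ↥(P ⊔ Q)), Δ ≤ gam F K P → IsPGroup p Δ →
        Nat.card Δ ≤ Nat.card (aS S K P) := by
  have hUS : P ⊔ Q ≤ S := sup_le (hP.trans (nk_le S K _)) hQS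
  have hfinU : Finite ↥(P ⊔ Q) := finite_of_le hUS
  have hM₀ : Nat.card ↥(nk S K Q.subtype ⊓ Subgroup.normalizer (P : Set Ω)) =
      Nat.card (FusionSystem.centralizerIn S (P ⊔ Q)) * Nat.card (aS S K P) := by
    have h1 := card_nk (S := S) (aS S K P) (P ⊔ Q).subtype (Subgroup.subtype_injective _)
      (fun π hπ => by
        obtain ⟨g, hg, hπg⟩ := mem_autInducedBy_iff.mp hπ
        exact ⟨g, hg.1.1, fun x => (hπg x).symm⟩)
    rw [nk_aS, Subgroup.range_subtype] at h1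
    exact h1
  have hApos : 0 < Nat.card (aS S K P) := Nat.card_pos
  have hfinC : Finite ↥(FusionSystem.centralizerIn S (P ⊔ Q)) := finite_of_le inf_le_left
  have hCpos : 0 < Nat.card (FusionSystem.centralizerIn S (P ⊔ Q)) := Nat.card_pos
  have hAp : IsPGroup p (aS S K P) :=
    isPGroup_autInducedBy (hS.to_le (inf_le_left.trans (nk_le S K _))) _
  refine ⟨⟨hUS, fun V hV => ?_⟩, fun Δ hΔ hΔp => ?_⟩
  · obtain ⟨R, hUR, hRfc, hcount⟩ := key_count hS F hF hQS hP hgood (aS_le_gam F hQS K hP) hAp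
    rw [hM₀] at hcount
    have h2 := Nat.le_of_mul_le_mul_right hcount hApos
    exact (hRfc.2 V (isConj_trans F (isConj_symm F hUR) hV)).trans h2
  · obtain ⟨R, hUR, hRfc, hcount⟩ := key_count hS F hF hQS hP hgood hΔ hΔp
    rw [hM₀] at hcount
    have h4 := hRfc.2 _ (isConj_symm F hUR)
    exact Nat.le_of_mul_le_mul_left ((Nat.mul_le_mul_right _ h4).trans hcount) hCpos

theorem mem_iff_of_forall_mem {U P : Subgroup Ω} [Finite U] (β : MulAut U)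
    (h : ∀ x : U, (x : Ω) ∈ P → ((β x : U) : Ω) ∈ P) (x : U) :
    ((β x : U) : Ω) ∈ P ↔ (x : Ω) ∈ P := by
  constructor
  · intro hx
    have hinj : Function.Injective (fun y : {y : U // (y : Ω) ∈ P} =>
        (⟨β y.1, h y.1 y.2⟩ : {y : U // (y : Ω) ∈ P})) := by
      intro y z hyz
      have h1 : β y.1 = β z.1 := congrArg Subtype.val hyz
      exact Subtype.ext (β.injective h1)
    obtain ⟨y, hy⟩ := Finite.surjective_of_injective hinj ⟨β x, hx⟩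
    have h2 : β y.1 = β x := congrArg Subtype.val hy
    rw [← β.injective h2]
    exact y.2
  · exact h x

theorem autGroup_eq_range [Finite S] (F : FusionSystem S) {Q : Subgroup Ω} (hQS : Q ≤ S)
    {K : Subgroup (MulAut Q)} (E : FusionSystem (nk S K Q.subtype))
    (hE : ∀ P : Subgroup Ω, E.Hom P = kHom F K P) {P : Subgroup Ω}
    (hP : P ≤ nk S K Q.subtype) : E.autGroup P = (res F K P).range := by
  have hPS : P ≤ S := hP.trans (nk_le S K _)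
  have hUS : P ⊔ Q ≤ S := sup_le hPS hQS
  ext α
  rw [mem_autGroup_iff E hP, hE P]
  constructor
  · rintro ⟨hαF, -, -, ψ, hψ, hψP, κ, hκ, hψQ⟩
    have hψP' : ∀ x : P, ψ (Subgroup.inclusion le_sup_left x) = ((α x : P) : Ω) := hψP
    have hψU : ∀ x : ↥(P ⊔ Q), ψ x ∈ P ⊔ Q :=
      forall_mem_of_sup ψ _ (fun a => Subgroup.mem_sup_left (by rw [hψP']; exact (α a).2))
        (fun b => Subgroup.mem_sup_right (by rw [hψQ]; exact (κ b).2))
    have hr : ψ.range = P ⊔ Q := range_eq_of_forall_mem F hψ hψU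
    have hinj := F.injective_of_mem hψ
    obtain ⟨β, hβdef⟩ : ∃ β : MulAut ↥(P ⊔ Q), β = isoOfHom ψ hinj hr := ⟨_, rfl⟩
    have hβ : ∀ x : ↥(P ⊔ Q), ((β x : ↥(P ⊔ Q)) : Ω) = ψ x := fun x => by
      rw [hβdef, isoOfHom_coe]
    have hβΓ : β ∈ gam F K P := by
      refine ⟨(mem_autGroup_iff F hUS β).mpr (hom_congr F hψ hβ), fun x => ?_, κ, hκ,
        fun x => ?_⟩
      · rw [hβ]
        constructor
        · intro hx
          obtain ⟨y, hy⟩ : ∃ y : P, α y = ⟨ψ x, hx⟩ := ⟨α.symm ⟨ψ x, hx⟩, by simp⟩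
          have h1 : ψ (Subgroup.inclusion le_sup_left y) = ψ x := by
            rw [hψP', hy]
          have h2 := hinj h1
          rw [← h2]
          exact y.2
        · intro hx
          have h1 : ψ x = α ⟨x, hx⟩ := by
            rw [← hψP']
            rfl
          rw [h1]
          exact (α _).2
      · apply Subtype.ext
        rw [hβ]
        exact hψQ x
    refine ⟨⟨β, hβΓ⟩, ?_⟩
    apply MulEquiv.ext
    intro x
    apply Subtype.ext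
    rw [res_apply, hβ, hψP']
  · rintro ⟨β, rfl⟩
    have hβF : (P ⊔ Q).subtype.comp (β : MulAut ↥(P ⊔ Q)).toMonoidHom ∈ F.Hom (P ⊔ Q) :=
      (mem_autGroup_iff F hUS _).mp β.2.1
    obtain ⟨κ, hκ, hβκ⟩ := β.2.2.2
    refine ⟨?_, hP, fun x => hP (Subtype.property _), _, hβF, fun x => rfl, κ, hκ, fun x => ?_⟩
    · exact hom_congr F (restrict_mem F le_sup_left hβF) (fun x => rfl)
    · show (((β : MulAut ↥(P ⊔ Q)) (Subgroup.inclusion le_sup_right x) : ↥(P ⊔ Q)) : Ω) = κ x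
      rw [hβκ]
      rfl

theorem map_res_aS (F : FusionSystem S) {Q : Subgroup Ω} (hQS : Q ≤ S)
    {K : Subgroup (MulAut Q)} {P : Subgroup Ω} (hP : P ≤ nk S K Q.subtype) :
    ((aS S K P).subgroupOf (gam F K P)).map (res F K P) =
      autInducedBy (nk S K Q.subtype) P := by
  ext α
  constructor
  · rintro ⟨β, hβ, rfl⟩
    have hβ' : (β : MulAut ↥(P ⊔ Q)) ∈ aS S K P := hβ
    obtain ⟨g, hg, hβg⟩ := mem_autInducedBy_iff.mp hβ'
    refine mem_autInducedBy_iff.mpr ⟨g, hg.1, fun x => ?_⟩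
    rw [res_apply, hβg]
    rfl
  · intro hα
    obtain ⟨g, hg, hαg⟩ := mem_autInducedBy_iff.mp hα
    have hgP : g ∈ Subgroup.normalizer (P : Set Ω) := mem_normalizer_of_aut hαg
    obtain ⟨β, hβ, hβg⟩ := exists_aut_of_mem S K P ⟨hg, hgP⟩
    refine ⟨⟨β, aS_le_gam F hQS K hP hβ⟩, hβ, ?_⟩
    apply MulEquiv.ext
    intro x
    apply Subtype.ext
    rw [res_apply, hαg]
    exact hβg _

theorem isFullyAutomized_of_good [Finite S] {p : ℕ} [Fact p.Prime] (hS : IsPGroup p S)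
    (F : FusionSystem S) (hF : F.IsSaturated p) {Q : Subgroup Ω} (hQS : Q ≤ S)
    {K : Subgroup (MulAut Q)} (E : FusionSystem (nk S K Q.subtype))
    (hE : ∀ P : Subgroup Ω, E.Hom P = kHom F K P) {P : Subgroup Ω}
    (hP : P ≤ nk S K Q.subtype) (hgood : GoodK F K P) : E.IsFullyAutomized p P := by
  have hPS : P ≤ S := hP.trans (nk_le S K _)
  have hUS : P ⊔ Q ≤ S := sup_le hPS hQS
  have hfinU : Finite ↥(P ⊔ Q) := finite_of_le hUS
  obtain ⟨-, hsyl⟩ := good_fc_sylow hS F hF hQS hP hgood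
  have hAp : IsPGroup p (aS S K P) :=
    isPGroup_autInducedBy (hS.to_le (inf_le_left.trans (nk_le S K _))) _
  obtain ⟨R, hR⟩ := (sylow_subgroupOf_iff (gam F K P) (aS S K P) (aS_le_gam F hQS K hP) hAp).mpr
    (fun K' hK' hK'p => hsyl K' hK' hK'p)
  obtain ⟨R', hR'⟩ := sylow_map_of_eq (res F K P) R (E.autGroup P)
    (autGroup_eq_range F hQS E hE hP)
  refine ⟨hP, R', ?_⟩
  rw [hR', hR, map_res_aS F hQS hP]

theorem isReceptive_of_good [Finite S] {p : ℕ} [Fact p.Prime] (hS : IsPGroup p S)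
    (F : FusionSystem S) (hF : F.IsSaturated p) {Q : Subgroup Ω} (hQS : Q ≤ S)
    {K : Subgroup (MulAut Q)} (E : FusionSystem (nk S K Q.subtype))
    (hE : ∀ P : Subgroup Ω, E.Hom P = kHom F K P) {P : Subgroup Ω}
    (hP : P ≤ nk S K Q.subtype) (hgood : GoodK F K P) : E.IsReceptive P := by
  have hPS : P ≤ S := hP.trans (nk_le S K _)
  have hUS : P ⊔ Q ≤ S := sup_le hPS hQS
  have hfinU : Finite ↥(P ⊔ Q) := finite_of_le hUS
  obtain ⟨hUfc, hsyl⟩ := good_fc_sylow hS F hF hQS hP hgood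
  have hUrec : F.IsReceptive (P ⊔ Q) := isReceptive_of_isFullyCentralized hS F hF hUfc
  have hAp : IsPGroup p (aS S K P) :=
    isPGroup_autInducedBy (hS.to_le (inf_le_left.trans (nk_le S K _))) _
  have hAΓ := aS_le_gam F hQS K hP
  refine ⟨hP, ?_⟩
  intro R' φ hφE hφr
  rw [hE R'] at hφE
  obtain ⟨hφF, hR'N, hφN, φb, hφb, hφbR', κ, hκ, hφbQ⟩ := hφE
  have hR'S : R' ≤ S := hR'N.trans (nk_le S K _)
  have hWS : R' ⊔ Q ≤ S := sup_le hR'S hQS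
  have hφbinj := F.injective_of_mem hφb
  have hφP : ∀ a : R', φ a ∈ P := fun a => hφr.le ⟨a, rfl⟩
  have hφbr : φb.range = P ⊔ Q := by
    apply le_antisymm
    · rintro _ ⟨x, rfl⟩
      exact forall_mem_of_sup φb (P ⊔ Q)
        (fun a => Subgroup.mem_sup_left (by rw [hφbR']; exact hφP a))
        (fun b => Subgroup.mem_sup_right (by rw [hφbQ]; exact (κ b).2)) x
    · rw [sup_le_iff]
      constructor
      · intro y hy
        rw [← hφr] at hy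
        obtain ⟨a, rfl⟩ := hy
        exact ⟨_, hφbR' a⟩
      · intro y hy
        refine ⟨Subgroup.inclusion le_sup_right (κ.symm ⟨y, hy⟩), ?_⟩
        rw [hφbQ]
        simp
  obtain ⟨e, he⟩ : ∃ e : ↥(R' ⊔ Q) ≃* ↥(P ⊔ Q), e = isoOfHom φb hφbinj hφbr := ⟨_, rfl⟩
  have heφ : ∀ x, ((e x : ↥(P ⊔ Q)) : Ω) = φb x := fun x => by rw [he, isoOfHom_coe]
  obtain ⟨N, hNdef⟩ : ∃ N : Subgroup Ω,
      N = FusionSystem.extender (nk S K Q.subtype) R' φ := ⟨_, rfl⟩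
  have hN_N₀ : N ≤ nk S K Q.subtype := by
    rw [hNdef]
    exact extender_le_S _ _ _
  have hN_R' : N ≤ Subgroup.normalizer (R' : Set Ω) := by
    rw [hNdef, FusionSystem.extender, Subgroup.closure_le]
    rintro g ⟨-, hg, -⟩
    exact hg
  have hN_W : N ≤ FusionSystem.normalizerIn S (R' ⊔ Q) := fun g hg =>
    ⟨nk_le S K _ (hN_N₀ hg),
      normalizer_inf_le_sup R' Q ⟨hN_R' hg, nk_le_normalizer S K (hN_N₀ hg)⟩⟩
  have hconjR' : ∀ (g : Ω) (_ : g ∈ N) (y : R'), g * y * g⁻¹ ∈ R' := fun g hg y =>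
    (Subgroup.mem_normalizer_iff.mp (hN_R' hg) y).mp y.2
  have hc_apply : ∀ (g : Ω) (hg : g ∈ N) (y : R') (x : ↥(P ⊔ Q)), (x : Ω) = φ y →
      ((conjTransport S e ⟨g, hN_W hg⟩ x : ↥(P ⊔ Q)) : Ω) =
        φ ⟨g * y * g⁻¹, hconjR' g hg y⟩ := by
    intro g hg y x hx
    have hx' : x = e (Subgroup.inclusion le_sup_left y) := by
      apply Subtype.ext
      rw [hx, heφ, hφbR']
    rw [hx', conjTransport_apply, heφ, ← hφbR' ⟨g * y * g⁻¹, hconjR' g hg y⟩]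
    rfl
  have hc_applyQ : ∀ (g : Ω) (hg : g ∈ N) (κg : MulAut Q), (∀ x : Q, g * x * g⁻¹ = κg x) →
      ∀ x : Q, conjTransport S e ⟨g, hN_W hg⟩ (Subgroup.inclusion le_sup_right (κ x)) =
        Subgroup.inclusion le_sup_right (κ (κg x)) := by
    intro g hg κg hκg x
    have hx' : (Subgroup.inclusion le_sup_right (κ x) : ↥(P ⊔ Q)) =
        e (Subgroup.inclusion le_sup_right x) := by
      apply Subtype.ext
      rw [heφ, hφbQ]
      rfl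
    rw [hx', conjTransport_apply]
    apply Subtype.ext
    rw [heφ]
    show φb _ = κ (κg x)
    rw [← hφbQ (κg x)]
    congr 1
    apply Subtype.ext
    exact hκg x
  have hcΓ : ∀ n : N, (conjTransport S e).comp (Subgroup.inclusion hN_W) n ∈ gam F K P := by
    rintro ⟨g, hg⟩
    refine ⟨?_, ?_, ?_⟩
    · rw [he]
      exact conjTransport_mem_autGroup F hφb hφbr _
    · apply mem_iff_of_forall_mem
      intro x hx
      obtain ⟨y, hy⟩ := hφr.ge hx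
      have h1 := hc_apply g hg y x hy.symm
      show ((conjTransport S e ⟨g, hN_W hg⟩ x : ↥(P ⊔ Q)) : Ω) ∈ P
      rw [h1]
      exact hφP _
    · obtain ⟨-, κg, hκg, hg'⟩ := hN_N₀ hg
      refine ⟨κ * κg * κ⁻¹, K.mul_mem (K.mul_mem hκ hκg) (K.inv_mem hκ), fun y => ?_⟩
      have h1 := hc_applyQ g hg κg hg' (κ⁻¹ y)
      rw [MulAut.apply_inv_self] at h1
      exact h1
  obtain ⟨cΓ, hcΓdef⟩ : ∃ cΓ : ↥N →* ↥(gam F K P),
      cΓ = ((conjTransport S e).comp (Subgroup.inclusion hN_W)).codRestrict (gam F K P) hcΓ :=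
    ⟨_, rfl⟩
  have hcΓapply : ∀ (g : Ω) (hg : g ∈ N),
      ((cΓ ⟨g, hg⟩ : ↥(gam F K P)) : MulAut ↥(P ⊔ Q)) = conjTransport S e ⟨g, hN_W hg⟩ :=
    fun g hg => by
      rw [hcΓdef]
      rfl
  have hNp : IsPGroup p N := hS.to_le (hN_N₀.trans (nk_le S K _))
  have hBp : IsPGroup p cΓ.range :=
    hNp.of_surjective cΓ.rangeRestrict cΓ.rangeRestrict_surjective
  obtain ⟨A', hA'def⟩ : ∃ A' : Subgroup ↥(gam F K P),
      A' = (aS S K P).subgroupOf (gam F K P) := ⟨_, rfl⟩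
  obtain ⟨X, hXdef⟩ : ∃ X : Subgroup ↥(gam F K P),
      X = (A'.map (res F K P)).comap (res F K P) := ⟨_, rfl⟩
  have hA'X : A' ≤ X := by
    rw [hXdef]
    exact Subgroup.le_comap_map _ _
  have hA'p : IsPGroup p A' := by
    rw [hA'def]
    exact hAp.of_equiv (Subgroup.subgroupOfEquivOfLe hAΓ).symm
  have hgen : FusionSystem.extender (nk S K Q.subtype) R' φ ≤ (X.comap cΓ).map N.subtype := by
    rw [FusionSystem.extender, Subgroup.closure_le]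
    rintro g ⟨hgN₀, hgR', h, hhN₀, hh⟩
    have hgN : g ∈ N := by
      rw [hNdef]
      exact Subgroup.subset_closure ⟨hgN₀, hgR', h, hhN₀, hh⟩
    refine ⟨⟨g, hgN⟩, ?_, rfl⟩
    have hhM : h ∈ nk S K Q.subtype ⊓ Subgroup.normalizer (P : Set Ω) :=
      mem_normalizerIn_of_extender_gen hφr hgR' hhN₀ hh
    obtain ⟨a, haA, hah⟩ := exists_aut_of_mem S K P hhM
    show cΓ ⟨g, hgN⟩ ∈ X
    rw [hXdef]
    show res F K P (cΓ ⟨g, hgN⟩) ∈ A'.map (res F K P)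
    refine ⟨⟨a, hAΓ haA⟩, by rw [hA'def]; exact haA, ?_⟩
    apply MulEquiv.ext
    intro x
    apply Subtype.ext
    rw [res_apply, res_apply, hcΓapply]
    show ((a (Subgroup.inclusion le_sup_left x) : ↥(P ⊔ Q)) : Ω) = _
    obtain ⟨y, hy⟩ : ∃ y : R', φ y = x := hφr.ge x.2
    rw [hc_apply g hgN y (Subgroup.inclusion le_sup_left x) hy.symm, hah,
      hh y (hconjR' g hgN y), hy]
    rfl
  have hBX : cΓ.range ≤ X := by
    rintro _ ⟨⟨g, hg⟩, rfl⟩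
    have hg' : g ∈ FusionSystem.extender (nk S K Q.subtype) R' φ := by
      rw [← hNdef]
      exact hg
    obtain ⟨g', hg'X, hg'g⟩ := hgen hg'
    have h1 : g' = ⟨g, hg⟩ := Subtype.ext hg'g
    rw [← h1]
    exact hg'X
  have hXsyl : ∃ R : Sylow p ↥X, (R : Subgroup ↥X) = A'.subgroupOf X := by
    refine (sylow_subgroupOf_iff X A' hA'X hA'p).mpr (fun K' _ hK'p => ?_)
    have h1 := hsyl (K'.map (gam F K P).subtype) (Subgroup.map_subtype_le K') (hK'p.map _)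
    rw [Subgroup.card_map_of_injective (Subgroup.subtype_injective _)] at h1
    rw [hA'def, card_subgroupOf_of_le hAΓ]
    exact h1
  obtain ⟨R, hR⟩ := hXsyl
  have hBp' : IsPGroup p (cΓ.range.subgroupOf X) :=
    hBp.of_equiv (Subgroup.subgroupOfEquivOfLe hBX).symm
  obtain ⟨x, hx⟩ := exists_conj_le_sylow R hBp'
  have hX' : ∀ z ∈ X, res F K P z ∈ A'.map (res F K P) := by
    rw [hXdef]
    intro z hz
    exact hz
  obtain ⟨a, haA', hax⟩ := hX' _ x.2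
  obtain ⟨γ₀, hγ₀def⟩ : ∃ γ₀ : ↥(gam F K P), γ₀ = a⁻¹ * (x : ↥(gam F K P)) := ⟨_, rfl⟩
  have hγ₀res : res F K P γ₀ = 1 := by
    rw [hγ₀def, map_mul, map_inv, hax]
    exact inv_mul_cancel _
  have hkey : ∀ (g : Ω) (hg : g ∈ N), γ₀ * cΓ ⟨g, hg⟩ * γ₀⁻¹ ∈ A' := by
    intro g hg
    have hbX : cΓ ⟨g, hg⟩ ∈ X := hBX ⟨_, rfl⟩
    have hbB : (⟨cΓ ⟨g, hg⟩, hbX⟩ : ↥X) ∈ cΓ.range.subgroupOf X := by
      show cΓ ⟨g, hg⟩ ∈ cΓ.range
      exact ⟨_, rfl⟩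
    have h1 : (MulAut.conj x).toMonoidHom ⟨cΓ ⟨g, hg⟩, hbX⟩ ∈ (R : Subgroup ↥X) :=
      hx ⟨_, hbB, rfl⟩
    rw [hR] at h1
    have h2 : (x : ↥(gam F K P)) * cΓ ⟨g, hg⟩ * (x : ↥(gam F K P))⁻¹ ∈ A' := h1
    have h3 : γ₀ * cΓ ⟨g, hg⟩ * γ₀⁻¹ =
        a⁻¹ * ((x : ↥(gam F K P)) * cΓ ⟨g, hg⟩ * (x : ↥(gam F K P))⁻¹) * a := by
      rw [hγ₀def]
      group
    rw [h3]
    exact A'.mul_mem (A'.mul_mem (A'.inv_mem haA') h2) haA'
  have hγ₀F : (P ⊔ Q).subtype.comp (γ₀ : MulAut ↥(P ⊔ Q)).toMonoidHom ∈ F.Hom (P ⊔ Q) :=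
    (mem_autGroup_iff F hUS _).mp γ₀.2.1
  have hφbU : ∀ x, φb x ∈ P ⊔ Q := fun x => hφbr.le ⟨x, rfl⟩
  obtain ⟨φh, hφhdef⟩ : ∃ φh : ↥(R' ⊔ Q) →* Ω,
      φh = (P ⊔ Q).subtype.comp ((γ₀ : MulAut ↥(P ⊔ Q)).toMonoidHom.comp e.toMonoidHom) :=
    ⟨_, rfl⟩
  have hφhapply : ∀ x, φh x = (((γ₀ : MulAut ↥(P ⊔ Q)) (e x) : ↥(P ⊔ Q)) : Ω) := fun x => by
    rw [hφhdef]
    rfl
  have hφh : φh ∈ F.Hom (R' ⊔ Q) := by
    refine comp_mem' F hφb hγ₀F hφbU (fun x => ?_)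
    rw [hφhapply]
    show _ = (((γ₀ : MulAut ↥(P ⊔ Q)) ⟨φb x, hφbU x⟩ : ↥(P ⊔ Q)) : Ω)
    congr 2
    exact Subtype.ext (heφ x)
  have hφhr : φh.range = P ⊔ Q := by
    ext y
    constructor
    · rintro ⟨x, rfl⟩
      rw [hφhapply]
      exact Subtype.property _
    · intro hy
      refine ⟨e.symm ((γ₀ : MulAut ↥(P ⊔ Q)).symm ⟨y, hy⟩), ?_⟩
      rw [hφhapply]
      simp
  have hγ₀P : ∀ z : P, (γ₀ : MulAut ↥(P ⊔ Q)) (Subgroup.inclusion le_sup_left z) =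
      Subgroup.inclusion le_sup_left z := by
    intro z
    apply Subtype.ext
    rw [← res_apply, hγ₀res]
    rfl
  obtain ⟨κ₀, hκ₀, hγ₀Q⟩ := γ₀.2.2.2
  have hφhR' : ∀ a : R', φh (Subgroup.inclusion le_sup_left a) = φ a := by
    intro a
    rw [hφhapply]
    have h1 : e (Subgroup.inclusion le_sup_left a) =
        Subgroup.inclusion le_sup_left ⟨φ a, hφP a⟩ := by
      apply Subtype.ext
      rw [heφ, hφbR']
      rfl
    rw [h1, hγ₀P]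
    rfl
  have hφhQ : ∀ x : Q, φh (Subgroup.inclusion le_sup_right x) = (κ₀ * κ) x := by
    intro x
    rw [hφhapply]
    have h1 : e (Subgroup.inclusion le_sup_right x) = Subgroup.inclusion le_sup_right (κ x) := by
      apply Subtype.ext
      rw [heφ, hφbQ]
      rfl
    rw [h1, hγ₀Q]
    rfl
  have hNext : N ≤ FusionSystem.extender S (R' ⊔ Q) φh := by
    intro g hg
    apply Subgroup.subset_closure
    refine ⟨(hN_W hg).1, (hN_W hg).2, ?_⟩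
    have h1 : ((γ₀ * cΓ ⟨g, hg⟩ * γ₀⁻¹ : ↥(gam F K P)) : MulAut ↥(P ⊔ Q)) ∈ aS S K P := by
      have h0 := hkey g hg
      rw [hA'def] at h0
      exact h0
    obtain ⟨m, hm, hmb⟩ := mem_autInducedBy_iff.mp h1
    refine ⟨m, hm.1.1, fun x hx => ?_⟩
    have h2 := hmb ((γ₀ : MulAut ↥(P ⊔ Q)) (e x))
    rw [hφhapply, hφhapply, ← h2]
    show _ = ((((γ₀ : MulAut ↥(P ⊔ Q)) (((cΓ ⟨g, hg⟩ : ↥(gam F K P)) : MulAut ↥(P ⊔ Q))
      ((γ₀ : MulAut ↥(P ⊔ Q))⁻¹ ((γ₀ : MulAut ↥(P ⊔ Q)) (e x)))) : ↥(P ⊔ Q))) : Ω)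
    rw [MulAut.inv_apply_self, hcΓapply]
    exact congrArg (fun z => (((γ₀ : MulAut ↥(P ⊔ Q)) z : ↥(P ⊔ Q)) : Ω))
      (conjTransport_apply e ⟨g, hN_W hg⟩ x).symm
  obtain ⟨ψ₁, hψ₁, hext⟩ := hUrec.2 (R' ⊔ Q) φh hφh hφhr
  have hWV : R' ⊔ Q ≤ FusionSystem.extender S (R' ⊔ Q) φh := le_extender_self F hφh
  have hQV : ∀ x : Q, Q.subtype x ∈ FusionSystem.extender S (R' ⊔ Q) φh :=
    fun x => hWV (Subgroup.mem_sup_right x.2)
  have hψ₁Q : ∀ x : Q, ψ₁ ⟨Q.subtype x, hQV x⟩ = (κ₀ * κ) x := by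
    intro x
    rw [← hφhQ x]
    exact hext _ (Subgroup.mem_sup_right x.2) _
  have hκ' : κ₀ * κ ∈ K := K.mul_mem hκ₀ hκ
  rw [← hNdef]
  refine ⟨ψ₁.comp (Subgroup.inclusion hNext), ?_, fun x hxR' hxN => ?_⟩
  · rw [hE N]
    refine ⟨restrict_mem F hNext hψ₁, hN_N₀, fun g => ?_,
      ψ₁.comp (Subgroup.inclusion (sup_le hNext (le_sup_right.trans hWV))),
      restrict_mem F (sup_le hNext (le_sup_right.trans hWV)) hψ₁, fun x => rfl, κ₀ * κ, hκ',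
      fun x => hψ₁Q x⟩
    exact map_mem_nk F hψ₁ hQV hκ' hψ₁Q (g := ⟨g, hNext g.2⟩) (hN_N₀ g.2)
  · rw [← hφhR' ⟨x, hxR'⟩]
    exact hext x (Subgroup.mem_sup_left hxR') (hNext hxN)

/-- **Puig's theorem**: the `K`-normalizer system of a `K`-receptive subgroup of a saturated
fusion system is saturated. -/
theorem isSaturated_kNormalizer [Finite S] {p : ℕ} [Fact p.Prime] (hS : IsPGroup p S)
    (F : FusionSystem S) (hF : F.IsSaturated p) {Q : Subgroup Ω} (hQS : Q ≤ S)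
    {K : Subgroup (MulAut Q)} (hKR : KReceptive F K) {N : Subgroup Ω}
    (hN : N = nk S K Q.subtype) (E : FusionSystem N)
    (hE : ∀ P : Subgroup Ω, E.Hom P = kHom F K P) : E.IsSaturated p := by
  subst hN
  intro P hP
  obtain ⟨φ, hφ, hgood⟩ := exists_good F hQS hKR hP
  have hP' : φ.range ≤ nk S K Q.subtype := by
    rintro _ ⟨x, rfl⟩
    exact hφ.2.2.1 x
  refine ⟨φ.range, ⟨φ, ?_, rfl⟩, isFullyAutomized_of_good hS F hF hQS E hE hP' hgood,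
    isReceptive_of_good hS F hF hQS E hE hP' hgood⟩
  rw [hE P]
  exact hφ

end Cfsg.Agent.Lib.Helper8.KNorm
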