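import Cfsg.Agent.Lib.Helper8.KNorm

set_option autoImplicit false

namespace Cfsg.Agent.Lib.Helper8.KNorm2

open Cfsg
open Cfsg.Agent.Lib.Helper8.Fusion Cfsg.Agent.Lib.Helper8.GroupFusion Cfsg.Agent.Lib.Helper8.Sat
  Cfsg.Agent.Lib.Helper8.Sat2 Cfsg.Agent.Lib.Helper8.Alperin Cfsg.Agent.Lib.Helper8.Alperin2
  Cfsg.Agent.Lib.Helper8.Essential Cfsg.Agent.Lib.Helper8.KNorm

variable {Ω : Type*} [Group Ω] {S : Subgroup Ω}

theorem nk_top (S Q : Subgroup Ω) :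
    nk S (⊤ : Subgroup (MulAut Q)) Q.subtype = FusionSystem.normalizerIn S Q := by
  ext g
  constructor
  · rintro ⟨hgS, κ, -, h⟩
    exact ⟨hgS, mem_normalizer_of_aut (γ := κ) (fun x => (h x).symm)⟩
  · rintro ⟨hgS, hgN⟩
    exact ⟨hgS, Q.normalizerMonoidHom ⟨g, hgN⟩, Subgroup.mem_top _, fun x => rfl⟩

theorem kHom_top (F : FusionSystem S) (Q P : Subgroup Ω) :
    kHom F (⊤ : Subgroup (MulAut Q)) P = F.normalizerHom Q P := by
  ext φ
  unfold kHom FusionSystem.normalizerHom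
  rw [nk_top]
  constructor
  · rintro ⟨hφ, hP, hv, ψ, hψ, hψP, κ, -, hψQ⟩
    refine ⟨hφ, hP, hv, ψ, hψ, hψP, ?_⟩
    ext y
    constructor
    · rintro ⟨z, hz, rfl⟩
      have hzQ : (z : Ω) ∈ Q := hz
      have h1 : z = Subgroup.inclusion le_sup_right (⟨(z : Ω), hzQ⟩ : Q) := rfl
      rw [h1, hψQ]
      exact (κ _).2
    · intro hy
      refine ⟨Subgroup.inclusion le_sup_right (κ.symm ⟨y, hy⟩), (κ.symm ⟨y, hy⟩).2, ?_⟩
      rw [hψQ]
      simp
  · rintro ⟨hφ, hP, hv, ψ, hψ, hψP, hψQ⟩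
    refine ⟨hφ, hP, hv, ψ, hψ, hψP, ?_⟩
    have hinj := F.injective_of_mem hψ
    have hinj' : Function.Injective (ψ.comp (Subgroup.inclusion (le_sup_right : Q ≤ P ⊔ Q))) :=
      hinj.comp (Subgroup.inclusion_injective _)
    have hr : (ψ.comp (Subgroup.inclusion (le_sup_right : Q ≤ P ⊔ Q))).range = Q := by
      ext y
      constructor
      · rintro ⟨x, rfl⟩
        exact hψQ.le ⟨Subgroup.inclusion le_sup_right x, x.2, rfl⟩
      · intro hy
        obtain ⟨z, hz, rfl⟩ := hψQ.ge hy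
        exact ⟨⟨z, hz⟩, rfl⟩
    exact ⟨isoOfHom _ hinj' hr, Subgroup.mem_top _, fun x => (isoOfHom_coe _ hinj' hr x).symm⟩

theorem nk_le_normalizer_range (S : Subgroup Ω) {Q : Subgroup Ω} (K : Subgroup (MulAut Q))
    (ρ : Q →* Ω) : nk S K ρ ≤ Subgroup.normalizer (ρ.range : Set Ω) := by
  have hconj : ∀ g ∈ nk S K ρ, ∀ y ∈ ρ.range, g * y * g⁻¹ ∈ ρ.range := by
    rintro g ⟨-, κ, -, h⟩ _ ⟨x, rfl⟩
    rw [h]
    exact ⟨_, rfl⟩
  intro g hg
  apply mem_normalizer_of_conj_mem (hconj g hg)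
  intro y hy
  have h4 := hconj g⁻¹ (Subgroup.inv_mem _ hg) y hy
  rwa [inv_inv] at h4

theorem kReceptive_top [Finite S] {p : ℕ} [Fact p.Prime] (hS : IsPGroup p S)
    (F : FusionSystem S) (hF : F.IsSaturated p) {Q : Subgroup Ω} (hQ : F.IsFullyNormalized Q) :
    KReceptive F (⊤ : Subgroup (MulAut Q)) := by
  obtain ⟨hfc, hfa⟩ := isFullyCentralized_and_isFullyAutomized hS F hF hQ
  have hrec := isReceptive_of_isFullyCentralized hS F hF hfc
  intro ρ hρ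
  obtain ⟨φ, hφ, hφN, hφQ⟩ := exists_normalizer_hom hS F hfa hrec (isConj_symm F ⟨ρ, hρ, rfl⟩)
  have hρN : ρ.range ≤ FusionSystem.normalizerIn S ρ.range :=
    le_normalizerIn_self (range_le_of_mem F hρ)
  have hle : nk S (⊤ : Subgroup (MulAut Q)) ρ ⊔ ρ.range ≤
      FusionSystem.normalizerIn S ρ.range := by
    rw [sup_le_iff]
    exact ⟨fun g hg => ⟨nk_le S _ _ hg, nk_le_normalizer_range S _ ρ hg⟩, hρN⟩
  have hρmem : ∀ x : Q, ρ x ∈ FusionSystem.normalizerIn S ρ.range := fun x => hρN ⟨x, rfl⟩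
  have hinj' : Function.Injective (φ.comp (ρ.codRestrict _ hρmem)) := by
    intro x y hxy
    have h1 := F.injective_of_mem hφ hxy
    have h2 : ρ x = ρ y := congrArg Subtype.val h1
    exact F.injective_of_mem hρ h2
  have hr : (φ.comp (ρ.codRestrict _ hρmem)).range = Q := by
    ext y
    constructor
    · rintro ⟨x, rfl⟩
      exact hφQ.le ⟨⟨ρ x, hρmem x⟩, ⟨x, rfl⟩, rfl⟩
    · intro hy
      obtain ⟨n, hn, rfl⟩ := hφQ.ge hy
      obtain ⟨x, hx⟩ := hn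
      refine ⟨x, ?_⟩
      show φ ⟨ρ x, hρmem x⟩ = φ n
      congr 1
      exact Subtype.ext hx
  refine ⟨φ.comp (Subgroup.inclusion hle), restrict_mem F hle hφ, isoOfHom _ hinj' hr,
    Subgroup.mem_top _, fun x => ?_⟩
  exact (isoOfHom_coe _ hinj' hr x).symm

theorem isSaturated_normalizerSystem [Finite S] {p : ℕ} [Fact p.Prime] (hS : IsPGroup p S)
    (F : FusionSystem S) (hF : F.IsSaturated p) (Q : Subgroup Ω) (hQ : F.IsFullyNormalized Q)
    (E : FusionSystem (FusionSystem.normalizerIn S Q)) (hE : F.IsNormalizerSystem Q E) :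
    E.IsSaturated p :=
  isSaturated_kNormalizer hS F hF hQ.1 (kReceptive_top hS F hF hQ) (nk_top S Q).symm E
    (fun P => by rw [kHom_top]; exact hE P)

theorem nk_bot (S Q : Subgroup Ω) :
    nk S (⊥ : Subgroup (MulAut Q)) Q.subtype = FusionSystem.centralizerIn S Q := by
  ext g
  constructor
  · rintro ⟨hgS, κ, hκ, h⟩
    rw [Subgroup.mem_bot] at hκ
    subst hκ
    refine ⟨hgS, ?_⟩
    show g ∈ Subgroup.centralizer (Q : Set Ω)
    rw [Subgroup.mem_centralizer_iff]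
    intro y hy
    have h1 : g * y * g⁻¹ = y := h ⟨y, hy⟩
    calc y * g = (g * y * g⁻¹) * g := by rw [h1]
      _ = g * y := by group
  · rintro ⟨hgS, hgc⟩
    refine ⟨hgS, 1, Subgroup.one_mem _, fun x => ?_⟩
    have h5 := Subgroup.mem_centralizer_iff.mp hgc x x.2
    show g * (x : Ω) * g⁻¹ = x
    rw [← h5]
    group

theorem kHom_bot (F : FusionSystem S) (Q P : Subgroup Ω) :
    kHom F (⊥ : Subgroup (MulAut Q)) P = F.centralizerHom Q P := by
  ext φ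
  unfold kHom FusionSystem.centralizerHom
  rw [nk_bot]
  constructor
  · rintro ⟨hφ, hP, hv, ψ, hψ, hψP, κ, hκ, hψQ⟩
    rw [Subgroup.mem_bot] at hκ
    subst hκ
    exact ⟨hφ, hP, hv, ψ, hψ, hψP, hψQ⟩
  · rintro ⟨hφ, hP, hv, ψ, hψ, hψP, hψQ⟩
    exact ⟨hφ, hP, hv, ψ, hψ, hψP, 1, Subgroup.one_mem _, hψQ⟩

theorem kReceptive_bot [Finite S] {p : ℕ} [Fact p.Prime] (hS : IsPGroup p S)
    (F : FusionSystem S) (hF : F.IsSaturated p) {Q : Subgroup Ω} (hQ : F.IsFullyCentralized Q) :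
    KReceptive F (⊥ : Subgroup (MulAut Q)) := by
  have hrec := isReceptive_of_isFullyCentralized hS F hF hQ
  intro ρ hρ
  obtain ⟨χ, hχ, hχr, hχinv⟩ := exists_inv F hρ rfl
  obtain ⟨ψ₁, hψ₁, hext⟩ := hrec.2 ρ.range χ hχ hχr
  have hle : nk S (⊥ : Subgroup (MulAut Q)) ρ ⊔ ρ.range ≤
      FusionSystem.extender S ρ.range χ := by
    rw [sup_le_iff]
    refine ⟨fun g hg => centralizerIn_le_extender ρ.range χ ?_, le_extender_self F hχ⟩
    obtain ⟨hgS, κ, hκ, h⟩ := hg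
    rw [Subgroup.mem_bot] at hκ
    subst hκ
    refine ⟨hgS, ?_⟩
    show g ∈ Subgroup.centralizer (ρ.range : Set Ω)
    rw [Subgroup.mem_centralizer_iff]
    rintro _ ⟨x, rfl⟩
    have h1 : g * ρ x * g⁻¹ = ρ x := h x
    calc ρ x * g = (g * ρ x * g⁻¹) * g := by rw [h1]
      _ = g * ρ x := by group
  refine ⟨ψ₁.comp (Subgroup.inclusion hle), restrict_mem F hle hψ₁, 1, Subgroup.one_mem _,
    fun x => ?_⟩
  have h2 := hext (ρ x) ⟨x, rfl⟩ (hle (Subgroup.mem_sup_right ⟨x, rfl⟩))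
  have h3 := hχinv x ⟨x, rfl⟩
  exact h2.trans h3

theorem isSaturated_centralizerSystem [Finite S] {p : ℕ} [Fact p.Prime] (hS : IsPGroup p S)
    (F : FusionSystem S) (hF : F.IsSaturated p) (Q : Subgroup Ω) (hQ : F.IsFullyCentralized Q)
    (E : FusionSystem (FusionSystem.centralizerIn S Q)) (hE : F.IsCentralizerSystem Q E) :
    E.IsSaturated p :=
  isSaturated_kNormalizer hS F hF hQ.1 (kReceptive_bot hS F hF hQ) (nk_bot S Q).symm E
    (fun P => by rw [kHom_bot]; exact hE P)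

end Cfsg.Agent.Lib.Helper8.KNorm2
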