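import Cfsg.Agent.Lib.Helper8.Transport
import Cfsg.Agent.Lib.Helper8.Normal2

set_option autoImplicit false

namespace Cfsg.Agent.Lib.Helper8.Model

open Cfsg
open Cfsg.Agent.Lib.Helper8.Fusion Cfsg.Agent.Lib.Helper8.GroupFusion Cfsg.Agent.Lib.Helper8.Sat
  Cfsg.Agent.Lib.Helper8.Sat2 Cfsg.Agent.Lib.Helper8.Alperin Cfsg.Agent.Lib.Helper8.Alperin2
  Cfsg.Agent.Lib.Helper8.Normal Cfsg.Agent.Lib.Helper8.Normal2 Cfsg.Agent.Lib.Helper8.Transport

variable {Ω : Type*} [Group Ω] {S : Subgroup Ω}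

/-- A fusion system with a model is constrained. -/
theorem isConstrained_of_isModel [Finite S] {p : ℕ} [Fact p.Prime] (hS : IsPGroup p S)
    (F : FusionSystem S) {G : Type*} [Group G] (ι : S →* G) (hG : F.IsModel p G ι) :
    F.IsConstrained p := by
  obtain ⟨hfin, hι, ⟨T, hT⟩, hcent⟩ := hG
  have hsat := isSaturated_of_isRealizedBy hS F ι hι T hT
  refine ⟨hsat, ?_⟩
  obtain ⟨Q, hQdef⟩ : ∃ Q : Subgroup Ω, Q = ((pCore p G).comap ι).map S.subtype := ⟨_, rfl⟩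
  have hQS : Q ≤ S := by
    rw [hQdef]
    exact Subgroup.map_subtype_le _
  have hmemQ : ∀ (x : Ω) (hx : x ∈ S), x ∈ Q ↔ ι ⟨x, hx⟩ ∈ pCore p G := by
    intro x hx
    rw [hQdef]
    constructor
    · rintro ⟨s, hs, hsx⟩
      have h1 : s = ⟨x, hx⟩ := Subtype.ext hsx
      rw [← h1]
      exact hs
    · intro h
      exact ⟨⟨x, hx⟩, h, rfl⟩
  have hOT : pCore p G ≤ ι.range := hT ▸ pCore_le_sylow' T
  have hOn : (pCore p G).Normal := pCore_normal' p G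
  have hQn : F.IsNormal Q := by
    refine ⟨hQS, fun P φ hφ => ?_⟩
    have hP := (F.le_of_mem hφ).1
    have hφS := (F.le_of_mem hφ).2
    obtain ⟨g, hg⟩ := (hι.2 P hP φ hφS).mp hφ
    have hPQS : P ⊔ Q ≤ S := sup_le hP hQS
    obtain ⟨c, hc⟩ : ∃ c : ↥(P ⊔ Q) →* G, ∀ x : ↥(P ⊔ Q), c x = g * ι ⟨x, hPQS x.2⟩ * g⁻¹ :=
      ⟨(MulAut.conj g).toMonoidHom.comp (ι.comp (Subgroup.inclusion hPQS)), fun x => rfl⟩
    have hcr : ∀ x : ↥(P ⊔ Q), c x ∈ ι.range := by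
      have h1 : P.subgroupOf (P ⊔ Q) ≤ ι.range.comap c := by
        intro x hx
        have hxP : (x : Ω) ∈ P := hx
        show c x ∈ ι.range
        rw [hc]
        exact ⟨_, hg ⟨x, hxP⟩⟩
      have h2 : Q.subgroupOf (P ⊔ Q) ≤ ι.range.comap c := by
        intro x hx
        have hxQ : (x : Ω) ∈ Q := hx
        show c x ∈ ι.range
        rw [hc]
        apply hOT
        exact hOn.conj_mem _ ((hmemQ x (hPQS x.2)).mp hxQ) g
      have h3 : (⊤ : Subgroup ↥(P ⊔ Q)) ≤ ι.range.comap c := by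
        rw [← Subgroup.subgroupOf_self (P ⊔ Q), Subgroup.subgroupOf_sup le_sup_left le_sup_right]
        exact sup_le h1 h2
      intro x
      exact h3 (Subgroup.mem_top x)
    obtain ⟨e, he⟩ : ∃ e : S ≃* ι.range, e = MonoidHom.ofInjective hι.1 := ⟨_, rfl⟩
    have hecoe : ∀ s : S, ((e s : ι.range) : G) = ι s := fun s => by rw [he]; rfl
    obtain ⟨ψ, hψ⟩ : ∃ ψ : ↥(P ⊔ Q) →* Ω, ∀ x, ψ x = ((e.symm ⟨c x, hcr x⟩ : S) : Ω) :=
      ⟨(S.subtype.comp e.symm.toMonoidHom).comp (c.codRestrict ι.range hcr), fun x => rfl⟩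
    have hψS : ∀ x, ψ x ∈ S := fun x => by rw [hψ]; exact (e.symm _).2
    have hιψ : ∀ x : ↥(P ⊔ Q), ι ⟨ψ x, hψS x⟩ = g * ι ⟨x, hPQS x.2⟩ * g⁻¹ := by
      intro x
      have h1 : (⟨ψ x, hψS x⟩ : S) = e.symm ⟨c x, hcr x⟩ := Subtype.ext (hψ x)
      have h2 := hecoe (e.symm ⟨c x, hcr x⟩)
      rw [MulEquiv.apply_symm_apply] at h2
      rw [h1, ← h2]
      exact hc x
    have hψF : ψ ∈ F.Hom (P ⊔ Q) := (hι.2 _ hPQS ψ hψS).mpr ⟨g, hιψ⟩
    refine ⟨ψ, hψF, fun x => ?_, ?_⟩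
    · have h1 := hιψ (Subgroup.inclusion le_sup_left x)
      have h2 := hg x
      have h3 : (⟨ψ (Subgroup.inclusion le_sup_left x), hψS _⟩ : S) = ⟨φ x, hφS x⟩ :=
        hι.1 (h1.trans h2.symm)
      exact congrArg (fun s : S => (s : Ω)) h3
    · have hfinQ : Finite Q := finite_of_le hQS
      apply Subgroup.eq_of_le_of_card_ge
      · rintro _ ⟨x, hx, rfl⟩
        have hxQ : (x : Ω) ∈ Q := hx
        rw [hmemQ _ (hψS x), hιψ x]
        exact hOn.conj_mem _ ((hmemQ x (hPQS x.2)).mp hxQ) g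
      · rw [Subgroup.card_map_of_injective (F.injective_of_mem hψF),
          card_subgroupOf_of_le le_sup_right]
  have hQc : F.IsCentric Q := by
    refine ⟨hQS, ?_⟩
    rintro Q₁ ⟨φ, hφ, rfl⟩
    have hwc := weaklyClosed_of_stronglyClosed F (stronglyClosed_of_isNormal F hQn)
    rw [hwc.2 φ hφ]
    intro c hc
    have hcS : c ∈ S := hc.1
    have hcC : c ∈ Subgroup.centralizer (Q : Set Ω) := hc.2
    rw [hmemQ c hcS]
    apply hcent
    rw [Subgroup.mem_centralizer_iff]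
    intro y hy
    obtain ⟨s, rfl⟩ := hOT hy
    have hsQ : (s : Ω) ∈ Q := (hmemQ s s.2).mpr hy
    have h1 : (s : Ω) * c = c * s := Subgroup.mem_centralizer_iff.mp hcC s hsQ
    have h2 : s * ⟨c, hcS⟩ = ⟨c, hcS⟩ * s := Subtype.ext h1
    rw [← map_mul, ← map_mul, h2]
  exact ⟨Q, hQn, hQc⟩

end Cfsg.Agent.Lib.Helper8.Model
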