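import Cfsg.Agent.Lib.Helper8.Model
import Cfsg.Agent.Lib.Helper8.KNorm2

set_option autoImplicit false

namespace Cfsg.Agent.Lib.Helper8.Model2

open Cfsg
open Cfsg.Agent.Lib.Helper8.Fusion Cfsg.Agent.Lib.Helper8.GroupFusion Cfsg.Agent.Lib.Helper8.Sat
  Cfsg.Agent.Lib.Helper8.Sat2 Cfsg.Agent.Lib.Helper8.Alperin Cfsg.Agent.Lib.Helper8.Alperin2
  Cfsg.Agent.Lib.Helper8.Normal Cfsg.Agent.Lib.Helper8.Normal2 Cfsg.Agent.Lib.Helper8.Transport

variable {Ω : Type*} [Group Ω] {S : Subgroup Ω}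

theorem mem_comap_pCore {p : ℕ} {G : Type*} [Group G] (ι : S →* G) (x : Ω) (hx : x ∈ S) :
    x ∈ ((pCore p G).comap ι).map S.subtype ↔ ι ⟨x, hx⟩ ∈ pCore p G := by
  constructor
  · rintro ⟨s, hs, hsx⟩
    have h1 : s = ⟨x, hx⟩ := Subtype.ext hsx
    rw [← h1]
    exact hs
  · intro h
    exact ⟨⟨x, hx⟩, h, rfl⟩

/-- Conjugation by an element of `G`, read through `ι`, on a subgroup whose conjugate lands in
the image of `ι`. -/
theorem exists_conj_hom (F : FusionSystem S) {G : Type*} [Group G] (ι : S →* G)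
    (hι : F.IsRealizedBy ι) {P : Subgroup Ω} (hP : P ≤ S) (g : G)
    (hg : ∀ x : P, g * ι ⟨x, hP x.2⟩ * g⁻¹ ∈ ι.range) :
    ∃ ψ ∈ F.Hom P, ∃ hψS : ∀ x, ψ x ∈ S,
      ∀ x : P, ι ⟨ψ x, hψS x⟩ = g * ι ⟨x, hP x.2⟩ * g⁻¹ := by
  obtain ⟨c, hc⟩ : ∃ c : P →* G, ∀ x : P, c x = g * ι ⟨x, hP x.2⟩ * g⁻¹ :=
    ⟨(MulAut.conj g).toMonoidHom.comp (ι.comp (Subgroup.inclusion hP)), fun x => rfl⟩
  have hcr : ∀ x : P, c x ∈ ι.range := fun x => by
    rw [hc]
    exact hg x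
  obtain ⟨e, he⟩ : ∃ e : S ≃* ι.range, e = MonoidHom.ofInjective hι.1 := ⟨_, rfl⟩
  have hecoe : ∀ s : S, ((e s : ι.range) : G) = ι s := fun s => by rw [he]; rfl
  obtain ⟨ψ, hψ⟩ : ∃ ψ : P →* Ω, ∀ x, ψ x = ((e.symm ⟨c x, hcr x⟩ : S) : Ω) :=
    ⟨(S.subtype.comp e.symm.toMonoidHom).comp (c.codRestrict ι.range hcr), fun x => rfl⟩
  have hψS : ∀ x, ψ x ∈ S := fun x => by rw [hψ]; exact (e.symm _).2
  have hιψ : ∀ x : P, ι ⟨ψ x, hψS x⟩ = g * ι ⟨x, hP x.2⟩ * g⁻¹ := by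
    intro x
    have h1 : (⟨ψ x, hψS x⟩ : S) = e.symm ⟨c x, hcr x⟩ := Subtype.ext (hψ x)
    have h2 := hecoe (e.symm ⟨c x, hcr x⟩)
    rw [MulEquiv.apply_symm_apply] at h2
    rw [h1, ← h2]
    exact hc x
  exact ⟨ψ, (hι.2 _ hP ψ hψS).mpr ⟨g, hιψ⟩, hψS, hιψ⟩

/-- In a model, the largest normal `p`-subgroup of the group is the image of any normal,
centric, radical subgroup of the system. -/
theorem pCore_eq_of_isModel [Finite S] {p : ℕ} [Fact p.Prime] (hS : IsPGroup p S)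
    (F : FusionSystem S) {G : Type*} [Group G] (ι : S →* G) (hG : F.IsModel p G ι)
    {R : Subgroup Ω} (hRn : F.IsNormal R) (hRc : F.IsCentric R) (hRr : F.IsRadical p R) :
    (pCore p G : Subgroup G) = (R.subgroupOf S).map ι := by
  obtain ⟨hfin, hι, ⟨T, hT⟩, hcent⟩ := hG
  have hRS : R ≤ S := hRn.1
  have hOT : pCore p G ≤ ι.range := hT ▸ pCore_le_sylow' T
  have hOn : (pCore p G).Normal := pCore_normal' p G
  obtain ⟨Q, hQdef⟩ : ∃ Q : Subgroup Ω, Q = ((pCore p G).comap ι).map S.subtype := ⟨_, rfl⟩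
  have hQS : Q ≤ S := by
    rw [hQdef]
    exact Subgroup.map_subtype_le _
  have hmemQ : ∀ (x : Ω) (hx : x ∈ S), x ∈ Q ↔ ι ⟨x, hx⟩ ∈ pCore p G := by
    intro x hx
    rw [hQdef]
    exact mem_comap_pCore ι x hx
  -- Q is the unique normal centric radical candidate: Q ≤ R
  have hsc : ∀ (g : G) (x : Q), g * ι ⟨x, hQS x.2⟩ * g⁻¹ ∈ pCore p G := fun g x =>
    hOn.conj_mem _ ((hmemQ x (hQS x.2)).mp x.2) g
  have hQR : Q ≤ R := by
    -- every element of Q induces on R an automorphism in a normal p-subgroup of Aut_F(R)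
    intro q hq
    have hqS : q ∈ S := hQS hq
    have hSn : S ≤ Subgroup.normalizer (R : Set Ω) :=
      normalizer_of_stronglyClosed F (stronglyClosed_of_isNormal F hRn)
    obtain ⟨K, hKdef⟩ : ∃ K : Subgroup (MulAut R), K = autInducedBy Q R := ⟨_, rfl⟩
    have hKp : IsPGroup p K := by
      rw [hKdef]
      exact isPGroup_autInducedBy (hS.to_le hQS) R
    have hKA : K ≤ F.autGroup R := by
      rw [hKdef]
      intro α hα
      obtain ⟨g, hg, hαg⟩ := mem_autInducedBy_iff.mp hα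
      exact autInducedBy_le_autGroup F hRS (mem_autInducedBy_iff.mpr ⟨g, hQS hg, hαg⟩)
    have hKn : ∀ α ∈ F.autGroup R, ∀ γ ∈ K, α * γ * α⁻¹ ∈ K := by
      intro α hα γ hγ
      rw [hKdef] at hγ ⊢
      obtain ⟨o, ho, hγo⟩ := mem_autInducedBy_iff.mp hγ
      have hαF := (mem_autGroup_iff F hRS α).mp hα
      have hαS : ∀ x : R, (R.subtype.comp α.toMonoidHom) x ∈ S := fun x => hRS (α x).2
      obtain ⟨g, hg⟩ := (hι.2 R hRS _ hαS).mp hαF
      have hg' : ∀ x : R, ι ⟨((α x : R) : Ω), hRS (α x).2⟩ = g * ι ⟨x, hRS x.2⟩ * g⁻¹ := hg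
      have hoS : o ∈ S := hQS ho
      have ho' : g * ι ⟨o, hoS⟩ * g⁻¹ ∈ pCore p G :=
        hOn.conj_mem _ ((hmemQ o hoS).mp ho) g
      obtain ⟨o', ho'eq⟩ := hOT ho'
      have ho'Q : (o' : Ω) ∈ Q := (hmemQ o' o'.2).mpr (by rw [ho'eq]; exact ho')
      refine mem_autInducedBy_iff.mpr ⟨o', ho'Q, fun y => ?_⟩
      obtain ⟨x, hx⟩ : ∃ x : R, x = α⁻¹ y := ⟨_, rfl⟩
      have hy : y = α x := by rw [hx]; simp
      have h1 : ((α * γ * α⁻¹) y : R) = α (γ x) := by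
        rw [hx]
        rfl
      rw [h1, hy]
      have h2 : (⟨((α (γ x) : R) : Ω), hRS (α (γ x)).2⟩ : S) =
          o' * ⟨((α x : R) : Ω), hRS (α x).2⟩ * o'⁻¹ := by
        apply hι.1
        rw [hg' (γ x), map_mul, map_mul, map_inv, ho'eq, hg' x]
        have h3 : (⟨((γ x : R) : Ω), hRS (γ x).2⟩ : S) =
            ⟨o, hoS⟩ * ⟨x, hRS x.2⟩ * ⟨o, hoS⟩⁻¹ := Subtype.ext (hγo x)
        rw [h3, map_mul, map_mul, map_inv]
        group
      exact congrArg (fun s : S => (s : Ω)) h2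
    have hqN : q ∈ Subgroup.normalizer (R : Set Ω) := hSn hqS
    have hγK : R.normalizerMonoidHom ⟨q, hqN⟩ ∈ K := by
      rw [hKdef]
      exact mem_autInducedBy_iff.mpr ⟨q, hq, fun x => rfl⟩
    exact mem_of_normal_pSubgroup F hRc hRr K hKp hKA hKn hqS hγK (fun x => rfl)
  -- the image of R is normal in G
  obtain ⟨Rb, hRbdef⟩ : ∃ Rb : Subgroup G, Rb = (R.subgroupOf S).map ι := ⟨_, rfl⟩
  have hmemRb : ∀ (x : Ω) (hx : x ∈ S), x ∈ R → ι ⟨x, hx⟩ ∈ Rb := by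
    intro x hx hxR
    rw [hRbdef]
    exact ⟨⟨x, hx⟩, hxR, rfl⟩
  have hRbn : Rb.Normal := by
    refine ⟨fun n hn g => ?_⟩
    rw [hRbdef] at hn
    obtain ⟨r, hr, rfl⟩ := hn
    have hrR : (r : Ω) ∈ R := hr
    obtain ⟨φ, hφ, hφS, hιφ⟩ := exists_conj_hom F ι hι hQS g (fun x => hOT (hsc g x))
    obtain ⟨ψ, hψ, hψQ, hψR⟩ := hRn.2 Q φ hφ
    have hQRS : Q ⊔ R ≤ S := sup_le hQS hRS
    have hψS := (F.le_of_mem hψ).2
    obtain ⟨h, hh⟩ := (hι.2 _ hQRS ψ hψS).mp hψ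
    -- h and g agree on the core
    have hz : h⁻¹ * g ∈ pCore p G := by
      apply hcent
      rw [Subgroup.mem_centralizer_iff]
      intro o ho
      obtain ⟨s, rfl⟩ := hOT ho
      have hsQ : (s : Ω) ∈ Q := (hmemQ s s.2).mpr ho
      have h1 := hh (Subgroup.inclusion le_sup_left ⟨s, hsQ⟩)
      have h2 := hιφ ⟨s, hsQ⟩
      have h3 : (⟨ψ (Subgroup.inclusion le_sup_left ⟨(s : Ω), hsQ⟩), hψS _⟩ : S) =
          ⟨φ ⟨(s : Ω), hsQ⟩, hφS _⟩ := Subtype.ext (hψQ ⟨s, hsQ⟩)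
      rw [h3, h2] at h1
      have h4 : g * ι s * g⁻¹ = h * ι s * h⁻¹ := h1
      calc ι s * (h⁻¹ * g) = h⁻¹ * (h * ι s * h⁻¹) * g := by group
        _ = h⁻¹ * (g * ι s * g⁻¹) * g := by rw [h4]
        _ = h⁻¹ * g * ι s := by group
    obtain ⟨z, hzeq⟩ := hOT hz
    have hzQ : (z : Ω) ∈ Q := (hmemQ z z.2).mpr (by rw [hzeq]; exact hz)
    have hzR : (z : Ω) ∈ R := hQR hzQ
    have hconjR : (z : Ω) * r * (z : Ω)⁻¹ ∈ R := R.mul_mem (R.mul_mem hzR hrR) (R.inv_mem hzR)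
    have h5 := hh ⟨(z : Ω) * r * (z : Ω)⁻¹, Subgroup.mem_sup_right hconjR⟩
    have h6 : g * ι r * g⁻¹ = h * ι (z * r * z⁻¹) * h⁻¹ := by
      rw [map_mul, map_mul, map_inv, hzeq]
      group
    rw [h6]
    have h7 : ι (z * r * z⁻¹) = ι ⟨(z : Ω) * r * (z : Ω)⁻¹, hQRS (Subgroup.mem_sup_right hconjR)⟩ :=
      rfl
    rw [h7, ← h5]
    apply hmemRb
    exact hψR.le ⟨_, hconjR, rfl⟩
  have hRbp : IsPGroup p Rb := by
    rw [hRbdef]
    exact (hS.to_subgroup _).map ι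
  apply le_antisymm
  · intro o ho
    obtain ⟨s, rfl⟩ := hOT ho
    have hsQ : (s : Ω) ∈ Q := (hmemQ s s.2).mpr ho
    exact ⟨s, hQR hsQ, rfl⟩
  · rw [← hRbdef]
    exact le_sSup (show Rb ∈ {N : Subgroup G | N.Normal ∧ IsPGroup p N} from ⟨hRbn, hRbp⟩)

/-- The normalizer system of a fully normalized centric radical subgroup is constrained, and
its models have the image of the subgroup as largest normal `p`-subgroup. -/
theorem normalizer_constrained [Finite S] {p : ℕ} [Fact p.Prime] (hS : IsPGroup p S)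
    (F : FusionSystem S) (hF : F.IsSaturated p) (R : Subgroup Ω) (hRn : F.IsFullyNormalized R)
    (hRc : F.IsCentric R) (hRr : F.IsRadical p R)
    (E : FusionSystem (FusionSystem.normalizerIn S R)) (hE : F.IsNormalizerSystem R E)
    {G : Type*} [Group G] (ι : ↥(FusionSystem.normalizerIn S R) →* G) :
    E.IsConstrained p ∧ (E.IsModel p G ι →
      (pCore p G : Subgroup G) = (R.subgroupOf (FusionSystem.normalizerIn S R)).map ι) := by
  have hRS : R ≤ S := hRn.1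
  have hRN : R ≤ FusionSystem.normalizerIn S R := le_normalizerIn_self hRS
  have hEsat : E.IsSaturated p := KNorm2.isSaturated_normalizerSystem hS F hF R hRn E hE
  have hEn : E.IsNormal R := by
    refine ⟨hRN, fun P φ hφ => ?_⟩
    have hφ' := hφ
    rw [hE P] at hφ'
    obtain ⟨hφF, hPN, hφN, ψ, hψ, hψP, hψR⟩ := hφ'
    have hψN : ∀ x : ↥(P ⊔ R), ψ x ∈ FusionSystem.normalizerIn S R :=
      forall_mem_of_sup ψ _ (fun a => by rw [hψP]; exact hφN a)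
        (fun b => hRN (hψR.le ⟨Subgroup.inclusion le_sup_right b, b.2, rfl⟩))
    refine ⟨ψ, ?_, hψP, hψR⟩
    rw [hE (P ⊔ R)]
    refine ⟨hψ, sup_le hPN hRN, hψN,
      ψ.comp (Subgroup.inclusion (sup_le le_rfl le_sup_right : (P ⊔ R) ⊔ R ≤ P ⊔ R)),
      restrict_mem F _ hψ, fun x => rfl, ?_⟩
    rw [map_comp_inclusion _ ψ le_sup_right]
    exact hψR
  have hEc : E.IsCentric R := by
    refine ⟨hRN, ?_⟩
    rintro Q' ⟨φ, hφ, rfl⟩
    rw [hE R] at hφ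
    obtain ⟨hφF, -, -, ψ, hψ, hψP, hψR⟩ := hφ
    have hφR : ∀ x : R, φ x ∈ R := fun x => by
      rw [← hψP]
      exact hψR.le ⟨_, x.2, rfl⟩
    rw [range_eq_of_forall_mem F hφF hφR]
    exact fun c hc => hRc.2 R (isConj_refl F hRS) ⟨hc.1.1, hc.2⟩
  refine ⟨⟨hEsat, R, hEn, hEc⟩, fun hG => ?_⟩
  have hfinN : Finite ↥(FusionSystem.normalizerIn S R) := finite_of_le inf_le_left
  have hNp : IsPGroup p ↥(FusionSystem.normalizerIn S R) := hS.to_le inf_le_left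
  have hAut : E.autGroup R = F.autGroup R := by
    ext α
    rw [mem_autGroup_iff E hRN, mem_autGroup_iff F hRS, hE R]
    constructor
    · exact fun h => h.1
    · intro h
      refine ⟨h, hRN, fun x => hRN (α x).2,
        (R.subtype.comp α.toMonoidHom).comp
          (Subgroup.inclusion (sup_le le_rfl le_rfl : R ⊔ R ≤ R)),
        restrict_mem F _ h, fun x => rfl, ?_⟩
      rw [map_comp_inclusion _ _ le_sup_right]
      ext y
      constructor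
      · rintro ⟨x, -, rfl⟩
        exact (α x).2
      · intro hy
        exact ⟨α.symm ⟨y, hy⟩, (α.symm ⟨y, hy⟩).2, by simp⟩
  have hEr : E.IsRadical p R := by
    refine ⟨hRN, ?_⟩
    rw [hAut]
    exact hRr.2
  exact pCore_eq_of_isModel hNp E ι hG hEn hEc hEr

end Cfsg.Agent.Lib.Helper8.Model2
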