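import Mathlib
import Cfsg.Agent.Lib.Helper8.PSolv
import Cfsg.Agent.Lib.Helper8.PPrimeP

set_option autoImplicit false
set_option linter.unusedSectionVars false
set_option linter.style.haveILetI false

namespace Cfsg.Agent.Lib.Helper8.PConsFus

open Cfsg

/-- A group with a normal Sylow `p`-subgroup is `p`-solvable. -/
theorem psolv_of_normal_sylow {Γ : Type*} [Group Γ] [Finite Γ] {p : ℕ} [Fact p.Prime]
    (P : Sylow p Γ) (hP : (P : Subgroup Γ).Normal) : IsPSolvable p Γ := by
  have hp : p.Prime := Fact.out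
  refine ⟨2, fun i => if i.val = 0 then ⊥ else if i.val = 1 then (P : Subgroup Γ) else ⊤,
    by simp, by simp [Fin.last], ?_, ?_, ?_⟩
  · intro i j hij
    have hij' : i.val ≤ j.val := hij
    by_cases hi0 : i.val = 0
    · simp [hi0]
    · by_cases hi1 : i.val = 1
      · have hj0 : j.val ≠ 0 := by omega
        by_cases hj1 : j.val = 1
        · simp [hi1, hj1]
        · simp [hi1, hj0, hj1]
      · have hj0 : j.val ≠ 0 := by omega
        have hj1 : j.val ≠ 1 := by omega
        simp [hj0, hj1]
  · intro i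
    by_cases hi0 : i.val = 0
    · simp only [hi0, if_true]
      infer_instance
    · by_cases hi1 : i.val = 1
      · simp only [hi1, if_true, one_ne_zero, if_false]
        exact hP
      · simp only [hi0, hi1, if_false]
        infer_instance
  · intro i
    by_cases hi0 : i.val = 0
    · left
      have h1 : (i.castSucc).val = 0 := by simp [hi0]
      have h2 : (i.succ).val = 1 := by simp [hi0]
      simp only [h1, h2, if_true, one_ne_zero, if_false]
      rw [Subgroup.relIndex_bot_left]
      exact IsPGroup.iff_card.1 P.2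
    · right
      have hi1 : i.val = 1 := by omega
      have h1 : (i.castSucc).val = 1 := by simp [hi1]
      have h2 : (i.succ).val = 2 := by simp [hi1]
      simp only [h1, h2, if_true, one_ne_zero, if_false]
      norm_num
      rw [Nat.coprime_comm, Nat.Prime.coprime_iff_not_dvd hp]
      exact P.not_dvd_index

theorem main {G : Type*} [Group G] [Finite G] {p : ℕ} [Fact p.Prime] (S : Sylow p G) :
    Subgroup.normalizer ((S : Subgroup G) : Set G) ⊔ Cfsg.pPrimeCore p G = ⊤ ↔
      (Cfsg.IsPConstrained p G ∧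
        ∀ Q : Subgroup G, Q ≤ (S : Subgroup G) → ∀ g : G,
          Q.map (MulAut.conj g).toMonoidHom ≤ (S : Subgroup G) →
          ∃ n ∈ Subgroup.normalizer ((S : Subgroup G) : Set G),
            ∃ c ∈ Subgroup.centralizer (Q : Set G), g = n * c) := by
  have hp : p.Prime := Fact.out
  have hDn : (pPrimeCore p G).Normal := inferInstance
  have hDc : (Nat.card (pPrimeCore p G)).Coprime p := Cfsg.Agent.Lib.Helper2.Local.pPrimeCore_coprime p
  constructor
  · intro htop
    constructor
    · -- p-constrained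
      have hsurj := QuotientGroup.mk'_surjective (pPrimeCore p G)
      have hSn : ((S.mapSurjective hsurj : Sylow p (G ⧸ pPrimeCore p G)) :
          Subgroup (G ⧸ pPrimeCore p G)).Normal := by
        rw [← Subgroup.normalizer_eq_top_iff, Sylow.coe_mapSurjective, eq_top_iff]
        have h1 : (Subgroup.normalizer ((S : Subgroup G) : Set G) ⊔ pPrimeCore p G).map
            (QuotientGroup.mk' (pPrimeCore p G)) = ⊤ := by
          rw [htop, Subgroup.map_top_of_surjective _ hsurj]
        rw [Subgroup.map_sup, (QuotientGroup.map_mk'_self (pPrimeCore p G)), sup_bot_eq] at h1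
        rw [← h1]
        exact Subgroup.le_normalizer_map _
      have hsolv := psolv_of_normal_sylow _ hSn
      have hcent := Cfsg.Agent.Lib.Helper8.PSolv.centralizer_pCore_le hsolv
        (Cfsg.Agent.Lib.Helper2.PComp.pPrimeCore_quotient_eq_bot (G := G) p)
      intro P x hx
      show (QuotientGroup.mk' (pPrimeCore p G)) x ∈ pCore p (G ⧸ pPrimeCore p G)
      apply hcent
      rw [← Cfsg.Agent.Lib.Helper2.PCons.map_sylow_pPrimePCore P, Subgroup.mem_centralizer_iff]
      rintro _ ⟨a, ha, rfl⟩
      have h1 := (Subgroup.mem_centralizer_iff.1 hx) a ha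
      rw [← map_mul, ← map_mul, h1]
    · intro Q hQS g hg
      have hgtop : g ∈ Subgroup.normalizer ((S : Subgroup G) : Set G) ⊔ pPrimeCore p G := by
        rw [htop]
        exact Subgroup.mem_top g
      obtain ⟨n, hn, d, hd, rfl⟩ := Subgroup.mem_sup_of_normal_right.1 hgtop
      refine ⟨n, hn, d, ?_, rfl⟩
      rw [Subgroup.mem_centralizer_iff]
      intro q hq
      have h1 : (n * d) * q * (n * d)⁻¹ ∈ (S : Subgroup G) := hg ⟨q, hq, rfl⟩
      have h2 : d * q * d⁻¹ ∈ (S : Subgroup G) := by
        rw [Subgroup.mem_normalizer_iff.1 hn (d * q * d⁻¹)]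
        have e : n * (d * q * d⁻¹) * n⁻¹ = (n * d) * q * (n * d)⁻¹ := by group
        rw [e]
        exact h1
      exact (Cfsg.Agent.Lib.Helper8.PPrimeP.comm' hDn hDc S.2 hd (hQS hq) h2).symm
  · rintro ⟨hcon, hfus⟩
    rw [eq_top_iff]
    intro x _
    obtain ⟨d, hd, n, hn, rfl⟩ := Cfsg.Agent.Lib.Helper8.PPrimeP.frattini' S x
    obtain ⟨R, hR⟩ : ∃ R, R = (S : Subgroup G) ⊓ pPrimePCore p G := ⟨_, rfl⟩
    rw [← hR] at hn
    have hRS : R ≤ (S : Subgroup G) := hR ▸ inf_le_left
    have hRH : R ≤ pPrimePCore p G := hR ▸ inf_le_right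
    have hmap : R.map (MulAut.conj n).toMonoidHom ≤ (S : Subgroup G) := by
      rintro _ ⟨r, hr, rfl⟩
      exact hRS ((Subgroup.mem_normalizer_iff.1 hn r).1 hr)
    obtain ⟨m, hm, c, hc, rfl⟩ := hfus R hRS n hmap
    have hRp : IsPGroup p (R.subgroupOf (pPrimePCore p G)) :=
      (S.2.to_le hRS).of_equiv (Subgroup.subgroupOfEquivOfLe hRH).symm
    have hRidx : ¬ p ∣ (R.subgroupOf (pPrimePCore p G)).index := by
      have := Cfsg.Agent.Lib.Helper8.PPrimeP.sylow_inf S
      rw [← hR] at this
      exact this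
    have hcH : c ∈ pPrimePCore p G := by
      apply hcon (hRp.toSylow hRidx)
      rw [IsPGroup.toSylow_coe, Subgroup.subgroupOf_map_subtype, inf_eq_left.2 hRH]
      exact hc
    obtain ⟨o, ho, s, hs, rfl⟩ := Cfsg.Agent.Lib.Helper8.PPrimeP.dec S c hcH
    have hSN : (S : Subgroup G) ≤ Subgroup.normalizer ((S : Subgroup G) : Set G) :=
      Subgroup.le_normalizer
    exact mul_mem (Subgroup.mem_sup_right hd)
      (mul_mem (Subgroup.mem_sup_left hm)
        (mul_mem (Subgroup.mem_sup_right ho) (Subgroup.mem_sup_left (hSN hs.1))))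

end Cfsg.Agent.Lib.Helper8.PConsFus
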