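import Mathlib
import Cfsg.Agent.Lib.Helper8.GroupFusion
import Cfsg.Agent.Lib.Helper8.AG1
import Cfsg.Prelude.Def_LocalEven

set_option autoImplicit false

namespace Cfsg.Agent.Lib.Helper8.PStabFus

open Cfsg
open Cfsg.Agent.Lib.Helper8.GroupFusion
open scoped commutatorElement

variable {G : Type*} [Group G]

def Cond (p : ℕ) (Q : Subgroup G) (g : G) : Prop :=
  ∃ M : Subgroup G, M ≤ Subgroup.normalizer (Q : Set G) ∧
    (∀ n ∈ Subgroup.normalizer (Q : Set G), ∀ m ∈ M, n * m * n⁻¹ ∈ M) ∧ g ∈ M ∧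
    ∀ y ∈ M, ∃ k : ℕ, y ^ (p ^ k) ∈ Subgroup.centralizer (Q : Set G)

def QC (Q : Subgroup G) (g : G) : Prop :=
  ∀ a ∈ Q, g * (a⁻¹ * g * a * g⁻¹) = (a⁻¹ * g * a * g⁻¹) * g

theorem mem_pCore_iff {p : ℕ} (Q : Subgroup G) {B : Type*} [Group B]
    (π : ↥(Subgroup.normalizer (Q : Set G)) →* B) (hπ : Function.Surjective π)
    (hker : π.ker =
      (Subgroup.centralizer (Q : Set G)).subgroupOf (Subgroup.normalizer (Q : Set G)))
    (g : G) (hg : g ∈ Subgroup.normalizer (Q : Set G)) :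
    π ⟨g, hg⟩ ∈ pCore p B ↔ Cond p Q g := by
  constructor
  · intro h
    refine ⟨((pCore p B).comap π).map (Subgroup.normalizer (Q : Set G)).subtype, ?_, ?_, ?_, ?_⟩
    · rintro _ ⟨n, -, rfl⟩; exact n.2
    · rintro n hn _ ⟨m, hm, rfl⟩
      refine ⟨⟨n, hn⟩ * m * ⟨n, hn⟩⁻¹, ?_, rfl⟩
      have hnorm : ((pCore p B).comap π).Normal := (AG1.pCore_normal p).comap π
      exact hnorm.conj_mem m hm ⟨n, hn⟩
    · exact ⟨⟨g, hg⟩, h, rfl⟩
    · rintro _ ⟨m, hm, rfl⟩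
      have hm' : π m ∈ pCore p B := hm
      obtain ⟨k, hk⟩ := (AG1.pCore_isPGroup p (H := B)) ⟨π m, hm'⟩
      refine ⟨k, ?_⟩
      have h1 : π (m ^ (p ^ k)) = 1 := by
        rw [map_pow]
        exact congrArg Subtype.val hk
      have h2 : m ^ (p ^ k) ∈ π.ker := MonoidHom.mem_ker.mpr h1
      rw [hker] at h2
      exact Subgroup.mem_subgroupOf.mp h2
  · rintro ⟨M, hMN, hMn, hgM, hMp⟩
    have hnorm : (M.subgroupOf (Subgroup.normalizer (Q : Set G))).Normal := by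
      constructor
      intro m hm n
      rw [Subgroup.mem_subgroupOf] at hm ⊢
      exact hMn n.1 n.2 m.1 hm
    have hnorm' : ((M.subgroupOf (Subgroup.normalizer (Q : Set G))).map π).Normal :=
      hnorm.map π hπ
    have hp : IsPGroup p ((M.subgroupOf (Subgroup.normalizer (Q : Set G))).map π) := by
      rintro ⟨_, ⟨m, hm, rfl⟩⟩
      obtain ⟨k, hk⟩ := hMp m.1 (Subgroup.mem_subgroupOf.mp hm)
      refine ⟨k, Subtype.ext ?_⟩
      show (π m) ^ (p ^ k) = 1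
      rw [← map_pow]
      apply MonoidHom.mem_ker.mp
      rw [hker, Subgroup.mem_subgroupOf]
      exact hk
    have hle : (M.subgroupOf (Subgroup.normalizer (Q : Set G))).map π ≤ pCore p B :=
      le_sSup ⟨hnorm', hp⟩
    exact hle ⟨⟨g, hg⟩, Subgroup.mem_subgroupOf.mpr hgM, rfl⟩

theorem qc_iff (g a : G) :
    (g * a⁻¹ * g⁻¹) * a * (g * a⁻¹ * g⁻¹) * (g * (g * a * g⁻¹) * g⁻¹) = 1 ↔
      g * (a⁻¹ * g * a * g⁻¹) = (a⁻¹ * g * a * g⁻¹) * g := by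
  have key : (g * a⁻¹ * g⁻¹) * a * (g * a⁻¹ * g⁻¹) * (g * (g * a * g⁻¹) * g⁻¹)
      = (a⁻¹ * g * a * g⁻¹)⁻¹ * (g * (a⁻¹ * g * a * g⁻¹) * g⁻¹) := by group
  rw [key]
  constructor
  · intro h
    have h1 : a⁻¹ * g * a * g⁻¹ = g * (a⁻¹ * g * a * g⁻¹) * g⁻¹ := inv_mul_eq_one.mp h
    calc g * (a⁻¹ * g * a * g⁻¹) = (g * (a⁻¹ * g * a * g⁻¹) * g⁻¹) * g := by group
      _ = (a⁻¹ * g * a * g⁻¹) * g := by rw [← h1]
  · intro h
    apply inv_mul_eq_one.mpr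
    calc a⁻¹ * g * a * g⁻¹ = ((a⁻¹ * g * a * g⁻¹) * g) * g⁻¹ := by group
      _ = (g * (a⁻¹ * g * a * g⁻¹)) * g⁻¹ := by rw [h]
      _ = _ := by group

theorem chi_iff (Q : Subgroup G) (n : ↥(Subgroup.normalizer (Q : Set G))) :
    (∀ a : ↥Q, (Q.normalizerMonoidHom n) a⁻¹ * a * (Q.normalizerMonoidHom n) a⁻¹ *
      (Q.normalizerMonoidHom n) ((Q.normalizerMonoidHom n) a) = 1) ↔ QC Q n.1 := by
  constructor
  · intro h a ha
    have h1 := congrArg Subtype.val (h ⟨a, ha⟩)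
    have h2 : (n.1 * a⁻¹ * n.1⁻¹) * a * (n.1 * a⁻¹ * n.1⁻¹) *
        (n.1 * (n.1 * a * n.1⁻¹) * n.1⁻¹) = 1 := h1
    exact (qc_iff n.1 a).mp h2
  · intro h a
    apply Subtype.ext
    show (n.1 * a.1⁻¹ * n.1⁻¹) * a.1 * (n.1 * a.1⁻¹ * n.1⁻¹) *
        (n.1 * (n.1 * a.1 * n.1⁻¹) * n.1⁻¹) = 1
    exact (qc_iff n.1 a.1).mpr (h a.1 a.2)

def quadSub (Q : Subgroup G) (g : G) : Subgroup G where
  carrier := {z | Commute z g ∧ ∀ a ∈ Q, Commute ⁅a, z⁆ g}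
  one_mem' := ⟨Commute.one_left g, fun a _ => by
    rw [commutatorElement_one_right]; exact Commute.one_left g⟩
  mul_mem' := by
    rintro z₁ z₂ ⟨h1, h1'⟩ ⟨h2, h2'⟩
    refine ⟨h1.mul_left h2, fun a ha => ?_⟩
    have e : ⁅a, z₁ * z₂⁆ = ⁅a, z₁⁆ * (z₁ * ⁅a, z₂⁆ * z₁⁻¹) := by
      simp only [commutatorElement_def]; group
    rw [e]
    exact (h1' a ha).mul_left ((h1.mul_left (h2' a ha)).mul_left h1.inv_left)
  inv_mem' := by
    rintro z ⟨h1, h1'⟩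
    refine ⟨h1.inv_left, fun a ha => ?_⟩
    have e : ⁅a, z⁻¹⁆ = z⁻¹ * ⁅a, z⁆⁻¹ * z := by
      simp only [commutatorElement_def]; group
    rw [e]
    exact (h1.inv_left.mul_left (h1' a ha).inv_left).mul_left h1

theorem qc_of_comm (Q : Subgroup G) (g : G)
    (h : ⁅⁅Q, Subgroup.zpowers g⁆, Subgroup.zpowers g⁆ = ⊥) : QC Q g := by
  intro a ha
  have h1 : ⁅a⁻¹, g⁆ ∈ ⁅Q, Subgroup.zpowers g⁆ :=
    Subgroup.commutator_mem_commutator (Q.inv_mem ha) (Subgroup.mem_zpowers g)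
  have h2 : ⁅⁅a⁻¹, g⁆, g⁆ ∈ ⁅⁅Q, Subgroup.zpowers g⁆, Subgroup.zpowers g⁆ :=
    Subgroup.commutator_mem_commutator h1 (Subgroup.mem_zpowers g)
  rw [h, Subgroup.mem_bot, commutatorElement_eq_one_iff_commute] at h2
  have h3 : ⁅a⁻¹, g⁆ = a⁻¹ * g * a * g⁻¹ := by rw [commutatorElement_def, inv_inv]
  rw [h3] at h2
  exact h2.eq.symm

theorem comm_of_qc (Q : Subgroup G) (g : G) (h : QC Q g) :
    ⁅⁅Q, Subgroup.zpowers g⁆, Subgroup.zpowers g⁆ = ⊥ := by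
  have hg : g ∈ quadSub Q g := by
    refine ⟨Commute.refl g, fun a ha => ?_⟩
    have h1 := h a⁻¹ (Q.inv_mem ha)
    rw [inv_inv] at h1
    have h3 : ⁅a, g⁆ = a * g * a⁻¹ * g⁻¹ := commutatorElement_def a g
    rw [h3]
    exact h1.symm
  have hz : Subgroup.zpowers g ≤ quadSub Q g := Subgroup.zpowers_le.mpr hg
  rw [Subgroup.commutator_eq_bot_iff_le_centralizer, Subgroup.commutator_le]
  intro a ha z hz'
  have hc : Commute ⁅a, z⁆ g := (hz hz').2 a ha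
  rw [Subgroup.mem_centralizer_iff]
  intro y hy
  obtain ⟨k, rfl⟩ := Subgroup.mem_zpowers_iff.mp hy
  exact (hc.symm.zpow_left k).eq

theorem qc_conj (Q : Subgroup G) (g h : G) (hq : QC Q g) :
    QC (Q.map (MulAut.conj h).toMonoidHom) (h * g * h⁻¹) := by
  rintro _ ⟨a, ha, rfl⟩
  have h1 := hq a ha
  show h * g * h⁻¹ * ((h * a * h⁻¹)⁻¹ * (h * g * h⁻¹) * (h * a * h⁻¹) * (h * g * h⁻¹)⁻¹) =
    (h * a * h⁻¹)⁻¹ * (h * g * h⁻¹) * (h * a * h⁻¹) * (h * g * h⁻¹)⁻¹ * (h * g * h⁻¹)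
  calc h * g * h⁻¹ * ((h * a * h⁻¹)⁻¹ * (h * g * h⁻¹) * (h * a * h⁻¹) * (h * g * h⁻¹)⁻¹)
      = h * (g * (a⁻¹ * g * a * g⁻¹)) * h⁻¹ := by group
    _ = h * ((a⁻¹ * g * a * g⁻¹) * g) * h⁻¹ := by rw [h1]
    _ = _ := by group

theorem cond_conj {p : ℕ} (Q : Subgroup G) (g h : G) (hc : Cond p Q g) :
    Cond p (Q.map (MulAut.conj h).toMonoidHom) (h * g * h⁻¹) := by
  obtain ⟨M, hMN, hMn, hgM, hMp⟩ := hc
  refine ⟨M.map (MulAut.conj h).toMonoidHom, ?_, ?_, conj_mem_map_conj hgM, ?_⟩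
  · rw [normalizer_map_conj]; exact Subgroup.map_mono hMN
  · intro n hn m hm
    rw [normalizer_map_conj, mem_map_conj_iff] at hn
    rw [mem_map_conj_iff] at hm ⊢
    have h1 := hMn _ hn _ hm
    have e : h⁻¹ * (n * m * n⁻¹) * h = (h⁻¹ * n * h) * (h⁻¹ * m * h) * (h⁻¹ * n * h)⁻¹ := by
      group
    rw [e]; exact h1
  · rintro _ ⟨y, hy, rfl⟩
    obtain ⟨k, hk⟩ := hMp y hy
    refine ⟨k, ?_⟩
    rw [centralizer_map_conj, ← map_pow]
    exact ⟨_, hk, rfl⟩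

theorem autGroup_eq_range {S Q : Subgroup G} (hQ : Q ≤ S) :
    (groupFusionSystem S).autGroup Q = Q.normalizerMonoidHom.range := by
  rw [autGroup_groupFusionSystem hQ, autInducedBy_eq_map, Subgroup.top_subgroupOf,
    ← MonoidHom.range_eq_map]

theorem mem_map_pCore_iff {p : ℕ} (Q : Subgroup G) (R : Subgroup (MulAut ↥Q))
    (hR : R = Q.normalizerMonoidHom.range) (n : ↥(Subgroup.normalizer (Q : Set G))) :
    Q.normalizerMonoidHom n ∈ (pCore p ↥R).map R.subtype ↔ Cond p Q n.1 := by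
  subst hR
  have key := mem_pCore_iff (p := p) Q Q.normalizerMonoidHom.rangeRestrict
    Q.normalizerMonoidHom.rangeRestrict_surjective
    (by rw [MonoidHom.ker_rangeRestrict, Subgroup.normalizerMonoidHom_ker]) n.1 n.2
  rw [← key]
  constructor
  · rintro ⟨y, hy, hyx⟩
    have e : y = Q.normalizerMonoidHom.rangeRestrict ⟨n.1, n.2⟩ := Subtype.ext hyx
    rw [← e]; exact hy
  · intro h
    exact ⟨_, h, rfl⟩

theorem mem_quot_pCore_iff {p : ℕ} (Q : Subgroup G) (g : G)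
    (hg : g ∈ Subgroup.normalizer (Q : Set G)) :
    (QuotientGroup.mk (s := (Subgroup.centralizer (Q : Set G)).subgroupOf
        (Subgroup.normalizer (Q : Set G)))
      (⟨g, hg⟩ : ↥(Subgroup.normalizer (Q : Set G)))) ∈
      pCore p (↥(Subgroup.normalizer (Q : Set G)) ⧸
        (Subgroup.centralizer (Q : Set G)).subgroupOf (Subgroup.normalizer (Q : Set G)))
      ↔ Cond p Q g :=
  mem_pCore_iff Q (QuotientGroup.mk' _) (QuotientGroup.mk'_surjective _)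
    (QuotientGroup.ker_mk' _) g hg

theorem main {Ω : Type*} [Group Ω] [Finite Ω] {p : ℕ} [Fact p.Prime] (P : Sylow p Ω) :
    Cfsg.IsNormalizerPStable p Ω ↔
      (∀ Q : Subgroup Ω, (Cfsg.groupFusionSystem (P : Subgroup Ω)).IsFullyNormalized Q →
        ∀ χ : MulAut ↥Q, χ ∈ (Cfsg.groupFusionSystem (P : Subgroup Ω)).autGroup Q →
        (∀ a : ↥Q, (χ a⁻¹) * a * (χ a⁻¹) * (χ (χ a)) = 1) →
        χ ∈ ((Cfsg.pCore p ↥((Cfsg.groupFusionSystem (P : Subgroup Ω)).autGroup Q)).map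
          ((Cfsg.groupFusionSystem (P : Subgroup Ω)).autGroup Q).subtype :
            Subgroup (MulAut ↥Q))) := by
  constructor
  · intro hst Q hQ χ hχ hquad
    have hR := autGroup_eq_range (S := (P : Subgroup Ω)) hQ.1
    have hχ' : χ ∈ Q.normalizerMonoidHom.range := by rw [← hR]; exact hχ
    obtain ⟨n, rfl⟩ := hχ'
    rw [mem_map_pCore_iff Q _ hR n]
    have hqc : QC Q n.1 := (chi_iff Q n).mp hquad
    have hQp : IsPGroup p ↥Q := P.isPGroup'.to_le hQ.1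
    exact (mem_quot_pCore_iff Q n.1 n.2).mp (hst Q hQp n.1 n.2 (comm_of_qc Q n.1 hqc))
  · intro hfus Q hQp g hg hquad
    apply (mem_quot_pCore_iff Q g hg).mpr
    have hqc : QC Q g := qc_of_comm Q g hquad
    obtain ⟨h₁, hh₁⟩ := exists_conj_le_sylow P hQp
    obtain ⟨h₂, hh₂, R, hR⟩ := exists_conj_normalizer_sylow P _ hh₁
    have hfn := (isFullyNormalized_iff P _ hh₂).mpr ⟨R, hR⟩
    have hqc2 := qc_conj _ _ h₂ (qc_conj Q g h₁ hqc)
    have hg1 : h₁ * g * h₁⁻¹ ∈ Subgroup.normalizer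
        ((Q.map (MulAut.conj h₁).toMonoidHom : Subgroup Ω) : Set Ω) := by
      rw [normalizer_map_conj]; exact conj_mem_map_conj hg
    have hg2 : h₂ * (h₁ * g * h₁⁻¹) * h₂⁻¹ ∈ Subgroup.normalizer
        (((Q.map (MulAut.conj h₁).toMonoidHom).map (MulAut.conj h₂).toMonoidHom :
          Subgroup Ω) : Set Ω) := by
      rw [normalizer_map_conj]; exact conj_mem_map_conj hg1
    have hRange := autGroup_eq_range (S := (P : Subgroup Ω)) hh₂
    have hχ : ((Q.map (MulAut.conj h₁).toMonoidHom).map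
        (MulAut.conj h₂).toMonoidHom).normalizerMonoidHom ⟨_, hg2⟩ ∈
        (Cfsg.groupFusionSystem (P : Subgroup Ω)).autGroup
          ((Q.map (MulAut.conj h₁).toMonoidHom).map (MulAut.conj h₂).toMonoidHom) := by
      rw [hRange]; exact ⟨_, rfl⟩
    have h3 := hfus _ hfn _ hχ ((chi_iff _ ⟨_, hg2⟩).mpr hqc2)
    rw [mem_map_pCore_iff _ _ hRange ⟨_, hg2⟩] at h3
    have h4 : Cond p (Q.map (MulAut.conj h₁).toMonoidHom) (h₁ * g * h₁⁻¹) := by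
      have h4' := cond_conj _ _ h₂⁻¹ h3
      rw [map_conj_map_conj_inv] at h4'
      have e4 : h₂⁻¹ * (h₂ * (h₁ * g * h₁⁻¹) * h₂⁻¹) * h₂⁻¹⁻¹ = h₁ * g * h₁⁻¹ := by group
      rw [← e4]; exact h4'
    have h5' := cond_conj _ _ h₁⁻¹ h4
    rw [map_conj_map_conj_inv] at h5'
    have e5 : h₁⁻¹ * (h₁ * g * h₁⁻¹) * h₁⁻¹⁻¹ = g := by group
    rw [e5] at h5'
    exact h5'

end Cfsg.Agent.Lib.Helper8.PStabFus
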