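import Cfsg.Agent.Lib.Helper8.Abelian2
import Cfsg.Prelude.Def_FusionComponents

set_option autoImplicit false

namespace Cfsg.Agent.Lib.Helper8.Product

open Cfsg Cfsg.FusionSystem
open Cfsg.Agent.Lib.Helper8.Fusion Cfsg.Agent.Lib.Helper8.GroupFusion Cfsg.Agent.Lib.Helper8.Sat
  Cfsg.Agent.Lib.Helper8.Sat2 Cfsg.Agent.Lib.Helper8.Alperin Cfsg.Agent.Lib.Helper8.Alperin2
  Cfsg.Agent.Lib.Helper8.Abelian2

variable {Ω₁ Ω₂ : Type*} [Group Ω₁] [Group Ω₂] {S₁ : Subgroup Ω₁} {S₂ : Subgroup Ω₂}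

theorem fst_mem (P : Subgroup (Ω₁ × Ω₂)) (x : P) :
    (x : Ω₁ × Ω₂).1 ∈ P.map (MonoidHom.fst Ω₁ Ω₂) := ⟨x, x.2, rfl⟩

theorem snd_mem (P : Subgroup (Ω₁ × Ω₂)) (x : P) :
    (x : Ω₁ × Ω₂).2 ∈ P.map (MonoidHom.snd Ω₁ Ω₂) := ⟨x, x.2, rfl⟩

theorem map_fst_le {P : Subgroup (Ω₁ × Ω₂)} (hP : P ≤ S₁.prod S₂) :
    P.map (MonoidHom.fst Ω₁ Ω₂) ≤ S₁ := by
  rintro _ ⟨x, hx, rfl⟩
  exact (hP hx).1

theorem map_snd_le {P : Subgroup (Ω₁ × Ω₂)} (hP : P ≤ S₁.prod S₂) :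
    P.map (MonoidHom.snd Ω₁ Ω₂) ≤ S₂ := by
  rintro _ ⟨x, hx, rfl⟩
  exact (hP hx).2

/-- The product of two maps defined on subgroups containing the two projections. -/
def prodHom (P : Subgroup (Ω₁ × Ω₂)) {R₁ : Subgroup Ω₁} {R₂ : Subgroup Ω₂}
    (h₁ : P.map (MonoidHom.fst Ω₁ Ω₂) ≤ R₁) (h₂ : P.map (MonoidHom.snd Ω₁ Ω₂) ≤ R₂)
    (φ₁ : R₁ →* Ω₁) (φ₂ : R₂ →* Ω₂) : P →* Ω₁ × Ω₂ :=
  (φ₁.comp ((Subgroup.inclusion h₁).comp ((MonoidHom.fst Ω₁ Ω₂).subgroupMap P))).prod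
    (φ₂.comp ((Subgroup.inclusion h₂).comp ((MonoidHom.snd Ω₁ Ω₂).subgroupMap P)))

theorem prodHom_apply (P : Subgroup (Ω₁ × Ω₂)) {R₁ : Subgroup Ω₁} {R₂ : Subgroup Ω₂}
    (h₁ : P.map (MonoidHom.fst Ω₁ Ω₂) ≤ R₁) (h₂ : P.map (MonoidHom.snd Ω₁ Ω₂) ≤ R₂)
    (φ₁ : R₁ →* Ω₁) (φ₂ : R₂ →* Ω₂) (x : P) :
    prodHom P h₁ h₂ φ₁ φ₂ x
      = (φ₁ ⟨(x : Ω₁ × Ω₂).1, h₁ (fst_mem P x)⟩, φ₂ ⟨(x : Ω₁ × Ω₂).2, h₂ (snd_mem P x)⟩) := rfl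

/-- The direct product of two fusion systems. -/
def productSystem (F₁ : FusionSystem S₁) (F₂ : FusionSystem S₂) :
    FusionSystem (S₁.prod S₂) where
  Hom P := {φ | P ≤ S₁.prod S₂ ∧
      ∃ φ₁ ∈ F₁.Hom (P.map (MonoidHom.fst Ω₁ Ω₂)), ∃ φ₂ ∈ F₂.Hom (P.map (MonoidHom.snd Ω₁ Ω₂)),
        ∀ (x : P) (h₁ : (x : Ω₁ × Ω₂).1 ∈ P.map (MonoidHom.fst Ω₁ Ω₂))
          (h₂ : (x : Ω₁ × Ω₂).2 ∈ P.map (MonoidHom.snd Ω₁ Ω₂)),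
          φ x = (φ₁ ⟨(x : Ω₁ × Ω₂).1, h₁⟩, φ₂ ⟨(x : Ω₁ × Ω₂).2, h₂⟩)}
  le_of_mem := by
    rintro P φ ⟨hP, φ₁, hφ₁, φ₂, hφ₂, hφ⟩
    refine ⟨hP, fun x => ?_⟩
    rw [hφ x (fst_mem P x) (snd_mem P x)]
    exact ⟨(F₁.le_of_mem hφ₁).2 _, (F₂.le_of_mem hφ₂).2 _⟩
  injective_of_mem := by
    rintro P φ ⟨hP, φ₁, hφ₁, φ₂, hφ₂, hφ⟩ x y hxy
    rw [hφ x (fst_mem P x) (snd_mem P x), hφ y (fst_mem P y) (snd_mem P y)] at hxy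
    have h1 := F₁.injective_of_mem hφ₁ (congrArg Prod.fst hxy)
    have h2 := F₂.injective_of_mem hφ₂ (congrArg Prod.snd hxy)
    apply Subtype.ext
    exact Prod.ext (congrArg Subtype.val h1) (congrArg Subtype.val h2)
  conj_mem := by
    intro P g hP hg
    exact ⟨hP, conjHom _ g.1, F₁.conj_mem (map_fst_le hP) hg.1, conjHom _ g.2,
      F₂.conj_mem (map_snd_le hP) hg.2, fun x h₁ h₂ => rfl⟩
  comp_mem := by
    rintro P Q φ ψ ⟨hP, φ₁, hφ₁, φ₂, hφ₂, hφ⟩ ⟨hQ, ψ₁, hψ₁, ψ₂, hψ₂, hψ⟩ h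
    have hm₁ : ∀ y : P.map (MonoidHom.fst Ω₁ Ω₂), φ₁ y ∈ Q.map (MonoidHom.fst Ω₁ Ω₂) := by
      rintro ⟨_, x, hx, rfl⟩
      refine ⟨φ ⟨x, hx⟩, h _, ?_⟩
      rw [hφ ⟨x, hx⟩ (fst_mem P ⟨x, hx⟩) (snd_mem P ⟨x, hx⟩)]
      rfl
    have hm₂ : ∀ y : P.map (MonoidHom.snd Ω₁ Ω₂), φ₂ y ∈ Q.map (MonoidHom.snd Ω₁ Ω₂) := by
      rintro ⟨_, x, hx, rfl⟩
      refine ⟨φ ⟨x, hx⟩, h _, ?_⟩
      rw [hφ ⟨x, hx⟩ (fst_mem P ⟨x, hx⟩) (snd_mem P ⟨x, hx⟩)]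
      rfl
    refine ⟨hP, ψ₁.comp (φ₁.codRestrict _ hm₁), F₁.comp_mem hφ₁ hψ₁ hm₁,
      ψ₂.comp (φ₂.codRestrict _ hm₂), F₂.comp_mem hφ₂ hψ₂ hm₂, fun x h₁ h₂ => ?_⟩
    have e := hφ x h₁ h₂
    have e1 : ψ.comp (φ.codRestrict Q h) x = ψ ⟨φ x, h x⟩ := rfl
    rw [e1, hψ ⟨φ x, h x⟩ (fst_mem Q _) (snd_mem Q _)]
    have e2 : (⟨(φ x).1, fst_mem Q ⟨φ x, h x⟩⟩ : Q.map (MonoidHom.fst Ω₁ Ω₂))
        = ⟨φ₁ ⟨(x : Ω₁ × Ω₂).1, h₁⟩, hm₁ _⟩ := Subtype.ext (congrArg Prod.fst e)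
    have e3 : (⟨(φ x).2, snd_mem Q ⟨φ x, h x⟩⟩ : Q.map (MonoidHom.snd Ω₁ Ω₂))
        = ⟨φ₂ ⟨(x : Ω₁ × Ω₂).2, h₂⟩, hm₂ _⟩ := Subtype.ext (congrArg Prod.snd e)
    rw [e2, e3]
    rfl
  inv_mem := by
    rintro P φ ⟨hP, φ₁, hφ₁, φ₂, hφ₂, hφ⟩
    have hr₁ : φ₁.range = φ.range.map (MonoidHom.fst Ω₁ Ω₂) := by
      ext y
      constructor
      · rintro ⟨⟨_, x, hx, rfl⟩, rfl⟩
        refine ⟨φ ⟨x, hx⟩, ⟨_, rfl⟩, ?_⟩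
        rw [hφ ⟨x, hx⟩ (fst_mem P ⟨x, hx⟩) (snd_mem P ⟨x, hx⟩)]
        rfl
      · rintro ⟨_, ⟨x, rfl⟩, rfl⟩
        refine ⟨⟨(x : Ω₁ × Ω₂).1, fst_mem P x⟩, ?_⟩
        rw [hφ x (fst_mem P x) (snd_mem P x)]
        rfl
    have hr₂ : φ₂.range = φ.range.map (MonoidHom.snd Ω₁ Ω₂) := by
      ext y
      constructor
      · rintro ⟨⟨_, x, hx, rfl⟩, rfl⟩
        refine ⟨φ ⟨x, hx⟩, ⟨_, rfl⟩, ?_⟩
        rw [hφ ⟨x, hx⟩ (fst_mem P ⟨x, hx⟩) (snd_mem P ⟨x, hx⟩)]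
        rfl
      · rintro ⟨_, ⟨x, rfl⟩, rfl⟩
        refine ⟨⟨(x : Ω₁ × Ω₂).2, snd_mem P x⟩, ?_⟩
        rw [hφ x (fst_mem P x) (snd_mem P x)]
        rfl
    obtain ⟨χ₁, hχ₁, -, hχ₁inv⟩ := exists_inv F₁ hφ₁ hr₁
    obtain ⟨χ₂, hχ₂, -, hχ₂inv⟩ := exists_inv F₂ hφ₂ hr₂
    have hrS : φ.range ≤ S₁.prod S₂ := by
      rintro _ ⟨x, rfl⟩
      rw [hφ x (fst_mem P x) (snd_mem P x)]
      exact ⟨(F₁.le_of_mem hφ₁).2 _, (F₂.le_of_mem hφ₂).2 _⟩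
    refine ⟨prodHom φ.range le_rfl le_rfl χ₁ χ₂,
      ⟨hrS, χ₁, hχ₁, χ₂, hχ₂, fun x h₁ h₂ => rfl⟩, fun x => ?_⟩
    rw [prodHom_apply]
    have e := hφ x (fst_mem P x) (snd_mem P x)
    have e2 : (⟨(φ x).1, fst_mem φ.range ⟨φ x, ⟨x, rfl⟩⟩⟩ :
          φ.range.map (MonoidHom.fst Ω₁ Ω₂))
        = ⟨φ₁ ⟨(x : Ω₁ × Ω₂).1, fst_mem P x⟩, hr₁ ▸ ⟨_, rfl⟩⟩ :=
      Subtype.ext (congrArg Prod.fst e)
    have e3 : (⟨(φ x).2, snd_mem φ.range ⟨φ x, ⟨x, rfl⟩⟩⟩ :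
          φ.range.map (MonoidHom.snd Ω₁ Ω₂))
        = ⟨φ₂ ⟨(x : Ω₁ × Ω₂).2, snd_mem P x⟩, hr₂ ▸ ⟨_, rfl⟩⟩ :=
      Subtype.ext (congrArg Prod.snd e)
    rw [e2, e3, hχ₁inv, hχ₂inv]

theorem isProductSystem_productSystem (F₁ : FusionSystem S₁) (F₂ : FusionSystem S₂) :
    IsProductSystem F₁ F₂ (productSystem F₁ F₂) := fun _ _ => Iff.rfl

section Saturation

variable {F₁ : FusionSystem S₁} {F₂ : FusionSystem S₂} {E : FusionSystem (S₁.prod S₂)}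

theorem prodHom_mem (hE : IsProductSystem F₁ F₂ E) {P : Subgroup (Ω₁ × Ω₂)}
    (hP : P ≤ S₁.prod S₂) {R₁ : Subgroup Ω₁} {R₂ : Subgroup Ω₂}
    (h₁ : P.map (MonoidHom.fst Ω₁ Ω₂) ≤ R₁) (h₂ : P.map (MonoidHom.snd Ω₁ Ω₂) ≤ R₂)
    {φ₁ : R₁ →* Ω₁} {φ₂ : R₂ →* Ω₂} (hφ₁ : φ₁ ∈ F₁.Hom R₁) (hφ₂ : φ₂ ∈ F₂.Hom R₂) :
    prodHom P h₁ h₂ φ₁ φ₂ ∈ E.Hom P :=
  (hE P _).2 ⟨hP, φ₁.comp (Subgroup.inclusion h₁), restrict_mem F₁ h₁ hφ₁,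
    φ₂.comp (Subgroup.inclusion h₂), restrict_mem F₂ h₂ hφ₂, fun _ _ _ => rfl⟩

instance finite_prod [Finite S₁] [Finite S₂] : Finite (S₁.prod S₂) :=
  Finite.of_equiv _ (Subgroup.prodEquiv S₁ S₂).symm.toEquiv

theorem isPGroup_prod {p : ℕ} (h₁ : IsPGroup p S₁) (h₂ : IsPGroup p S₂) :
    IsPGroup p (S₁.prod S₂) := by
  intro g
  obtain ⟨k₁, hk₁⟩ := h₁ ⟨(g : Ω₁ × Ω₂).1, g.2.1⟩
  obtain ⟨k₂, hk₂⟩ := h₂ ⟨(g : Ω₁ × Ω₂).2, g.2.2⟩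
  refine ⟨k₁ + k₂, ?_⟩
  apply Subtype.ext
  have e1 : (g : Ω₁ × Ω₂).1 ^ p ^ k₁ = 1 := congrArg Subtype.val hk₁
  have e2 : (g : Ω₁ × Ω₂).2 ^ p ^ k₂ = 1 := congrArg Subtype.val hk₂
  apply Prod.ext
  · show (g : Ω₁ × Ω₂).1 ^ p ^ (k₁ + k₂) = 1
    rw [pow_add, pow_mul, e1, one_pow]
  · show (g : Ω₁ × Ω₂).2 ^ p ^ (k₁ + k₂) = 1
    rw [pow_add, mul_comm, pow_mul, e2, one_pow]

/-- A criterion for being fully automized in terms of `p`-elements. -/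
theorem isFullyAutomized_of_pElements {Ω : Type*} [Group Ω] {S : Subgroup Ω} {p : ℕ}
    [Fact p.Prime] (hS : IsPGroup p S) (F : FusionSystem S) {P : Subgroup Ω} (hP : P ≤ S)
    (h : ∀ α ∈ F.autGroup P, (∃ k : ℕ, α ^ p ^ k = 1) → α ∈ autInducedBy S P) :
    F.IsFullyAutomized p P := by
  have hT : IsPGroup p ((autInducedBy S P).subgroupOf (F.autGroup P)) :=
    (isPGroup_autInducedBy hS P).comap_of_injective _ (Subgroup.subtype_injective _)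
  obtain ⟨R, hR⟩ := hT.exists_le_sylow
  refine ⟨hP, R, le_antisymm ?_ hR⟩
  intro a ha
  obtain ⟨k, hk⟩ := R.isPGroup' ⟨a, ha⟩
  have hk' : (a : MulAut P) ^ p ^ k = 1 := by
    have := congrArg (fun t : R => ((t : F.autGroup P) : MulAut P)) hk
    simpa using this
  exact Subgroup.mem_subgroupOf.2 (h a a.2 ⟨k, hk'⟩)

theorem autInducedBy_self_conj {Ω : Type*} [Group Ω] {S : Subgroup Ω} {α : MulAut S}
    (hα : α ∈ autInducedBy S S) (β : MulAut S) : β * α * β⁻¹ ∈ autInducedBy S S := by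
  obtain ⟨g, hg, hgα⟩ := mem_autInducedBy_iff.mp hα
  refine mem_autInducedBy_iff.mpr ⟨β ⟨g, hg⟩, (β ⟨g, hg⟩).2, fun x => ?_⟩
  have h1 : α (β⁻¹ x) = ⟨g, hg⟩ * β⁻¹ x * ⟨g, hg⟩⁻¹ := Subtype.ext (hgα _)
  have h2 : (β * α * β⁻¹) x = β (α (β⁻¹ x)) := rfl
  rw [h2, h1, map_mul, map_mul, map_inv]
  have h3 : β (β⁻¹ x) = x := MulEquiv.apply_symm_apply β x
  rw [h3]
  rfl

/-- In a system in which `S` is fully automized, the `p`-elements of the automizer of `S` are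
inner. -/
theorem mem_autInducedBy_of_pElement {Ω : Type*} [Group Ω] {S : Subgroup Ω} [Finite S] {p : ℕ}
    [Fact p.Prime] (F : FusionSystem S) (hF : F.IsFullyAutomized p S) {α : MulAut S}
    (hα : α ∈ F.autGroup S) {k : ℕ} (hk : α ^ p ^ k = 1) : α ∈ autInducedBy S S := by
  obtain ⟨-, R, hR⟩ := hF
  have hnormal : (R : Subgroup (F.autGroup S)).Normal := by
    rw [hR]
    constructor
    intro a ha b
    rw [Subgroup.mem_subgroupOf] at ha ⊢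
    exact autInducedBy_self_conj ha b
  have huniq : Unique (Sylow p (F.autGroup S)) := Sylow.unique_of_normal R hnormal
  have hz : IsPGroup p (Subgroup.zpowers (⟨α, hα⟩ : F.autGroup S)) := by
    apply isPGroup_zpowers_of_pow_eq_one (k := k)
    apply Subtype.ext
    simpa using hk
  obtain ⟨Q, hQ⟩ := hz.exists_le_sylow
  have hQR : Q = R := Subsingleton.elim _ _
  have h1 : (⟨α, hα⟩ : F.autGroup S) ∈ (R : Subgroup (F.autGroup S)) := by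
    rw [← hQR]
    exact hQ (Subgroup.mem_zpowers _)
  rw [hR, Subgroup.mem_subgroupOf] at h1
  exact h1

theorem isFullyAutomized_prod [Finite S₁] [Finite S₂] {p : ℕ} [Fact p.Prime]
    (hS₁ : IsPGroup p S₁) (hS₂ : IsPGroup p S₂) (hF₁ : F₁.IsFullyAutomized p S₁)
    (hF₂ : F₂.IsFullyAutomized p S₂) (hE : IsProductSystem F₁ F₂ E) :
    E.IsFullyAutomized p (S₁.prod S₂) := by
  apply isFullyAutomized_of_pElements (isPGroup_prod hS₁ hS₂) E le_rfl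
  rintro α hα ⟨k, hk⟩
  rw [mem_autGroup_iff E le_rfl] at hα
  obtain ⟨-, φ₁, hφ₁, φ₂, hφ₂, hφ⟩ := (hE _ _).1 hα
  have hle₁ : S₁ ≤ (S₁.prod S₂).map (MonoidHom.fst Ω₁ Ω₂) :=
    fun y hy => ⟨(y, 1), ⟨hy, one_mem _⟩, rfl⟩
  have hle₂ : S₂ ≤ (S₁.prod S₂).map (MonoidHom.snd Ω₁ Ω₂) :=
    fun y hy => ⟨(1, y), ⟨one_mem _, hy⟩, rfl⟩
  have hψ₁ : φ₁.comp (Subgroup.inclusion hle₁) ∈ F₁.Hom S₁ := restrict_mem F₁ hle₁ hφ₁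
  have hψ₂ : φ₂.comp (Subgroup.inclusion hle₂) ∈ F₂.Hom S₂ := restrict_mem F₂ hle₂ hφ₂
  have hr₁ := range_eq_of_forall_mem F₁ hψ₁ (F₁.le_of_mem hψ₁).2
  have hr₂ := range_eq_of_forall_mem F₂ hψ₂ (F₂.le_of_mem hψ₂).2
  set α₁ : MulAut S₁ := isoOfHom _ (F₁.injective_of_mem hψ₁) hr₁ with hα₁def
  set α₂ : MulAut S₂ := isoOfHom _ (F₂.injective_of_mem hψ₂) hr₂ with hα₂def
  have hα₁ : ∀ x : S₁.prod S₂, ((α x : S₁.prod S₂) : Ω₁ × Ω₂).1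
      = α₁ ⟨(x : Ω₁ × Ω₂).1, x.2.1⟩ := by
    intro x
    rw [hα₁def, isoOfHom_coe]
    exact congrArg Prod.fst (hφ x (fst_mem _ x) (snd_mem _ x))
  have hα₂ : ∀ x : S₁.prod S₂, ((α x : S₁.prod S₂) : Ω₁ × Ω₂).2
      = α₂ ⟨(x : Ω₁ × Ω₂).2, x.2.2⟩ := by
    intro x
    rw [hα₂def, isoOfHom_coe]
    exact congrArg Prod.snd (hφ x (fst_mem _ x) (snd_mem _ x))
  have hpow₁ : ∀ n : ℕ, ∀ x : S₁.prod S₂, (((α ^ n) x : S₁.prod S₂) : Ω₁ × Ω₂).1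
      = (α₁ ^ n) ⟨(x : Ω₁ × Ω₂).1, x.2.1⟩ := by
    intro n
    induction n with
    | zero => intro x; rfl
    | succ n ih =>
      intro x
      rw [pow_succ', pow_succ', MulAut.mul_apply, MulAut.mul_apply, hα₁]
      congr 2
      exact Subtype.ext (ih x)
  have hpow₂ : ∀ n : ℕ, ∀ x : S₁.prod S₂, (((α ^ n) x : S₁.prod S₂) : Ω₁ × Ω₂).2
      = (α₂ ^ n) ⟨(x : Ω₁ × Ω₂).2, x.2.2⟩ := by
    intro n
    induction n with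
    | zero => intro x; rfl
    | succ n ih =>
      intro x
      rw [pow_succ', pow_succ', MulAut.mul_apply, MulAut.mul_apply, hα₂]
      congr 2
      exact Subtype.ext (ih x)
  have hk₁ : α₁ ^ p ^ k = 1 := by
    apply MulEquiv.ext
    intro y
    apply Subtype.ext
    have := hpow₁ (p ^ k) ⟨((y : Ω₁), 1), ⟨y.2, one_mem _⟩⟩
    rw [hk] at this
    exact this.symm
  have hk₂ : α₂ ^ p ^ k = 1 := by
    apply MulEquiv.ext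
    intro y
    apply Subtype.ext
    have := hpow₂ (p ^ k) ⟨(1, (y : Ω₂)), ⟨one_mem _, y.2⟩⟩
    rw [hk] at this
    exact this.symm
  have hα₁A : α₁ ∈ F₁.autGroup S₁ :=
    (mem_autGroup_iff F₁ le_rfl α₁).2
      (hom_congr F₁ hψ₁ (fun x => isoOfHom_coe _ (F₁.injective_of_mem hψ₁) hr₁ x))
  have hα₂A : α₂ ∈ F₂.autGroup S₂ :=
    (mem_autGroup_iff F₂ le_rfl α₂).2
      (hom_congr F₂ hψ₂ (fun x => isoOfHom_coe _ (F₂.injective_of_mem hψ₂) hr₂ x))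
  obtain ⟨g₁, hg₁, hgα₁⟩ := mem_autInducedBy_iff.mp (mem_autInducedBy_of_pElement F₁ hF₁ hα₁A hk₁)
  obtain ⟨g₂, hg₂, hgα₂⟩ := mem_autInducedBy_iff.mp (mem_autInducedBy_of_pElement F₂ hF₂ hα₂A hk₂)
  refine mem_autInducedBy_iff.mpr ⟨(g₁, g₂), ⟨hg₁, hg₂⟩, fun x => ?_⟩
  apply Prod.ext
  · rw [hα₁ x, hgα₁]
    rfl
  · rw [hα₂ x, hgα₂]
    rfl

/-- A subgroup whose projections are receptive is receptive in the product system. -/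
theorem isReceptive_of_proj (hE : IsProductSystem F₁ F₂ E) {P : Subgroup (Ω₁ × Ω₂)}
    (hP : P ≤ S₁.prod S₂) (h₁ : F₁.IsReceptive (P.map (MonoidHom.fst Ω₁ Ω₂)))
    (h₂ : F₂.IsReceptive (P.map (MonoidHom.snd Ω₁ Ω₂))) : E.IsReceptive P := by
  refine ⟨hP, ?_⟩
  intro R χ hχ hχr
  obtain ⟨hR, χ₁, hχ₁, χ₂, hχ₂, hχeq⟩ := (hE R χ).1 hχ
  have hr₁ : χ₁.range = P.map (MonoidHom.fst Ω₁ Ω₂) := by
    rw [← hχr]
    ext y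
    constructor
    · rintro ⟨⟨_, x, hx, rfl⟩, rfl⟩
      refine ⟨χ ⟨x, hx⟩, ⟨_, rfl⟩, ?_⟩
      rw [hχeq ⟨x, hx⟩ (fst_mem R ⟨x, hx⟩) (snd_mem R ⟨x, hx⟩)]
      rfl
    · rintro ⟨_, ⟨x, rfl⟩, rfl⟩
      refine ⟨⟨(x : Ω₁ × Ω₂).1, fst_mem R x⟩, ?_⟩
      rw [hχeq x (fst_mem R x) (snd_mem R x)]
      rfl
  have hr₂ : χ₂.range = P.map (MonoidHom.snd Ω₁ Ω₂) := by
    rw [← hχr]
    ext y
    constructor
    · rintro ⟨⟨_, x, hx, rfl⟩, rfl⟩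
      refine ⟨χ ⟨x, hx⟩, ⟨_, rfl⟩, ?_⟩
      rw [hχeq ⟨x, hx⟩ (fst_mem R ⟨x, hx⟩) (snd_mem R ⟨x, hx⟩)]
      rfl
    · rintro ⟨_, ⟨x, rfl⟩, rfl⟩
      refine ⟨⟨(x : Ω₁ × Ω₂).2, snd_mem R x⟩, ?_⟩
      rw [hχeq x (fst_mem R x) (snd_mem R x)]
      rfl
  obtain ⟨ψ₁, hψ₁, hψ₁ext⟩ := h₁.2 _ χ₁ hχ₁ hr₁
  obtain ⟨ψ₂, hψ₂, hψ₂ext⟩ := h₂.2 _ χ₂ hχ₂ hr₂
  have hN₁ : (FusionSystem.extender (S₁.prod S₂) R χ).map (MonoidHom.fst Ω₁ Ω₂)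
      ≤ FusionSystem.extender S₁ (R.map (MonoidHom.fst Ω₁ Ω₂)) χ₁ := by
    rw [FusionSystem.extender, MonoidHom.map_closure, Subgroup.closure_le]
    rintro _ ⟨g, ⟨hgS, hgN, h, hhS, hgh⟩, rfl⟩
    apply Subgroup.subset_closure
    refine ⟨hgS.1, ?_, h.1, hhS.1, ?_⟩
    · apply mem_normalizer_of_conj_mem
      · rintro _ ⟨x, hx, rfl⟩
        exact ⟨g * x * g⁻¹, ((Subgroup.mem_normalizer_iff).1 hgN x).1 hx, rfl⟩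
      · rintro _ ⟨x, hx, rfl⟩
        exact ⟨g⁻¹ * x * g, ((Subgroup.mem_normalizer_iff'').1 hgN x).1 hx, rfl⟩
    · rintro ⟨_, x, hx, rfl⟩ hy
      have hgx : g * x * g⁻¹ ∈ R := ((Subgroup.mem_normalizer_iff).1 hgN x).1 hx
      have e1 := hgh ⟨x, hx⟩ hgx
      rw [hχeq ⟨g * x * g⁻¹, hgx⟩ (fst_mem R ⟨_, hgx⟩) (snd_mem R ⟨_, hgx⟩),
        hχeq ⟨x, hx⟩ (fst_mem R ⟨x, hx⟩) (snd_mem R ⟨x, hx⟩)] at e1
      exact congrArg Prod.fst e1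
  have hN₂ : (FusionSystem.extender (S₁.prod S₂) R χ).map (MonoidHom.snd Ω₁ Ω₂)
      ≤ FusionSystem.extender S₂ (R.map (MonoidHom.snd Ω₁ Ω₂)) χ₂ := by
    rw [FusionSystem.extender, MonoidHom.map_closure, Subgroup.closure_le]
    rintro _ ⟨g, ⟨hgS, hgN, h, hhS, hgh⟩, rfl⟩
    apply Subgroup.subset_closure
    refine ⟨hgS.2, ?_, h.2, hhS.2, ?_⟩
    · apply mem_normalizer_of_conj_mem
      · rintro _ ⟨x, hx, rfl⟩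
        exact ⟨g * x * g⁻¹, ((Subgroup.mem_normalizer_iff).1 hgN x).1 hx, rfl⟩
      · rintro _ ⟨x, hx, rfl⟩
        exact ⟨g⁻¹ * x * g, ((Subgroup.mem_normalizer_iff'').1 hgN x).1 hx, rfl⟩
    · rintro ⟨_, x, hx, rfl⟩ hy
      have hgx : g * x * g⁻¹ ∈ R := ((Subgroup.mem_normalizer_iff).1 hgN x).1 hx
      have e1 := hgh ⟨x, hx⟩ hgx
      rw [hχeq ⟨g * x * g⁻¹, hgx⟩ (fst_mem R ⟨_, hgx⟩) (snd_mem R ⟨_, hgx⟩),
        hχeq ⟨x, hx⟩ (fst_mem R ⟨x, hx⟩) (snd_mem R ⟨x, hx⟩)] at e1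
      exact congrArg Prod.snd e1
  refine ⟨prodHom _ hN₁ hN₂ ψ₁ ψ₂, prodHom_mem hE (extender_le_S _ _ _) hN₁ hN₂ hψ₁ hψ₂, ?_⟩
  intro x hxR hxN
  rw [hχeq ⟨x, hxR⟩ (fst_mem R ⟨x, hxR⟩) (snd_mem R ⟨x, hxR⟩), prodHom_apply]
  rw [hψ₁ext x.1 (fst_mem R ⟨x, hxR⟩) _, hψ₂ext x.2 (snd_mem R ⟨x, hxR⟩) _]

theorem normalizerIn_map_fst_le (P : Subgroup (Ω₁ × Ω₂)) :
    (FusionSystem.normalizerIn (S₁.prod S₂) P).map (MonoidHom.fst Ω₁ Ω₂)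
      ≤ FusionSystem.normalizerIn S₁ (P.map (MonoidHom.fst Ω₁ Ω₂)) := by
  rintro _ ⟨g, ⟨hgS, hgN⟩, rfl⟩
  refine ⟨hgS.1, ?_⟩
  apply mem_normalizer_of_conj_mem
  · rintro _ ⟨x, hx, rfl⟩
    exact ⟨g * x * g⁻¹, ((Subgroup.mem_normalizer_iff).1 hgN x).1 hx, rfl⟩
  · rintro _ ⟨x, hx, rfl⟩
    exact ⟨g⁻¹ * x * g, ((Subgroup.mem_normalizer_iff'').1 hgN x).1 hx, rfl⟩

theorem normalizerIn_map_snd_le (P : Subgroup (Ω₁ × Ω₂)) :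
    (FusionSystem.normalizerIn (S₁.prod S₂) P).map (MonoidHom.snd Ω₁ Ω₂)
      ≤ FusionSystem.normalizerIn S₂ (P.map (MonoidHom.snd Ω₁ Ω₂)) := by
  rintro _ ⟨g, ⟨hgS, hgN⟩, rfl⟩
  refine ⟨hgS.2, ?_⟩
  apply mem_normalizer_of_conj_mem
  · rintro _ ⟨x, hx, rfl⟩
    exact ⟨g * x * g⁻¹, ((Subgroup.mem_normalizer_iff).1 hgN x).1 hx, rfl⟩
  · rintro _ ⟨x, hx, rfl⟩
    exact ⟨g⁻¹ * x * g, ((Subgroup.mem_normalizer_iff'').1 hgN x).1 hx, rfl⟩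

/-- The counting step: if `φ` maps `N_S(P)` into `N_S(Q)` taking `P` onto `Q`, and every
element of `C_S(Q)` is hit by `φ`, then `|C_S(Q)| ≤ |C_S(P)|`. -/
theorem card_centralizerIn_le {Ω : Type*} [Group Ω] {S : Subgroup Ω} [Finite S]
    {P Q : Subgroup Ω} (hPS : P ≤ S) (φ : FusionSystem.normalizerIn S P →* Ω)
    (hinj : Function.Injective φ)
    (hφP : (P.subgroupOf (FusionSystem.normalizerIn S P)).map φ = Q)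
    (hsurj : ∀ c ∈ FusionSystem.centralizerIn S Q, ∃ n, φ n = c) :
    Nat.card (FusionSystem.centralizerIn S Q) ≤ Nat.card (FusionSystem.centralizerIn S P) := by
  have hle : FusionSystem.centralizerIn S Q
      ≤ ((FusionSystem.centralizerIn S P).subgroupOf (FusionSystem.normalizerIn S P)).map φ := by
    intro c hc
    obtain ⟨n, rfl⟩ := hsurj c hc
    refine ⟨n, ?_, rfl⟩
    rw [SetLike.mem_coe, Subgroup.mem_subgroupOf]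
    refine ⟨n.2.1, ?_⟩
    show (n : Ω) ∈ Subgroup.centralizer (P : Set Ω)
    rw [Subgroup.mem_centralizer_iff]
    intro y hy
    have hyN : y ∈ FusionSystem.normalizerIn S P := le_normalizerIn_self hPS hy
    have hφy : φ ⟨y, hyN⟩ ∈ Q := by
      rw [← hφP]
      exact ⟨⟨y, hyN⟩, Subgroup.mem_subgroupOf.2 hy, rfl⟩
    have hcomm : φ ⟨y, hyN⟩ * φ n = φ n * φ ⟨y, hyN⟩ :=
      Subgroup.mem_centralizer_iff.1 hc.2 _ hφy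
    have := hinj (by rw [map_mul, map_mul, hcomm] : φ (⟨y, hyN⟩ * n) = φ (n * ⟨y, hyN⟩))
    exact congrArg Subtype.val this
  have hfin : Finite (FusionSystem.centralizerIn S P) := inferInstance
  have hfin2 : Finite ((FusionSystem.centralizerIn S P).subgroupOf
      (FusionSystem.normalizerIn S P)) :=
    Finite.of_equiv _ (Subgroup.subgroupOfEquivOfLe (centralizerIn_le_normalizerIn S P)).symm.toEquiv
  have hfin3 : Finite (((FusionSystem.centralizerIn S P).subgroupOf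
      (FusionSystem.normalizerIn S P)).map φ) := by
    apply Nat.finite_of_card_ne_zero
    rw [Subgroup.card_map_of_injective hinj]
    exact Nat.card_pos.ne'
  calc Nat.card (FusionSystem.centralizerIn S Q)
      ≤ Nat.card (((FusionSystem.centralizerIn S P).subgroupOf
          (FusionSystem.normalizerIn S P)).map φ) := Subgroup.card_le_of_le hle
    _ = Nat.card ((FusionSystem.centralizerIn S P).subgroupOf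
          (FusionSystem.normalizerIn S P)) := Subgroup.card_map_of_injective hinj
    _ = Nat.card (FusionSystem.centralizerIn S P) :=
        Nat.card_congr (Subgroup.subgroupOfEquivOfLe (centralizerIn_le_normalizerIn S P)).toEquiv

theorem isReceptive_of_isFullyNormalized [Finite S₁] [Finite S₂] {p : ℕ} [Fact p.Prime]
    (hS₁ : IsPGroup p S₁) (hS₂ : IsPGroup p S₂) (hF₁ : F₁.IsSaturated p)
    (hF₂ : F₂.IsSaturated p) (hE : IsProductSystem F₁ F₂ E) {P : Subgroup (Ω₁ × Ω₂)}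
    (hP : E.IsFullyNormalized P) : E.IsReceptive P := by
  have hPS := hP.1
  have hP₁ : P.map (MonoidHom.fst Ω₁ Ω₂) ≤ S₁ := map_fst_le hPS
  have hP₂ : P.map (MonoidHom.snd Ω₁ Ω₂) ≤ S₂ := map_snd_le hPS
  obtain ⟨Q₁, hc₁, ha₁, hr₁⟩ := hF₁ _ hP₁
  obtain ⟨Q₂, hc₂, ha₂, hr₂⟩ := hF₂ _ hP₂
  obtain ⟨φ₁, hφ₁, hφ₁N, hφ₁P⟩ := exists_normalizer_hom hS₁ F₁ ha₁ hr₁ hc₁
  obtain ⟨φ₂, hφ₂, hφ₂N, hφ₂P⟩ := exists_normalizer_hom hS₂ F₂ ha₂ hr₂ hc₂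
  have hN₁ := normalizerIn_map_fst_le (S₁ := S₁) (S₂ := S₂) P
  have hN₂ := normalizerIn_map_snd_le (S₁ := S₁) (S₂ := S₂) P
  have hΦ : prodHom _ hN₁ hN₂ φ₁ φ₂ ∈ E.Hom (FusionSystem.normalizerIn (S₁.prod S₂) P) :=
    prodHom_mem hE inf_le_left hN₁ hN₂ hφ₁ hφ₂
  set Φ := prodHom _ hN₁ hN₂ φ₁ φ₂ with hΦdef
  have hΦinj := E.injective_of_mem hΦ
  have hPN : P ≤ FusionSystem.normalizerIn (S₁.prod S₂) P := le_normalizerIn_self hPS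
  have hθ : Φ.comp (Subgroup.inclusion hPN) ∈ E.Hom P := restrict_mem E hPN hΦ
  set θ := Φ.comp (Subgroup.inclusion hPN) with hθdef
  have hconj : E.IsConj P θ.range := ⟨θ, hθ, rfl⟩
  -- the projections of the image
  have hproj₁ : θ.range.map (MonoidHom.fst Ω₁ Ω₂) = Q₁ := by
    rw [← hφ₁P]
    ext z
    constructor
    · rintro ⟨_, ⟨x, rfl⟩, rfl⟩
      exact ⟨⟨(x : Ω₁ × Ω₂).1, hN₁ (fst_mem _ (Subgroup.inclusion hPN x))⟩,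
        Subgroup.mem_subgroupOf.2 (fst_mem P x), rfl⟩
    · rintro ⟨y, hy, rfl⟩
      obtain ⟨x, hx, hxy⟩ := Subgroup.mem_subgroupOf.1 hy
      refine ⟨θ ⟨x, hx⟩, ⟨_, rfl⟩, ?_⟩
      show φ₁ ⟨x.1, _⟩ = φ₁ y
      congr 1
      exact Subtype.ext hxy
  have hproj₂ : θ.range.map (MonoidHom.snd Ω₁ Ω₂) = Q₂ := by
    rw [← hφ₂P]
    ext z
    constructor
    · rintro ⟨_, ⟨x, rfl⟩, rfl⟩
      exact ⟨⟨(x : Ω₁ × Ω₂).2, hN₂ (snd_mem _ (Subgroup.inclusion hPN x))⟩,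
        Subgroup.mem_subgroupOf.2 (snd_mem P x), rfl⟩
    · rintro ⟨y, hy, rfl⟩
      obtain ⟨x, hx, hxy⟩ := Subgroup.mem_subgroupOf.1 hy
      refine ⟨θ ⟨x, hx⟩, ⟨_, rfl⟩, ?_⟩
      show φ₂ ⟨x.2, _⟩ = φ₂ y
      congr 1
      exact Subtype.ext hxy
  -- the image of the normalizer is the normalizer of the image
  have hΦN : Φ.range ≤ FusionSystem.normalizerIn (S₁.prod S₂) θ.range := by
    rintro _ ⟨n, rfl⟩
    refine ⟨(E.le_of_mem hΦ).2 n, ?_⟩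
    apply mem_normalizer_of_conj_mem
    · rintro _ ⟨x, rfl⟩
      have hx : (n : Ω₁ × Ω₂) * x * (n : Ω₁ × Ω₂)⁻¹ ∈ P :=
        conj_mem_of_mem_normalizerIn n.2 x.2
      refine ⟨⟨_, hx⟩, ?_⟩
      show Φ (Subgroup.inclusion hPN ⟨_, hx⟩) = Φ n * Φ (Subgroup.inclusion hPN x) * (Φ n)⁻¹
      rw [← map_inv, ← map_mul, ← map_mul]
      rfl
    · rintro _ ⟨x, rfl⟩
      have hx : (n : Ω₁ × Ω₂)⁻¹ * x * (n : Ω₁ × Ω₂) ∈ P :=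
        ((Subgroup.mem_normalizer_iff'').1 n.2.2 x).1 x.2
      refine ⟨⟨_, hx⟩, ?_⟩
      show Φ (Subgroup.inclusion hPN ⟨_, hx⟩) = (Φ n)⁻¹ * Φ (Subgroup.inclusion hPN x) * Φ n
      rw [← map_inv, ← map_mul, ← map_mul]
      rfl
  have hcard : Nat.card (FusionSystem.normalizerIn (S₁.prod S₂) θ.range) ≤ Nat.card Φ.range := by
    have h1 := hP.2 _ hconj
    have h2 : Nat.card Φ.range = Nat.card (FusionSystem.normalizerIn (S₁.prod S₂) P) :=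
      (Nat.card_congr (MonoidHom.ofInjective hΦinj).toEquiv).symm
    rw [h2]
    exact h1
  have hΦeq : Φ.range = FusionSystem.normalizerIn (S₁.prod S₂) θ.range :=
    Subgroup.eq_of_le_of_card_ge hΦN hcard
  -- the projections are fully centralized
  have hfc₁ : F₁.IsFullyCentralized (P.map (MonoidHom.fst Ω₁ Ω₂)) := by
    refine ⟨hP₁, fun Q' hQ' => ?_⟩
    have h1 := (isFullyCentralized_of_isReceptive F₁ hr₁).2 Q'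
      (isConj_trans F₁ (isConj_symm F₁ hc₁) hQ')
    refine h1.trans (card_centralizerIn_le hP₁ φ₁ (F₁.injective_of_mem hφ₁) hφ₁P ?_)
    intro c hc
    have hmem : ((c, 1) : Ω₁ × Ω₂) ∈ FusionSystem.normalizerIn (S₁.prod S₂) θ.range := by
      refine ⟨⟨hc.1, one_mem _⟩, ?_⟩
      have hcent : ∀ y ∈ θ.range, ((c, 1) : Ω₁ × Ω₂) * y * ((c, 1) : Ω₁ × Ω₂)⁻¹ = y := by
        intro y hy
        have hy1 : y.1 ∈ Q₁ := by rw [← hproj₁]; exact ⟨y, hy, rfl⟩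
        have hcomm : y.1 * c = c * y.1 := Subgroup.mem_centralizer_iff.1 hc.2 _ hy1
        apply Prod.ext
        · show c * y.1 * c⁻¹ = y.1
          rw [← hcomm]; group
        · show 1 * y.2 * 1⁻¹ = y.2
          group
      have hcent' : ∀ y ∈ θ.range, ((c, 1) : Ω₁ × Ω₂)⁻¹ * y * ((c, 1) : Ω₁ × Ω₂) = y := by
        intro y hy
        have h := hcent y hy
        calc ((c, 1) : Ω₁ × Ω₂)⁻¹ * y * ((c, 1) : Ω₁ × Ω₂)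
            = ((c, 1) : Ω₁ × Ω₂)⁻¹ * (((c, 1) : Ω₁ × Ω₂) * y * ((c, 1) : Ω₁ × Ω₂)⁻¹)
                * ((c, 1) : Ω₁ × Ω₂) := by rw [h]
          _ = y := by group
      apply mem_normalizer_of_conj_mem
      · intro y hy; rw [hcent y hy]; exact hy
      · intro y hy; rw [hcent' y hy]; exact hy
    rw [← hΦeq] at hmem
    obtain ⟨n, hn⟩ := hmem
    exact ⟨⟨(n : Ω₁ × Ω₂).1, hN₁ (fst_mem _ n)⟩, congrArg Prod.fst hn⟩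
  have hfc₂ : F₂.IsFullyCentralized (P.map (MonoidHom.snd Ω₁ Ω₂)) := by
    refine ⟨hP₂, fun Q' hQ' => ?_⟩
    have h1 := (isFullyCentralized_of_isReceptive F₂ hr₂).2 Q'
      (isConj_trans F₂ (isConj_symm F₂ hc₂) hQ')
    refine h1.trans (card_centralizerIn_le hP₂ φ₂ (F₂.injective_of_mem hφ₂) hφ₂P ?_)
    intro c hc
    have hmem : ((1, c) : Ω₁ × Ω₂) ∈ FusionSystem.normalizerIn (S₁.prod S₂) θ.range := by
      refine ⟨⟨one_mem _, hc.1⟩, ?_⟩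
      have hcent : ∀ y ∈ θ.range, ((1, c) : Ω₁ × Ω₂) * y * ((1, c) : Ω₁ × Ω₂)⁻¹ = y := by
        intro y hy
        have hy1 : y.2 ∈ Q₂ := by rw [← hproj₂]; exact ⟨y, hy, rfl⟩
        have hcomm : y.2 * c = c * y.2 := Subgroup.mem_centralizer_iff.1 hc.2 _ hy1
        apply Prod.ext
        · show 1 * y.1 * 1⁻¹ = y.1
          group
        · show c * y.2 * c⁻¹ = y.2
          rw [← hcomm]; group
      have hcent' : ∀ y ∈ θ.range, ((1, c) : Ω₁ × Ω₂)⁻¹ * y * ((1, c) : Ω₁ × Ω₂) = y := by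
        intro y hy
        have h := hcent y hy
        calc ((1, c) : Ω₁ × Ω₂)⁻¹ * y * ((1, c) : Ω₁ × Ω₂)
            = ((1, c) : Ω₁ × Ω₂)⁻¹ * (((1, c) : Ω₁ × Ω₂) * y * ((1, c) : Ω₁ × Ω₂)⁻¹)
                * ((1, c) : Ω₁ × Ω₂) := by rw [h]
          _ = y := by group
      apply mem_normalizer_of_conj_mem
      · intro y hy; rw [hcent y hy]; exact hy
      · intro y hy; rw [hcent' y hy]; exact hy
    rw [← hΦeq] at hmem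
    obtain ⟨n, hn⟩ := hmem
    exact ⟨⟨(n : Ω₁ × Ω₂).2, hN₂ (snd_mem _ n)⟩, congrArg Prod.snd hn⟩
  exact isReceptive_of_proj hE hPS (isReceptive_of_isFullyCentralized hS₁ F₁ hF₁ hfc₁)
    (isReceptive_of_isFullyCentralized hS₂ F₂ hF₂ hfc₂)

/-- S5137: the direct product of two saturated fusion systems is saturated. -/
theorem isSaturated_prod [Finite S₁] [Finite S₂] {p : ℕ} [Fact p.Prime]
    (hS₁ : IsPGroup p S₁) (hS₂ : IsPGroup p S₂) (hF₁ : F₁.IsSaturated p)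
    (hF₂ : F₂.IsSaturated p) (hE : IsProductSystem F₁ F₂ E) : E.IsSaturated p := by
  rw [isSaturated_iff' (isPGroup_prod hS₁ hS₂) E]
  exact ⟨isFullyAutomized_prod hS₁ hS₂ ((isSaturated_iff' hS₁ F₁).1 hF₁).1
      ((isSaturated_iff' hS₂ F₂).1 hF₂).1 hE,
    fun P hP => isReceptive_of_isFullyNormalized hS₁ hS₂ hF₁ hF₂ hE hP⟩

end Saturation

end Cfsg.Agent.Lib.Helper8.Product
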