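import Cfsg.Agent.Lib.Helper8.RankOne

set_option autoImplicit false
set_option linter.unusedSimpArgs false

namespace Cfsg.Agent.Lib.Helper8.SL2

open Cfsg Cfsg.Agent.Lib.Helper8.RankOne

variable {k : Type*} [Field k]

/-- Lower unitriangular matrix. -/
def Lm (t : k) : Matrix.SpecialLinearGroup (Fin 2) k :=
  ⟨!![1, 0; t, 1], by simp [Matrix.det_fin_two]⟩

/-- Upper unitriangular matrix. -/
def Um (t : k) : Matrix.SpecialLinearGroup (Fin 2) k :=
  ⟨!![1, t; 0, 1], by simp [Matrix.det_fin_two]⟩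

theorem Lm00 (t : k) : (Lm t).1 0 0 = 1 := rfl
theorem Lm01 (t : k) : (Lm t).1 0 1 = 0 := rfl
theorem Lm10 (t : k) : (Lm t).1 1 0 = t := rfl
theorem Lm11 (t : k) : (Lm t).1 1 1 = 1 := rfl
theorem Um00 (t : k) : (Um t).1 0 0 = 1 := rfl
theorem Um01 (t : k) : (Um t).1 0 1 = t := rfl
theorem Um10 (t : k) : (Um t).1 1 0 = 0 := rfl
theorem Um11 (t : k) : (Um t).1 1 1 = 1 := rfl

theorem mul_val (g h : Matrix.SpecialLinearGroup (Fin 2) k) : (g * h).1 = g.1 * h.1 := rfl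

theorem mul00 (g h : Matrix.SpecialLinearGroup (Fin 2) k) :
    (g * h).1 0 0 = g.1 0 0 * h.1 0 0 + g.1 0 1 * h.1 1 0 := by
  rw [mul_val, Matrix.mul_apply, Fin.sum_univ_two]

theorem mul01 (g h : Matrix.SpecialLinearGroup (Fin 2) k) :
    (g * h).1 0 1 = g.1 0 0 * h.1 0 1 + g.1 0 1 * h.1 1 1 := by
  rw [mul_val, Matrix.mul_apply, Fin.sum_univ_two]

theorem mul10 (g h : Matrix.SpecialLinearGroup (Fin 2) k) :
    (g * h).1 1 0 = g.1 1 0 * h.1 0 0 + g.1 1 1 * h.1 1 0 := by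
  rw [mul_val, Matrix.mul_apply, Fin.sum_univ_two]

theorem mul11 (g h : Matrix.SpecialLinearGroup (Fin 2) k) :
    (g * h).1 1 1 = g.1 1 0 * h.1 0 1 + g.1 1 1 * h.1 1 1 := by
  rw [mul_val, Matrix.mul_apply, Fin.sum_univ_two]

theorem one00 : (1 : Matrix.SpecialLinearGroup (Fin 2) k).1 0 0 = 1 := rfl
theorem one01 : (1 : Matrix.SpecialLinearGroup (Fin 2) k).1 0 1 = 0 := rfl
theorem one10 : (1 : Matrix.SpecialLinearGroup (Fin 2) k).1 1 0 = 0 := rfl
theorem one11 : (1 : Matrix.SpecialLinearGroup (Fin 2) k).1 1 1 = 1 := rfl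

theorem sl2_ext {g h : Matrix.SpecialLinearGroup (Fin 2) k} (h00 : g.1 0 0 = h.1 0 0)
    (h01 : g.1 0 1 = h.1 0 1) (h10 : g.1 1 0 = h.1 1 0) (h11 : g.1 1 1 = h.1 1 1) : g = h := by
  apply Subtype.ext
  ext i j
  fin_cases i <;> fin_cases j <;> assumption

theorem det_eq (g : Matrix.SpecialLinearGroup (Fin 2) k) :
    g.1 0 0 * g.1 1 1 - g.1 0 1 * g.1 1 0 = 1 := by
  have h := g.2
  rw [Matrix.det_fin_two] at h
  exact h

theorem Lm_mul (s t : k) : Lm s * Lm t = Lm (s + t) := by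
  apply sl2_ext
  · rw [mul00, Lm00, Lm00, Lm01, Lm00]; ring
  · rw [mul01, Lm00, Lm01, Lm01, Lm11, Lm01]; ring
  · rw [mul10, Lm10, Lm00, Lm11, Lm10, Lm10]; ring
  · rw [mul11, Lm10, Lm01, Lm11, Lm11, Lm11]; ring

theorem Um_mul (s t : k) : Um s * Um t = Um (s + t) := by
  apply sl2_ext
  · rw [mul00, Um00, Um00, Um01, Um10, Um00]; ring
  · rw [mul01, Um00, Um01, Um01, Um11, Um01]; ring
  · rw [mul10, Um10, Um00, Um11, Um10, Um10]; ring
  · rw [mul11, Um10, Um01, Um11, Um11, Um11]; ring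

theorem Lm_zero : Lm (0 : k) = 1 := by
  apply sl2_ext <;> rfl

theorem Um_zero : Um (0 : k) = 1 := by
  apply sl2_ext <;> rfl

theorem Lm_inv (t : k) : (Lm t)⁻¹ = Lm (-t) := by
  apply inv_eq_of_mul_eq_one_right
  rw [Lm_mul, add_neg_cancel, Lm_zero]

theorem Um_inv (t : k) : (Um t)⁻¹ = Um (-t) := by
  apply inv_eq_of_mul_eq_one_right
  rw [Um_mul, add_neg_cancel, Um_zero]

theorem Lm_injective {s t : k} (h : Lm s = Lm t) : s = t := by
  have h1 := congrArg (fun g : Matrix.SpecialLinearGroup (Fin 2) k => g.1 1 0) h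
  exact h1

theorem Um_injective {s t : k} (h : Um s = Um t) : s = t := by
  have h1 := congrArg (fun g : Matrix.SpecialLinearGroup (Fin 2) k => g.1 0 1) h
  exact h1

theorem mem_lower {g : Matrix.SpecialLinearGroup (Fin 2) k} :
    g ∈ lowerUnipotentSL2 k ↔ ∃ t, g = Lm t := by
  constructor
  · intro hg
    unfold lowerUnipotentSL2 at hg
    induction hg using Subgroup.closure_induction with
    | mem x hx =>
      obtain ⟨h1, h2, h3⟩ := hx
      exact ⟨x.1 1 0, sl2_ext h2 h1 rfl h3⟩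
    | one => exact ⟨0, Lm_zero.symm⟩
    | mul x y _ _ hx hy =>
      obtain ⟨s, rfl⟩ := hx
      obtain ⟨t, rfl⟩ := hy
      exact ⟨s + t, Lm_mul s t⟩
    | inv x _ hx =>
      obtain ⟨s, rfl⟩ := hx
      exact ⟨-s, Lm_inv s⟩
  · rintro ⟨t, rfl⟩
    exact Subgroup.subset_closure ⟨rfl, rfl, rfl⟩

theorem mem_upper {g : Matrix.SpecialLinearGroup (Fin 2) k} :
    g ∈ upperUnipotentSL2 k ↔ ∃ t, g = Um t := by
  constructor
  · intro hg
    unfold upperUnipotentSL2 at hg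
    induction hg using Subgroup.closure_induction with
    | mem x hx =>
      obtain ⟨h1, h2, h3⟩ := hx
      exact ⟨x.1 0 1, sl2_ext h2 rfl h1 h3⟩
    | one => exact ⟨0, Um_zero.symm⟩
    | mul x y _ _ hx hy =>
      obtain ⟨s, rfl⟩ := hx
      obtain ⟨t, rfl⟩ := hy
      exact ⟨s + t, Um_mul s t⟩
    | inv x _ hx =>
      obtain ⟨s, rfl⟩ := hx
      exact ⟨-s, Um_inv s⟩
  · rintro ⟨t, rfl⟩
    exact Subgroup.subset_closure ⟨rfl, rfl, rfl⟩

theorem lower_comm : IsMulCommutative ↥(lowerUnipotentSL2 k) := by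
  refine ⟨⟨fun a b => Subtype.ext ?_⟩⟩
  obtain ⟨s, hs⟩ := mem_lower.1 a.2
  obtain ⟨t, ht⟩ := mem_lower.1 b.2
  show (a : Matrix.SpecialLinearGroup (Fin 2) k) * b = b * a
  rw [hs, ht, Lm_mul, Lm_mul, add_comm]

theorem upper_comm : IsMulCommutative ↥(upperUnipotentSL2 k) := by
  refine ⟨⟨fun a b => Subtype.ext ?_⟩⟩
  obtain ⟨s, hs⟩ := mem_upper.1 a.2
  obtain ⟨t, ht⟩ := mem_upper.1 b.2
  show (a : Matrix.SpecialLinearGroup (Fin 2) k) * b = b * a
  rw [hs, ht, Um_mul, Um_mul, add_comm]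

theorem isNilpotent_of_comm {G : Type*} [Group G] (H : Subgroup G) (h : IsMulCommutative H) :
    Group.IsNilpotent H := by
  let _ : CommGroup H := { (inferInstance : Group H) with mul_comm := h.is_comm.comm }
  exact CommGroup.isNilpotent

/-- The key conjugation identity. -/
theorem key_identity (t x : k) (ht : t ≠ 0) :
    (Lm t * Um (-t⁻¹)) * Lm x = Um (-x / t ^ 2) * (Lm t * Um (-t⁻¹)) := by
  apply sl2_ext
  · simp only [mul00, mul01, mul10, mul11, Lm00, Lm01, Lm10, Lm11, Um00, Um01, Um10, Um11]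
    field_simp
    ring
  · simp only [mul00, mul01, mul10, mul11, Lm00, Lm01, Lm10, Lm11, Um00, Um01, Um10, Um11]
    field_simp
    ring
  · simp only [mul00, mul01, mul10, mul11, Lm00, Lm01, Lm10, Lm11, Um00, Um01, Um10, Um11]
    field_simp
    ring
  · simp only [mul00, mul01, mul10, mul11, Lm00, Lm01, Lm10, Lm11, Um00, Um01, Um10, Um11]
    field_simp
    ring

theorem conjBy_lower (t : k) (ht : t ≠ 0) :
    conjBy (lowerUnipotentSL2 k) (Lm t * Um (-t⁻¹)) = upperUnipotentSL2 k := by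
  ext y
  constructor
  · rintro ⟨a, ha, rfl⟩
    obtain ⟨x, rfl⟩ := mem_lower.1 ha
    show (Lm t * Um (-t⁻¹)) * Lm x * (Lm t * Um (-t⁻¹))⁻¹ ∈ _
    rw [key_identity t x ht, mul_inv_cancel_right]
    exact mem_upper.2 ⟨_, rfl⟩
  · intro hy
    obtain ⟨s, rfl⟩ := mem_upper.1 hy
    refine ⟨Lm (-(t ^ 2 * s)), mem_lower.2 ⟨_, rfl⟩, ?_⟩
    show (Lm t * Um (-t⁻¹)) * Lm (-(t ^ 2 * s)) * (Lm t * Um (-t⁻¹))⁻¹ = Um s
    rw [key_identity t _ ht, mul_inv_cancel_right]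
    congr 1
    field_simp

theorem cond_eq (t : k) (ht : t ≠ 0) :
    conjBy (lowerUnipotentSL2 k) (Um t⁻¹)⁻¹ = conjBy (upperUnipotentSL2 k) (Lm t)⁻¹ := by
  rw [← conjBy_lower t ht, conjBy_conjBy, Um_inv, inv_mul_cancel_left]

theorem Lm_ne_one {t : k} (ht : t ≠ 0) : Lm t ≠ 1 := by
  intro h
  rw [← Lm_zero] at h
  exact ht (Lm_injective h)

theorem Um_ne_one {t : k} (ht : t ≠ 0) : Um t ≠ 1 := by
  intro h
  rw [← Um_zero] at h
  exact ht (Um_injective h)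

theorem pair : IsRankOnePair (lowerUnipotentSL2 k) (upperUnipotentSL2 k) := by
  refine ⟨?_, isNilpotent_of_comm _ lower_comm, isNilpotent_of_comm _ upper_comm, ?_, ?_⟩
  · intro h
    have h1 : Lm (1 : k) ∈ upperUnipotentSL2 k := by
      rw [← h]
      exact mem_lower.2 ⟨1, rfl⟩
    obtain ⟨s, hs⟩ := mem_upper.1 h1
    have h2 := congrArg (fun g : Matrix.SpecialLinearGroup (Fin 2) k => g.1 1 0) hs
    exact one_ne_zero (h2 : (1 : k) = 0)
  · intro a ha ha1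
    obtain ⟨t, rfl⟩ := mem_lower.1 ha
    have ht : t ≠ 0 := by
      intro h
      rw [h, Lm_zero] at ha1
      exact ha1 rfl
    exact ⟨Um t⁻¹, mem_upper.2 ⟨_, rfl⟩, Um_ne_one (inv_ne_zero ht), cond_eq t ht⟩
  · intro b hb hb1
    obtain ⟨s, rfl⟩ := mem_upper.1 hb
    have hs : s ≠ 0 := by
      intro h
      rw [h, Um_zero] at hb1
      exact hb1 rfl
    refine ⟨Lm s⁻¹, mem_lower.2 ⟨_, rfl⟩, Lm_ne_one (inv_ne_zero hs), ?_⟩
    have h1 := cond_eq s⁻¹ (inv_ne_zero hs)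
    rw [inv_inv] at h1
    exact h1.symm

theorem mem_sup_of_ne (g : Matrix.SpecialLinearGroup (Fin 2) k) (hc : g.1 1 0 ≠ 0) :
    g ∈ lowerUnipotentSL2 k ⊔ upperUnipotentSL2 k := by
  have hd := det_eq g
  have e : g = Um ((g.1 0 0 - 1) / g.1 1 0) * Lm (g.1 1 0) * Um ((g.1 1 1 - 1) / g.1 1 0) := by
    apply sl2_ext
    · simp only [mul00, mul01, mul10, mul11, Lm00, Lm01, Lm10, Lm11, Um00, Um01, Um10, Um11]
      field_simp
      ring
    · simp only [mul00, mul01, mul10, mul11, Lm00, Lm01, Lm10, Lm11, Um00, Um01, Um10, Um11]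
      field_simp
      linear_combination (-1 : k) * hd
    · simp only [mul00, mul01, mul10, mul11, Lm00, Lm01, Lm10, Lm11, Um00, Um01, Um10, Um11]
      ring
    · simp only [mul00, mul01, mul10, mul11, Lm00, Lm01, Lm10, Lm11, Um00, Um01, Um10, Um11]
      field_simp
      ring
  rw [e]
  exact mul_mem (mul_mem (Subgroup.mem_sup_right (mem_upper.2 ⟨_, rfl⟩))
    (Subgroup.mem_sup_left (mem_lower.2 ⟨_, rfl⟩))) (Subgroup.mem_sup_right (mem_upper.2 ⟨_, rfl⟩))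

theorem sup_eq_top : lowerUnipotentSL2 k ⊔ upperUnipotentSL2 k = ⊤ := by
  rw [eq_top_iff]
  intro g _
  by_cases hc : g.1 1 0 = 0
  · have hd := det_eq g
    rw [hc, mul_zero, sub_zero] at hd
    have h00 : g.1 0 0 ≠ 0 := by
      intro h
      rw [h, zero_mul] at hd
      exact zero_ne_one hd
    have h1 : Lm 1 * g ∈ lowerUnipotentSL2 k ⊔ upperUnipotentSL2 k := by
      apply mem_sup_of_ne
      rw [mul10, Lm10, Lm11, hc, one_mul, one_mul, add_zero]
      exact h00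
    have h2 : g = (Lm 1)⁻¹ * (Lm 1 * g) := by group
    rw [h2]
    exact mul_mem (inv_mem (Subgroup.mem_sup_left (mem_lower.2 ⟨_, rfl⟩))) h1
  · exact mem_sup_of_ne g hc

theorem special_identity (t : k) (ht : t ≠ 0) :
    (Um t⁻¹)⁻¹ * Lm t * Um t⁻¹ = (Lm t)⁻¹ * (Um t⁻¹)⁻¹ * Lm t := by
  rw [Um_inv, Lm_inv]
  apply sl2_ext
  · simp only [mul00, mul01, mul10, mul11, Lm00, Lm01, Lm10, Lm11, Um00, Um01, Um10, Um11]
    field_simp
    ring
  · simp only [mul00, mul01, mul10, mul11, Lm00, Lm01, Lm10, Lm11, Um00, Um01, Um10, Um11]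
    field_simp
    ring
  · simp only [mul00, mul01, mul10, mul11, Lm00, Lm01, Lm10, Lm11, Um00, Um01, Um10, Um11]
    field_simp
    ring
  · simp only [mul00, mul01, mul10, mul11, Lm00, Lm01, Lm10, Lm11, Um00, Um01, Um10, Um11]
    field_simp
    ring

theorem main (k : Type*) [Field k] :
    IsRankOneGroup (Matrix.SpecialLinearGroup (Fin 2) k) (lowerUnipotentSL2 k)
        (upperUnipotentSL2 k) ∧
      IsSpecialRankOnePair (lowerUnipotentSL2 k) (upperUnipotentSL2 k) ∧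
      HasAbelianUnipotents (lowerUnipotentSL2 k) (upperUnipotentSL2 k) := by
  refine ⟨⟨sup_eq_top, pair⟩, ⟨pair, ?_⟩, ⟨lower_comm, upper_comm⟩⟩
  intro a ha ha1 b hb hb1 hc
  obtain ⟨t, rfl⟩ := mem_lower.1 ha
  have ht : t ≠ 0 := by
    intro h
    rw [h, Lm_zero] at ha1
    exact ha1 rfl
  have huniq := (uniqueness (pair (k := k))).1 (Lm t) ha ha1
  have hb' : b = Um t⁻¹ :=
    huniq.unique ⟨hb, hb1, hc⟩ ⟨mem_upper.2 ⟨_, rfl⟩, Um_ne_one (inv_ne_zero ht), cond_eq t ht⟩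
  rw [hb']
  exact special_identity t ht

end Cfsg.Agent.Lib.Helper8.SL2
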