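import Cfsg.Agent.Lib.Helper8.Solv2

set_option autoImplicit false

namespace Cfsg.Agent.Lib.Helper8.Solv3

open Cfsg Cfsg.FusionSystem Cfsg.Agent.Lib.Helper8.Fusion Cfsg.Agent.Lib.Helper8.FactorSys
  Cfsg.Agent.Lib.Helper8.Sat Cfsg.Agent.Lib.Helper8.Sat2 Cfsg.Agent.Lib.Helper8.Morph
  Cfsg.Agent.Lib.Helper8.Morph2 Cfsg.Agent.Lib.Helper8.Morph3 Cfsg.Agent.Lib.Helper8.Solv
  Cfsg.Agent.Lib.Helper8.Solv2

open scoped commutatorElement

variable {Ω : Type*} [Group Ω] {S : Subgroup Ω}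

theorem commutator_le_self' {G : Type*} [Group G] (D : Subgroup G) : ⁅D, D⁆ ≤ D := by
  rw [Subgroup.commutator_le]
  intro a ha b hb
  rw [commutatorElement_def]
  exact D.mul_mem (D.mul_mem (D.mul_mem ha hb) (D.inv_mem ha)) (D.inv_mem hb)

theorem isSolvable_of_local [Finite S] {p : ℕ} [Fact p.Prime] (hS : IsPGroup p S)
    (F : FusionSystem S) (hF : F.IsSaturated p)
    (h : ∀ R, F.StronglyClosed R → R ≠ S → ∃ U, F.StronglyClosed U ∧ ⁅U, U⁆ ≤ R ∧ ¬ U ≤ R) :
    F.IsSolvableSystem := by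
  intro R hR hRS _ E hE
  obtain ⟨U, hU, hUU, hUR⟩ := h R hR hRS
  exact core_ne_bot_of_section hS F hF hR _ E hE hU hUU hUR

theorem local_of_isSolvable [Finite S] {p : ℕ} [Fact p.Prime] (hS : IsPGroup p S)
    (F : FusionSystem S) (hF : F.IsSaturated p) (h : F.IsSolvableSystem) :
    ∀ R, F.StronglyClosed R → R ≠ S → ∃ U, F.StronglyClosed U ∧ ⁅U, U⁆ ≤ R ∧ ¬ U ≤ R := by
  obtain ⟨n, T, h0, hn, -, hsc, hab⟩ := (isSolvable_iff_chain hS F hF).1 h
  intro R hR hRS
  have hex : ∃ i : Fin n, T (Fin.castSucc i) ≤ R ∧ ¬ T i.succ ≤ R := by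
    by_contra hcon
    push Not at hcon
    have hall : ∀ j : Fin (n + 1), T j ≤ R := by
      intro j
      induction j using Fin.induction with
      | zero => rw [h0]; exact bot_le
      | succ i ih => exact hcon i ih
    apply hRS
    exact le_antisymm hR.1 (hn ▸ hall (Fin.last n))
  obtain ⟨i, hi1, hi2⟩ := hex
  exact ⟨T i.succ, hsc i.succ, (hab i).trans hi1, hi2⟩

/-- The series of smallest strongly closed subgroups containing the successive commutator
subgroups. -/
noncomputable def delta {T : Subgroup Ω} (E : FusionSystem T) : ℕ → Subgroup Ω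
  | 0 => T
  | (j + 1) => sInf {U | E.StronglyClosed U ∧ ⁅delta E j, delta E j⁆ ≤ U}

theorem delta_zero {T : Subgroup Ω} (E : FusionSystem T) : delta E 0 = T := rfl

theorem delta_succ {T : Subgroup Ω} (E : FusionSystem T) (j : ℕ) :
    delta E (j + 1) = sInf {U | E.StronglyClosed U ∧ ⁅delta E j, delta E j⁆ ≤ U} := rfl

theorem delta_sc {T : Subgroup Ω} (E : FusionSystem T) (j : ℕ) :
    E.StronglyClosed (delta E j) := by
  induction j with
  | zero => exact Normal2.stronglyClosed_self E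
  | succ j ih =>
    rw [delta_succ]
    have hmem : delta E j ∈ {U | E.StronglyClosed U ∧ ⁅delta E j, delta E j⁆ ≤ U} :=
      ⟨ih, commutator_le_self' _⟩
    refine ⟨(sInf_le hmem).trans ih.1, fun P hP φ hφ x => ?_⟩
    rw [Subgroup.mem_sInf]
    intro U hU
    exact hU.1.2 P (hP.trans (sInf_le hU)) φ hφ x

theorem delta_comm {T : Subgroup Ω} (E : FusionSystem T) (j : ℕ) :
    ⁅delta E j, delta E j⁆ ≤ delta E (j + 1) := by
  rw [delta_succ]
  exact le_sInf (fun U hU => hU.2)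

theorem delta_le {T : Subgroup Ω} (E : FusionSystem T) (j : ℕ) {U : Subgroup Ω}
    (hU : E.StronglyClosed U) (h : ⁅delta E j, delta E j⁆ ≤ U) : delta E (j + 1) ≤ U := by
  rw [delta_succ]
  exact sInf_le ⟨hU, h⟩

/-- Invariance of the series under `Aut_F(T)`. -/
theorem delta_invariant {T : Subgroup Ω} (E : FusionSystem T) (F : FusionSystem S)
    (hinv : E.IsInvariantIn F) (j : ℕ) :
    ∀ α ∈ F.autGroup T, ∀ x : T, (x : Ω) ∈ delta E j → ((α x : T) : Ω) ∈ delta E j := by
  obtain ⟨hsub, hTsc, hconj, -⟩ := hinv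
  induction j with
  | zero =>
    intro α _ x _
    exact (α x).2
  | succ j ih =>
    intro α hα x hx
    rw [delta_succ, Subgroup.mem_sInf] at hx ⊢
    intro U hU
    obtain ⟨V, hV⟩ : ∃ V : Subgroup Ω,
        V = ((U.subgroupOf T).comap α.toMonoidHom).map T.subtype := ⟨_, rfl⟩
    have hmemV : ∀ y : T, (y : Ω) ∈ V ↔ ((α y : T) : Ω) ∈ U := by
      intro y
      rw [hV]
      constructor
      · rintro ⟨y', hy', hyy⟩
        have h1 : y' = y := Subtype.ext hyy
        rw [← h1]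
        exact hy'
      · intro hy
        exact ⟨y, hy, rfl⟩
    have hVT : V ≤ T := by
      rw [hV]
      rintro _ ⟨y, -, rfl⟩
      exact y.2
    have hVsc : E.StronglyClosed V := by
      refine ⟨hVT, fun R hR ψ hψ y => ?_⟩
      have hRT : R ≤ T := hR.trans hVT
      have hψT : ψ y ∈ T := (E.le_of_mem hψ).2 y
      obtain ⟨χ, hχ, hχeq⟩ := hconj R hRT ψ hψ α hα
      have hle : (R.subgroupOf T).map (T.subtype.comp α.toMonoidHom) ≤ U := by
        rintro _ ⟨r, hr, rfl⟩
        exact (hmemV r).1 (hR hr)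
      have hαy : ((α ⟨y, hRT y.2⟩ : T) : Ω) ∈
          (R.subgroupOf T).map (T.subtype.comp α.toMonoidHom) := ⟨⟨y, hRT y.2⟩, y.2, rfl⟩
      have h1 := hU.1.2 _ hle χ hχ ⟨_, hαy⟩
      rw [hχeq y hψT hαy] at h1
      exact (hmemV ⟨ψ y, hψT⟩).2 h1
    have hVcomm : ⁅delta E j, delta E j⁆ ≤ V := by
      rw [Subgroup.commutator_le]
      intro a ha b hb
      have haT : a ∈ T := (delta_sc E j).1 ha
      have hbT : b ∈ T := (delta_sc E j).1 hb
      have h1 : ⁅a, b⁆ = ((⁅(⟨a, haT⟩ : T), ⟨b, hbT⟩⁆ : T) : Ω) := rfl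
      rw [h1, hmemV, map_commutatorElement]
      exact hU.2 (Subgroup.commutator_mem_commutator (ih α hα ⟨a, haT⟩ ha)
        (ih α hα ⟨b, hbT⟩ hb))
    exact (hmemV x).1 (hx V ⟨hVsc, hVcomm⟩)

theorem delta_sc_F {T : Subgroup Ω} (E : FusionSystem T) (F : FusionSystem S)
    (hinv : E.IsInvariantIn F) (j : ℕ) : F.StronglyClosed (delta E j) := by
  have hE := delta_sc E j
  have hI := delta_invariant E F hinv j
  obtain ⟨hsub, hTsc, -, hfrat⟩ := hinv
  refine ⟨hE.1.trans hTsc.1, fun P hP φ hφ x => ?_⟩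
  obtain ⟨α, hα, φ₀, hφ₀, heq⟩ := hfrat P (hP.trans hE.1) φ hφ
  have h1 : φ₀ x ∈ delta E j := hE.2 P hP φ₀ hφ₀ x
  have h2 : φ₀ x ∈ T := (E.le_of_mem hφ₀).2 x
  rw [heq x h2]
  exact hI α hα ⟨φ₀ x, h2⟩ h1

theorem exists_delta_eq_bot {T : Subgroup Ω} [Finite T] {p : ℕ} [Fact p.Prime]
    (hT : IsPGroup p T) (E : FusionSystem T) (hE : E.IsSaturated p) (h : E.IsSolvableSystem) :
    ∃ k, delta E k = ⊥ := by
  obtain ⟨n, U, h0, hn, -, hsc, hab⟩ := (isSolvable_iff_chain hT E hE).1 h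
  have key : ∀ i : Fin (n + 1), ∃ j, delta E j ≤ U i := by
    intro i
    induction i using Fin.reverseInduction with
    | last => exact ⟨0, by rw [delta_zero, hn]⟩
    | cast i ih =>
      obtain ⟨j, hj⟩ := ih
      exact ⟨j + 1, delta_le E j (hsc _) ((Subgroup.commutator_mono hj hj).trans (hab i))⟩
  obtain ⟨k, hk⟩ := key 0
  refine ⟨k, ?_⟩
  rw [eq_bot_iff, ← h0]
  exact hk

variable {Ω' : Type*} [Group Ω'] {S' : Subgroup Ω'}

theorem isPGroup_target {p : ℕ} (hS : IsPGroup p S) (θ : S →* Ω') (hr : θ.range = S') :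
    IsPGroup p S' := by
  intro y
  have hy : (y : Ω') ∈ θ.range := hr ▸ y.2
  obtain ⟨s, hs⟩ := hy
  obtain ⟨k, hk⟩ := hS s
  refine ⟨k, Subtype.ext ?_⟩
  show (y : Ω') ^ p ^ k = 1
  rw [← hs, ← map_pow, hk, map_one]

/-- A saturated system with a normal subsystem `E` over `T` is solvable iff `E` and the factor
system modulo `T` are solvable. -/
theorem isSolvable_iff_of_normal [Finite S] {p : ℕ} [Fact p.Prime] (hS : IsPGroup p S)
    (F : FusionSystem S) (hF : F.IsSaturated p) {T : Subgroup Ω} (E : FusionSystem T)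
    (hE : E.IsNormalIn F p) (θ : S →* Ω') (D : FusionSystem S')
    (hD : F.IsFactorSystem T θ D) :
    F.IsSolvableSystem ↔ (E.IsSolvableSystem ∧ D.IsSolvableSystem) := by
  have hEsat : E.IsSaturated p := hE.1.1
  have hinv : E.IsInvariantIn F := hE.1.2.2
  have hsub := hinv.1
  have hTsc : F.StronglyClosed T := hinv.2.1
  have hTS := hTsc.1
  have hfinT : Finite T := finite_of_le hTS
  have hTp : IsPGroup p T := hS.to_le hTS
  have hM := isMorphism_of_isFactorSystem hS F hF hTsc θ D hD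
  have hDsat := isSaturated_of_isFactorSystem hS F hF hTsc θ D hD hM
  obtain ⟨-, hker, hr, hHom⟩ := id hD
  have hfin' : Finite S' := finite_target θ hr
  have hS'p : IsPGroup p S' := isPGroup_target hS θ hr
  have himgS : imageAlong θ S = S' := by
    rw [← hr]
    ext y
    constructor
    · rintro ⟨s, -, rfl⟩
      exact ⟨s, rfl⟩
    · rintro ⟨s, rfl⟩
      exact ⟨s, s.2, rfl⟩
  have hcomm_img : ∀ (U R : Subgroup Ω), ⁅U, U⁆ ≤ R →
      ⁅imageAlong θ U, imageAlong θ U⁆ ≤ imageAlong θ R := by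
    intro U R hUR
    rw [Subgroup.commutator_le]
    rintro _ ⟨a, ha, rfl⟩ _ ⟨b, hb, rfl⟩
    rw [← map_commutatorElement]
    exact ⟨⁅a, b⁆, hUR (Subgroup.commutator_mem_commutator ha hb), rfl⟩
  have hcomm_pre : ∀ (U' R' : Subgroup Ω'), ⁅U', U'⁆ ≤ R' →
      ⁅preimageAlong θ U', preimageAlong θ U'⁆ ≤ preimageAlong θ R' := by
    intro U' R' hUR
    rw [Subgroup.commutator_le]
    intro a ha b hb
    obtain ⟨haS, haU⟩ := (mem_pre θ U' a).1 ha
    obtain ⟨hbS, hbU⟩ := (mem_pre θ U' b).1 hb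
    refine (mem_pre θ R' _).2 ⟨(⁅(⟨a, haS⟩ : S), ⟨b, hbS⟩⁆ : S).2, ?_⟩
    have h1 : θ ⟨⁅a, b⁆, (⁅(⟨a, haS⟩ : S), ⟨b, hbS⟩⁆ : S).2⟩ =
        ⁅θ ⟨a, haS⟩, θ ⟨b, hbS⟩⁆ := by
      rw [← map_commutatorElement]
      rfl
    rw [h1]
    exact hUR (Subgroup.commutator_mem_commutator haU hbU)
  constructor
  · intro h
    have hloc := local_of_isSolvable hS F hF h
    obtain ⟨n, Ts, h0, hn, -, hsc, hab⟩ := (isSolvable_iff_chain hS F hF).1 h
    constructor
    · apply isSolvable_of_chain hTp E hEsat n (fun i => Ts i ⊓ T)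
      · show Ts 0 ⊓ T = ⊥
        rw [h0, bot_inf_eq]
      · show Ts (Fin.last n) ⊓ T = T
        rw [hn]
        exact inf_eq_right.2 hTS
      · intro i
        exact ⟨inf_le_right, fun P hP φ hφ x =>
          ⟨(hsc i).2 P (hP.trans inf_le_left) φ (hsub P hφ) x, (E.le_of_mem hφ).2 x⟩⟩
      · intro i
        exact le_inf ((Subgroup.commutator_mono inf_le_left inf_le_left).trans (hab i))
          ((commutator_le_self' _).trans inf_le_right)
    · apply isSolvable_of_local hS'p D hDsat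
      intro R' hR' hR'S
      have hRsc : F.StronglyClosed (preimageAlong θ R') := stronglyClosed_pre F θ D hM hR'
      have hR'r : R' ≤ θ.range := hr ▸ hR'.1
      have hRne : preimageAlong θ R' ≠ S := by
        intro heq
        apply hR'S
        rw [← image_pre_eq θ hR'r, heq, himgS]
      obtain ⟨U, hU, hUU, hUR⟩ := hloc _ hRsc hRne
      refine ⟨imageAlong θ U, stronglyClosed_image F hTsc θ D hD hU, ?_, ?_⟩
      · have h1 := hcomm_img U _ hUU
        rwa [image_pre_eq θ hR'r] at h1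
      · intro hle
        apply hUR
        intro u hu
        exact (mem_pre θ R' u).2 ⟨hU.1 hu, hle ⟨⟨u, hU.1 hu⟩, hu, rfl⟩⟩
  · rintro ⟨hEs, hDs⟩
    have hlocD := local_of_isSolvable hS'p D hDsat hDs
    obtain ⟨k, hk⟩ := exists_delta_eq_bot hTp E hEsat hEs
    apply isSolvable_of_local hS F hF
    intro R hR hRS
    by_cases hTR : T ≤ R
    · have hpreR : preimageAlong θ (imageAlong θ R) = R := pre_image_self θ hTS hker hR.1 hTR
      have hR'sc := stronglyClosed_image F hTsc θ D hD hR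
      have hR'ne : imageAlong θ R ≠ S' := by
        intro heq
        apply hRS
        rw [← hpreR, heq]
        apply le_antisymm (pre_le θ S')
        intro s hs
        exact (mem_pre θ S' s).2 ⟨hs, hr ▸ ⟨_, rfl⟩⟩
      obtain ⟨U', hU', hUU', hUR'⟩ := hlocD _ hR'sc hR'ne
      refine ⟨preimageAlong θ U', stronglyClosed_pre F θ D hM hU', ?_, ?_⟩
      · have h1 := hcomm_pre U' _ hUU'
        rwa [hpreR] at h1
      · intro hle
        apply hUR'
        have hU'r : U' ≤ θ.range := hr ▸ hU'.1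
        rw [← image_pre_eq θ hU'r]
        rintro _ ⟨s, hs, rfl⟩
        exact ⟨s, hle hs, rfl⟩
    · have hex : ∃ j, ¬ delta E j ≤ R ∧ delta E (j + 1) ≤ R := by
        by_contra hcon
        push Not at hcon
        have hall : ∀ j, ¬ delta E j ≤ R := by
          intro j
          induction j with
          | zero => exact hTR
          | succ j ih => exact hcon j ih
        apply hall k
        rw [hk]
        exact bot_le
      obtain ⟨j, hj1, hj2⟩ := hex
      exact ⟨delta E j, delta_sc_F E F hinv j, (delta_comm E j).trans hj2, hj1⟩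

end Cfsg.Agent.Lib.Helper8.Solv3
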