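import Cfsg.Agent.Lib.Helper8.Hyp2
import Cfsg.Agent.Lib.Helper8.Inner
import Mathlib.GroupTheory.SemidirectProduct

set_option autoImplicit false

namespace Cfsg.Agent.Lib.Helper8.Sparse

open Cfsg Cfsg.FusionSystem Cfsg.Agent.Lib.Helper8.Fusion Cfsg.Agent.Lib.Helper8.FactorSys
  Cfsg.Agent.Lib.Helper8.Sat Cfsg.Agent.Lib.Helper8.Sat2 Cfsg.Agent.Lib.Helper8.Alperin2
  Cfsg.Agent.Lib.Helper8.GroupSub Cfsg.Agent.Lib.Helper8.Morph Cfsg.Agent.Lib.Helper8.Hyp2
  Cfsg.Agent.Lib.Helper8.Transport Cfsg.Agent.Lib.Helper8.Inner Cfsg.Agent.Lib.Helper8.Hyp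
  Cfsg.Agent.Lib.Helper8.Focal

variable {Ω : Type*} [Group Ω] {S : Subgroup Ω}

/-- The fusion system over `R` consisting of the restrictions of the automorphisms in a subgroup
`A` of `Aut(R)` containing `Inn(R)`. -/
def autSystem (R : Subgroup Ω) (A : Subgroup (MulAut R)) (hA : Cfsg.Inn R ≤ A) :
    FusionSystem R where
  Hom P := {φ | P ≤ R ∧ ∃ a ∈ A, ∀ (x : P) (hx : (x : Ω) ∈ R), φ x = ((a ⟨x, hx⟩ : R) : Ω)}
  le_of_mem := by
    rintro P φ ⟨hP, a, ha, h⟩
    exact ⟨hP, fun x => by rw [h x (hP x.2)]; exact (a _).2⟩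
  injective_of_mem := by
    rintro P φ ⟨hP, a, ha, h⟩ x y hxy
    rw [h x (hP x.2), h y (hP y.2)] at hxy
    have h1 := a.injective (Subtype.ext hxy)
    exact Subtype.ext (congrArg (fun z : R => (z : Ω)) h1)
  conj_mem := by
    intro P g hP hg
    exact ⟨hP, MulAut.conj ⟨g, hg⟩, hA ⟨⟨g, hg⟩, rfl⟩, fun x hx => rfl⟩
  comp_mem := by
    rintro P Q φ ψ ⟨hP, a, ha, h⟩ ⟨hQ, b, hb, h'⟩ hφ
    refine ⟨hP, b * a, mul_mem hb ha, fun x hx => ?_⟩
    show ψ ⟨φ x, hφ x⟩ = ((b (a ⟨x, hx⟩) : R) : Ω)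
    rw [h' ⟨φ x, hφ x⟩ (hQ (hφ x))]
    have h2 : (⟨φ x, hQ (hφ x)⟩ : R) = a ⟨x, hx⟩ := Subtype.ext (h x hx)
    rw [h2]
  inv_mem := by
    rintro P φ ⟨hP, a, ha, h⟩
    have hr : φ.range ≤ R := by
      rintro _ ⟨x, rfl⟩
      rw [h x (hP x.2)]
      exact (a _).2
    refine ⟨(R.subtype.comp a⁻¹.toMonoidHom).comp (Subgroup.inclusion hr),
      ⟨hr, a⁻¹, inv_mem ha, fun x hx => rfl⟩, fun x => ?_⟩
    show ((a⁻¹ ⟨φ x, hr ⟨x, rfl⟩⟩ : R) : Ω) = x
    have h2 : (⟨φ x, hr ⟨x, rfl⟩⟩ : R) = a ⟨x, hP x.2⟩ := Subtype.ext (h x (hP x.2))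
    rw [h2]
    simp

theorem mem_autSystem {R : Subgroup Ω} {A : Subgroup (MulAut R)} {hA : Cfsg.Inn R ≤ A}
    {P : Subgroup Ω} {φ : P →* Ω} :
    φ ∈ (autSystem R A hA).Hom P ↔
      P ≤ R ∧ ∃ a ∈ A, ∀ (x : P) (hx : (x : Ω) ∈ R), φ x = ((a ⟨x, hx⟩ : R) : Ω) :=
  Iff.rfl

/-- The system of `Inn R ⊔ ⟨β⟩` is realized by the semidirect product `R ⋊ ⟨β⟩`. -/
theorem autSystem_isRealizedBy (R : Subgroup Ω) (β : MulAut R) :
    (autSystem R (Cfsg.Inn R ⊔ Subgroup.zpowers β) le_sup_left).IsRealizedBy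
      (SemidirectProduct.inl :
        R →* R ⋊[(Subgroup.zpowers β).subtype] (Subgroup.zpowers β)) := by
  have : (Cfsg.Inn R).Normal := inn_normal R
  refine ⟨SemidirectProduct.inl_injective, fun P hP φ hφ => ?_⟩
  constructor
  · rintro ⟨-, a, ha, h⟩
    obtain ⟨c, ⟨r, rfl⟩, z, hz, rfl⟩ := Subgroup.mem_sup_of_normal_left.1 ha
    refine ⟨SemidirectProduct.inl r * SemidirectProduct.inr ⟨z, hz⟩, fun x => ?_⟩
    have h1 : (⟨φ x, hφ x⟩ : R) = (MulAut.conj r * z) ⟨x, hP x.2⟩ := Subtype.ext (h x (hP x.2))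
    rw [h1]
    have h2 := SemidirectProduct.inl_aut (φ := (Subgroup.zpowers β).subtype) ⟨z, hz⟩
      (⟨x, hP x.2⟩ : R)
    simp only [Subgroup.coe_subtype] at h2
    simp only [MulAut.mul_apply, MulAut.conj_apply, map_mul, map_inv, mul_inv_rev, h2]
    group
  · rintro ⟨g, hg⟩
    refine ⟨hP, MulAut.conj g.left * (g.right : MulAut R),
      mul_mem (Subgroup.mem_sup_left ⟨g.left, rfl⟩) (Subgroup.mem_sup_right g.right.2),
      fun x hx => ?_⟩
    have h2 := SemidirectProduct.inl_aut (φ := (Subgroup.zpowers β).subtype) g.right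
      (⟨x, hP x.2⟩ : R)
    simp only [Subgroup.coe_subtype] at h2
    have h3 : (SemidirectProduct.inl (⟨φ x, hφ x⟩ : R) :
        R ⋊[(Subgroup.zpowers β).subtype] (Subgroup.zpowers β)) =
        SemidirectProduct.inl ((MulAut.conj g.left * (g.right : MulAut R)) ⟨x, hP x.2⟩) := by
      rw [hg x]
      conv_lhs => rw [← SemidirectProduct.inl_left_mul_inr_right g]
      simp only [MulAut.mul_apply, MulAut.conj_apply, map_mul, map_inv, mul_inv_rev, h2]
      group
    exact congrArg Subtype.val (SemidirectProduct.inl_injective h3)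

theorem autSystem_isSaturated {p : ℕ} [Fact p.Prime] (R : Subgroup Ω) [Finite R]
    (hR : IsPGroup p R) (β : MulAut R) {q : ℕ} (hq : q.Prime) (hqp : q ≠ p)
    (hβ : orderOf β = q) :
    (autSystem R (Cfsg.Inn R ⊔ Subgroup.zpowers β) le_sup_left).IsSaturated p := by
  have hcard : Nat.card (Subgroup.zpowers β) = q := by rw [Nat.card_zpowers, hβ]
  have : Finite (Subgroup.zpowers β) :=
    Nat.finite_of_card_ne_zero (by rw [hcard]; exact hq.ne_zero)
  have : Finite (R ⋊[(Subgroup.zpowers β).subtype] (Subgroup.zpowers β)) :=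
    Finite.of_equiv _ SemidirectProduct.equivProd.symm
  have hp : IsPGroup p (SemidirectProduct.inl :
      R →* R ⋊[(Subgroup.zpowers β).subtype] (Subgroup.zpowers β)).range :=
    hR.of_surjective (SemidirectProduct.inl :
      R →* R ⋊[(Subgroup.zpowers β).subtype] (Subgroup.zpowers β)).rangeRestrict
      (MonoidHom.rangeRestrict_surjective _)
  have hidx : ¬ p ∣ (SemidirectProduct.inl :
      R →* R ⋊[(Subgroup.zpowers β).subtype] (Subgroup.zpowers β)).range.index := by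
    rw [SemidirectProduct.range_inl_eq_ker_rightHom, Subgroup.index_ker,
      MonoidHom.range_eq_top.2 SemidirectProduct.rightHom_surjective, Subgroup.card_top, hcard]
    intro hdvd
    exact hqp ((Nat.prime_dvd_prime_iff_eq (Fact.out : p.Prime) hq).1 hdvd).symm
  exact isSaturated_of_isRealizedBy hR _ _ (autSystem_isRealizedBy R β) (hp.toSylow hidx)
    (IsPGroup.toSylow_coe hp hidx)

theorem autSystem_sub (F : FusionSystem S) {R : Subgroup Ω} (hRS : R ≤ S)
    {A : Subgroup (MulAut R)} (hA : Cfsg.Inn R ≤ A) (hAF : A ≤ F.autGroup R) :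
    (autSystem R A hA).IsSubsystemOf F := by
  rintro P φ ⟨hP, a, ha, h⟩
  have h1 := (mem_autGroup_iff F hRS a).1 (hAF ha)
  exact hom_congr F (restrict_mem F hP h1) (fun x => h x (hP x.2))

theorem autSystem_not_inner {p : ℕ} [Fact p.Prime] {R : Subgroup Ω} (hR : IsPGroup p R)
    (β : MulAut R) {q : ℕ} (hq : q.Prime) (hqp : q ≠ p) (hβ : orderOf β = q)
    {A : Subgroup (MulAut R)} (hA : Cfsg.Inn R ≤ A) (hβA : β ∈ A) :
    ¬ ∀ P : Subgroup Ω, (autSystem R A hA).Hom P = (innerFusionSystem R).Hom P := by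
  intro hin
  have h1 : R.subtype.comp β.toMonoidHom ∈ (autSystem R A hA).Hom R :=
    ⟨le_rfl, β, hβA, fun x hx => rfl⟩
  rw [hin R] at h1
  obtain ⟨-, g, hg, h2⟩ := h1
  have h3 : β = MulAut.conj (⟨g, hg⟩ : R) := by
    ext x
    exact h2 x
  obtain ⟨k, hk⟩ := hR ⟨g, hg⟩
  have h4 : β ^ p ^ k = 1 := by rw [h3, ← map_pow, hk, map_one]
  have h5 : q ∣ p ^ k := by rw [← hβ]; exact orderOf_dvd_of_pow_eq_one h4
  exact hqp ((Nat.prime_dvd_prime_iff_eq hq Fact.out).1 (hq.dvd_of_dvd_pow h5))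

theorem exists_prime_order_aut [Finite S] {p : ℕ} [Fact p.Prime] (hS : IsPGroup p S)
    (F : FusionSystem S) (hF : F.IsSaturated p)
    (hni : ¬ ∀ P : Subgroup Ω, F.Hom P = (innerFusionSystem S).Hom P) :
    ∃ R : Subgroup Ω, R ≤ S ∧ ∃ (q : ℕ) (β : MulAut R), q.Prime ∧ q ≠ p ∧ β ∈ F.autGroup R ∧
      orderOf β = q := by
  by_contra hcon
  apply hni
  intro P
  refine Set.Subset.antisymm ?_ (innerFusionSystem_le F le_rfl P)
  refine le_of_autGroup_le' hS F hF (innerFusionSystem S) (fun R hRn hRc _ => ?_) P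
  have hRS : R ≤ S := hRn.1
  have : Finite R := finite_of_le hRS
  obtain ⟨-, P', hP'⟩ := (isFullyCentralized_and_isFullyAutomized hS F hF hRn).2
  rw [autGroup_innerFusionSystem hRS]
  have hpg : IsPGroup p (F.autGroup R) := by
    by_contra hnp
    have hcard : ∃ q : ℕ, q.Prime ∧ q ≠ p ∧ q ∣ Nat.card (F.autGroup R) := by
      by_contra hno
      push Not at hno
      apply hnp
      rw [IsPGroup.iff_card]
      exact ⟨_, Nat.eq_prime_pow_of_unique_prime_dvd Nat.card_pos.ne' (fun {d} hd hdv => by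
        by_contra hne
        exact hno d hd hne hdv)⟩
    obtain ⟨q, hq, hqp, hdvd⟩ := hcard
    have : Fact q.Prime := ⟨hq⟩
    obtain ⟨b, hb⟩ := exists_prime_orderOf_dvd_card' q hdvd
    exact hcon ⟨R, hRS, q, (b : MulAut R), hq, hqp, b.2, by rw [Subgroup.orderOf_coe]; exact hb⟩
  have htop : (P' : Subgroup (F.autGroup R)) = ⊤ :=
    (P'.is_maximal' (hpg.to_subgroup ⊤) le_top).symm
  rw [hP'] at htop
  exact Subgroup.subgroupOf_eq_top.1 htop

theorem sparse_struct [Finite S] {p : ℕ} [Fact p.Prime] (hS : IsPGroup p S)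
    (F : FusionSystem S) (hF : F.IsSaturated p)
    (hni : ¬ ∀ P : Subgroup Ω, F.Hom P = (innerFusionSystem S).Hom P)
    (hsp : ∀ (T : Subgroup Ω) (E : FusionSystem T), E.IsSaturated p → E.IsSubsystemOf F →
      (T = S ∧ ∀ P : Subgroup Ω, E.Hom P = F.Hom P) ∨
        (∀ P : Subgroup Ω, E.Hom P = (innerFusionSystem T).Hom P)) :
    ∃ (q : ℕ) (β : MulAut S), q.Prime ∧ q ≠ p ∧ β ∈ F.autGroup S ∧ orderOf β = q ∧
      ∀ P : Subgroup Ω,
        F.Hom P = (autSystem S (Cfsg.Inn S ⊔ Subgroup.zpowers β) le_sup_left).Hom P := by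
  obtain ⟨R, hRS, q, β, hq, hqp, hβ, ho⟩ := exists_prime_order_aut hS F hF hni
  have : Finite R := finite_of_le hRS
  have hRp : IsPGroup p R := hS.to_le hRS
  have hsat := autSystem_isSaturated R hRp β hq hqp ho
  have hsub : (autSystem R (Cfsg.Inn R ⊔ Subgroup.zpowers β) le_sup_left).IsSubsystemOf F :=
    autSystem_sub F hRS le_sup_left
      (sup_le (inn_le_autGroup F hRS) (by rw [Subgroup.zpowers_le]; exact hβ))
  rcases hsp R _ hsat hsub with ⟨hRS', hEF⟩ | hin
  · subst hRS'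
    exact ⟨q, β, hq, hqp, hβ, ho, fun P => (hEF P).symm⟩
  · exfalso
    exact autSystem_not_inner hRp β hq hqp ho le_sup_left
      (Subgroup.mem_sup_right (Subgroup.mem_zpowers β)) hin

theorem sparse_result [Finite S] {p : ℕ} [Fact p.Prime] (hS : IsPGroup p S)
    (F : FusionSystem S) (hF : F.IsSaturated p)
    (hni : ¬ ∀ P : Subgroup Ω, F.Hom P = (innerFusionSystem S).Hom P)
    (hsp : ∀ (T : Subgroup Ω) (E : FusionSystem T), E.IsSaturated p → E.IsSubsystemOf F →
      (T = S ∧ ∀ P : Subgroup Ω, E.Hom P = F.Hom P) ∨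
        (∀ P : Subgroup Ω, E.Hom P = (innerFusionSystem T).Hom P)) :
    F.IsNormal S ∧ F.focalSubgroup = S ∧ F.hyperfocalSubgroup p = S ∧
      ∃ (q : ℕ) (β : MulAut ↥S), q.Prime ∧ q ≠ p ∧ β ∈ F.autGroup S ∧ orderOf β = q ∧
        (F.autGroup S : Subgroup (MulAut ↥S)) = Cfsg.Inn ↥S ⊔ Subgroup.zpowers β := by
  obtain ⟨q, β, hq, hqp, hβ, ho, hFA⟩ := sparse_struct hS F hF hni hsp
  have hcop : Nat.Coprime q p := (Nat.coprime_primes hq Fact.out).2 hqp
  have hnorm : F.IsNormal S := by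
    refine ⟨le_rfl, fun P φ hφ => ?_⟩
    rw [hFA P] at hφ
    obtain ⟨hP, a, ha, h⟩ := hφ
    have hPS : P ⊔ S ≤ S := sup_le hP le_rfl
    refine ⟨(S.subtype.comp a.toMonoidHom).comp (Subgroup.inclusion hPS), ?_,
      fun x => (h x (hP x.2)).symm, ?_⟩
    · rw [hFA (P ⊔ S)]
      exact ⟨hPS, a, ha, fun x hx => rfl⟩
    · ext y
      constructor
      · rintro ⟨x, -, rfl⟩
        exact (a _).2
      · intro hy
        refine ⟨⟨((a⁻¹ ⟨y, hy⟩ : S) : Ω), Subgroup.mem_sup_right (Subtype.property _)⟩,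
          Subgroup.mem_subgroupOf.2 (a⁻¹ ⟨y, hy⟩).2, ?_⟩
        show ((a (a⁻¹ ⟨y, hy⟩) : S) : Ω) = y
        simp
  have haut : F.autGroup S = Cfsg.Inn S ⊔ Subgroup.zpowers β := by
    ext α
    rw [mem_autGroup_iff F le_rfl, hFA S]
    constructor
    · rintro ⟨-, a, ha, h⟩
      have h1 : α = a := by
        ext x
        exact h x x.2
      rw [h1]
      exact ha
    · intro hα
      exact ⟨le_rfl, α, hα, fun x hx => rfl⟩
  have hhyp : F.hyperfocalSubgroup p = S := by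
    by_contra hne
    obtain ⟨T, hTdef⟩ : ∃ T : Subgroup Ω, T = F.hyperfocalSubgroup p := ⟨_, rfl⟩
    rw [← hTdef] at hne
    have hT : F.StronglyClosed T := hTdef ▸ hyperfocal_stronglyClosed hS F hF
    have hTS : T ≤ S := hT.1
    have hβT : resAut F hT hTS le_rfl ⟨β, hβ⟩ ∈ F.autGroup T := resAut_mem F hT hTS le_rfl ⟨β, hβ⟩
    have hpow : (resAut F hT hTS le_rfl ⟨β, hβ⟩) ^ q = 1 := by
      have h1 : (resHom F hT hTS le_rfl ⟨β, hβ⟩) ^ q = 1 := by
        rw [← map_pow]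
        have h2 : (⟨β, hβ⟩ : F.autGroup S) ^ q = 1 :=
          Subtype.ext (by
            show β ^ q = 1
            rw [← ho]
            exact pow_orderOf_eq_one β)
        rw [h2, map_one]
      have h3 := congrArg Subtype.val h1
      rwa [Subgroup.coe_pow] at h3
    rcases (Nat.dvd_prime hq).1 (orderOf_dvd_of_pow_eq_one hpow) with h1 | hq'
    · have hβT1 : resAut F hT hTS le_rfl ⟨β, hβ⟩ = 1 := orderOf_eq_one_iff.1 h1
      have hfix : ∀ t : S, (t : Ω) ∈ T → β t = t := by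
        intro t ht
        have h2 := congrArg (fun a : MulAut T => ((a ⟨t, ht⟩ : T) : Ω)) hβT1
        exact Subtype.ext h2
      have hβ1 : β = 1 := by
        ext x
        have ht : (x : Ω)⁻¹ * ((β x : S) : Ω) ∈ T := by
          rw [hTdef]
          apply Subgroup.subset_closure
          refine ⟨S, ⟨β, hβ⟩, x, le_rfl, ?_, rfl⟩
          apply Subgroup.subset_closure
          show (orderOf (⟨β, hβ⟩ : F.autGroup S)).Coprime p
          rw [Subgroup.orderOf_mk, ho]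
          exact hcop
        have hk : ∀ k : ℕ, (β ^ k) x = x * (x⁻¹ * β x) ^ k := by
          intro k
          induction k with
          | zero => simp
          | succ k ih =>
            rw [pow_succ', MulAut.mul_apply, ih, map_mul, map_pow, hfix (x⁻¹ * β x) ht, pow_succ', ← mul_assoc x,
              mul_inv_cancel_left]
        have hq1 : (x⁻¹ * β x) ^ q = 1 := by
          have h3 := hk q
          have h4 : β ^ q = 1 := by
            rw [← ho]
            exact pow_orderOf_eq_one β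
          rw [h4, MulAut.one_apply] at h3
          exact (mul_eq_left.1 h3.symm)
        obtain ⟨n, hn⟩ := hS (x⁻¹ * β x)
        have h5 := Nat.dvd_gcd (orderOf_dvd_of_pow_eq_one hq1) (orderOf_dvd_of_pow_eq_one hn)
        rw [Nat.Coprime.pow_right n hcop] at h5
        have h6 : x⁻¹ * β x = 1 := orderOf_eq_one_iff.1 (Nat.dvd_one.1 h5)
        have h7 : β x = x := by
          rw [← mul_right_inj x⁻¹, h6, inv_mul_cancel]
        exact congrArg Subtype.val h7
      rw [hβ1, orderOf_one] at ho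
      exact hq.one_lt.ne' ho.symm
    · have : Finite T := finite_of_le hTS
      have hTp : IsPGroup p T := hS.to_le hTS
      have hsat := autSystem_isSaturated T hTp _ hq hqp hq'
      have hsub := autSystem_sub F hTS le_sup_left
        (sup_le (inn_le_autGroup F hTS) (by rw [Subgroup.zpowers_le]; exact hβT))
      rcases hsp T _ hsat hsub with ⟨hTS', -⟩ | hin
      · exact hne hTS'
      · exact autSystem_not_inner hTp _ hq hqp hq' le_sup_left
          (Subgroup.mem_sup_right (Subgroup.mem_zpowers _)) hin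
  refine ⟨hnorm, ?_, hhyp, q, β, hq, hqp, hβ, ho, haut⟩
  rw [focalSubgroup_eq hS F hF, hhyp]
  exact sup_eq_left.2 (Subgroup.commutator_le.2 (fun a ha b hb =>
    S.mul_mem (S.mul_mem (S.mul_mem ha hb) (S.inv_mem ha)) (S.inv_mem hb)))

end Cfsg.Agent.Lib.Helper8.Sparse
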