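import Cfsg.Agent.Lib.Helper8.Sub
import Cfsg.Prelude.Def_FusionComponents

set_option autoImplicit false

namespace Cfsg.Agent.Lib.Helper8.Subnormal

open Cfsg
open Cfsg.Agent.Lib.Helper8.Fusion Cfsg.Agent.Lib.Helper8.GroupFusion Cfsg.Agent.Lib.Helper8.Sat
  Cfsg.Agent.Lib.Helper8.Sat2 Cfsg.Agent.Lib.Helper8.Sub

variable {Ω : Type*} [Group Ω]

theorem le_of_subnormal {T : Subgroup Ω} (E : FusionSystem T) {S : Subgroup Ω}
    (F : FusionSystem S) (p : ℕ) (hE : E.IsSubnormalIn F p) : T ≤ S := by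
  induction hE with
  | refl F p => exact le_rfl
  | step h1 h2 ih => exact ih.trans h2.1.2.2.2.1.1

theorem isSaturated_of_subnormal {T : Subgroup Ω} (E : FusionSystem T) {S : Subgroup Ω}
    (F : FusionSystem S) (p : ℕ) (hE : E.IsSubnormalIn F p) (hF : F.IsSaturated p) :
    E.IsSaturated p := by
  induction hE with
  | refl F p => exact hF
  | step h1 h2 ih => exact ih h2.1.1

theorem fullyNormalized_of_subnormal {T : Subgroup Ω} (E : FusionSystem T) {S : Subgroup Ω}
    (F : FusionSystem S) (p : ℕ) (hE : E.IsSubnormalIn F p) :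
    Finite S → p.Prime → IsPGroup p S → F.IsSaturated p → ∀ P : Subgroup Ω, P ≤ T →
      (F.IsFullyNormalized P → E.IsFullyNormalized P) ∧
      (F.IsFullyCentralized P → E.IsFullyCentralized P) := by
  induction hE with
  | refl F p =>
    intro _ _ _ _ P _
    exact ⟨fun h => h, fun h => h⟩
  | @step U S E D F p h1 h2 ih =>
    intro hfin hp hS hF P hPT
    have := hfin
    have : Fact p.Prime := ⟨hp⟩
    obtain ⟨⟨hDsat, -, hsub, hU, -, -⟩, -⟩ := h2
    have hTU : T ≤ U := le_of_subnormal E D p h1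
    have hUS : U ≤ S := hU.1
    have hD := fully_of_stronglyClosed hS F hF U hU D hsub P (hPT.trans hTU)
    have hE := ih (finite_of_le hUS) hp (hS.to_le hUS) hDsat P hPT
    exact ⟨fun h => hE.1 (hD.2 h), fun h => hE.2 (hD.1 h)⟩

end Cfsg.Agent.Lib.Helper8.Subnormal
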