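import Cfsg.Agent.Lib.Helper8.ClassicAlperin
import Cfsg.Agent.Lib.Helper1.Frob

set_option autoImplicit false
set_option linter.unusedSectionVars false

namespace Cfsg.Agent.Lib.Helper8.TameControl

open Cfsg.Agent.Lib.Helper8.ClassicAlperin

universe u

variable {G : Type u} [Group G] [Finite G] {p : ℕ} [Fact p.Prime]

/-- Automizers of nontrivial tame intersections are `p`-groups. -/
def Hyp (P : Sylow p G) : Prop :=
  ∀ Q : Sylow p G, (P : Subgroup G) ⊓ (Q : Subgroup G) ≠ ⊥ → (¬ p ∣ ((P : Subgroup G) ⊓ Subgroup.normalizer (((P : Subgroup G) ⊓ (Q : Subgroup G) : Subgroup G) : Set G)).relIndex (Subgroup.normalizer (((P : Subgroup G) ⊓ (Q : Subgroup G) : Subgroup G) : Set G)) ∧ ¬ p ∣ ((Q : Subgroup G) ⊓ Subgroup.normalizer (((P : Subgroup G) ⊓ (Q : Subgroup G) : Subgroup G) : Set G)).relIndex (Subgroup.normalizer (((P : Subgroup G) ⊓ (Q : Subgroup G) : Subgroup G) : Set G))) →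
      IsPGroup p (Subgroup.normalizer (((P : Subgroup G) ⊓ (Q : Subgroup G) : Subgroup G) : Set G) ⧸
        (Subgroup.centralizer (((P : Subgroup G) ⊓ (Q : Subgroup G) : Subgroup G) : Set G)).subgroupOf
          (Subgroup.normalizer (((P : Subgroup G) ⊓ (Q : Subgroup G) : Subgroup G) : Set G)))

theorem step_control (P R : Sylow p G) (hH : Hyp P) (y : G) (hst : Step P R y) :
    ∃ t ∈ (P : Subgroup G), ∀ a ∈ (P : Subgroup G) ⊓ (R : Subgroup G),
      y⁻¹ * a * y = t⁻¹ * a * t := by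
  by_cases hbot : (P : Subgroup G) ⊓ (R : Subgroup G) = ⊥
  · refine ⟨1, one_mem _, ?_⟩
    intro a ha
    rw [hbot, Subgroup.mem_bot] at ha
    subst ha
    simp
  · have hpg := hH R hbot ⟨hst.2.1, hst.2.2⟩
    have hpow : ∀ n ∈ Subgroup.normalizer
        ((((P : Subgroup G) ⊓ (R : Subgroup G)) : Subgroup G) : Set G),
        ∃ k : ℕ, n ^ p ^ k ∈ Subgroup.centralizer
          ((((P : Subgroup G) ⊓ (R : Subgroup G)) : Subgroup G) : Set G) := by
      intro n hn
      obtain ⟨k, hk⟩ := hpg (QuotientGroup.mk ⟨n, hn⟩)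
      refine ⟨k, ?_⟩
      rw [← QuotientGroup.mk_pow, QuotientGroup.eq_one_iff, Subgroup.mem_subgroupOf] at hk
      simpa using hk
    have hPN : IsPGroup p (((P : Subgroup G) ⊓ Subgroup.normalizer
        ((((P : Subgroup G) ⊓ (R : Subgroup G)) : Subgroup G) : Set G)).subgroupOf
        (Subgroup.normalizer ((((P : Subgroup G) ⊓ (R : Subgroup G)) : Subgroup G) : Set G))) :=
      (P.2.to_le inf_le_left).comap_subtype
    obtain ⟨c, hc, s, hs, hycs⟩ := Cfsg.Agent.Lib.Helper1.Frob.sylow_mul_eq_top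
      (Subgroup.centralizer_le_normalizer _)
      (fun n hn c hc => Cfsg.Agent.Lib.Helper1.Frob.centralizer_conj_mem hn hc) hpow
      (hPN.toSylow hst.2.1) ⟨y, hst.1⟩
    have hsP : (s : G) ∈ (P : Subgroup G) :=
      (Subgroup.mem_subgroupOf.mp ((IsPGroup.mem_toSylow hPN hst.2.1).mp hs)).1
    refine ⟨s, hsP, ?_⟩
    intro a ha
    have hca : a * c = c * a := Subgroup.mem_centralizer_iff.mp hc a ha
    have hy : y = c * (s : G) := hycs
    rw [hy]
    calc (c * (s : G))⁻¹ * a * (c * s) = (s : G)⁻¹ * (c⁻¹ * (a * c)) * s := by group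
      _ = (s : G)⁻¹ * (c⁻¹ * (c * a)) * s := by rw [hca]
      _ = (s : G)⁻¹ * a * s := by group

theorem chain_control (P : Sylow p G) (hH : Hyp P) :
    ∀ (l : List (Sylow p G × G)) {A : Set G}, Chain P A l →
      ∃ u ∈ (P : Subgroup G), ∀ a ∈ A, (lprod l)⁻¹ * a * lprod l = u⁻¹ * a * u
  | [], _, _ => ⟨1, one_mem _, fun a _ => by simp [lprod_nil]⟩
  | e :: l, A, c => by
      obtain ⟨t, ht, hta⟩ := step_control P e.1 hH e.2 c.1
      obtain ⟨u, hu, hua⟩ := chain_control P hH l c.2.2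
      refine ⟨t * u, mul_mem ht hu, ?_⟩
      intro a ha
      have h1 := hta a (c.2.1 ha)
      have h2 := hua (e.2⁻¹ * a * e.2) ⟨a, ha, rfl⟩
      rw [lprod_cons]
      calc (e.2 * lprod l)⁻¹ * a * (e.2 * lprod l)
          = (lprod l)⁻¹ * (e.2⁻¹ * a * e.2) * lprod l := by group
        _ = u⁻¹ * (e.2⁻¹ * a * e.2) * u := h2
        _ = u⁻¹ * (t⁻¹ * a * t) * u := by rw [h1]
        _ = (t * u)⁻¹ * a * (t * u) := by group

theorem control (P : Sylow p G) (hH : Hyp P) (A : Set G) (g : G)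
    (hA : A ⊆ ((P : Subgroup G) : Set G))
    (hAg : (fun a => g⁻¹ * a * g) '' A ⊆ ((P : Subgroup G) : Set G)) :
    ∃ u ∈ (P : Subgroup G), ∀ a ∈ A, g⁻¹ * a * g = u⁻¹ * a * u := by
  obtain ⟨l, hl, c⟩ := alperin P A g hA hAg
  obtain ⟨u, hu, hua⟩ := chain_control P hH l c
  exact ⟨u, hu, fun a ha => by rw [← hl]; exact hua a ha⟩

theorem centralizes (P : Sylow p G) (hH : Hyp P) (Q : Subgroup G) (hQ : Q ≤ (P : Subgroup G))
    (g : G) (hg : g ∈ Subgroup.normalizer (Q : Set G)) (hgo : (orderOf g).Coprime p) :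
    g ∈ Subgroup.centralizer (Q : Set G) := by
  have hgQ : ∀ a ∈ Q, g⁻¹ * a * g ∈ Q := by
    intro a ha
    have h1 := (Subgroup.mem_normalizer_iff.mp (Subgroup.inv_mem _ hg) a).mp ha
    simpa using h1
  obtain ⟨u, hu, hua⟩ := control P hH (Q : Set G) g hQ (by
    rintro _ ⟨a, ha, rfl⟩
    exact hQ (hgQ a ha))
  have hit : ∀ (j : ℕ), ∀ a ∈ Q, (g ^ j)⁻¹ * a * g ^ j = (u ^ j)⁻¹ * a * u ^ j := by
    intro j
    induction j with
    | zero =>
      intro a _
      simp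
    | succ j ih =>
      intro a ha
      have h1 := hua a ha
      have h2 := ih (g⁻¹ * a * g) (hgQ a ha)
      calc (g ^ (j + 1))⁻¹ * a * g ^ (j + 1) = (g ^ j)⁻¹ * (g⁻¹ * a * g) * g ^ j := by
            rw [pow_succ']
            group
        _ = (u ^ j)⁻¹ * (g⁻¹ * a * g) * u ^ j := h2
        _ = (u ^ j)⁻¹ * (u⁻¹ * a * u) * u ^ j := by rw [h1]
        _ = (u ^ (j + 1))⁻¹ * a * u ^ (j + 1) := by
            rw [pow_succ']
            group
  obtain ⟨k, hk⟩ := P.2 ⟨u, hu⟩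
  have huk : u ^ p ^ k = 1 := by simpa using congrArg Subtype.val hk
  have hcent : g ^ p ^ k ∈ Subgroup.centralizer (Q : Set G) := by
    rw [Subgroup.mem_centralizer_iff]
    intro a ha
    have h1 := hit (p ^ k) a ha
    rw [huk] at h1
    have h2 : (g ^ p ^ k)⁻¹ * a * g ^ p ^ k = a := by simpa using h1
    calc a * g ^ p ^ k = g ^ p ^ k * ((g ^ p ^ k)⁻¹ * a * g ^ p ^ k) := by group
      _ = g ^ p ^ k * a := by rw [h2]
  obtain ⟨t, ht⟩ := exists_pow_eq_self_of_coprime (Nat.Coprime.pow_left k hgo.symm)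
  rw [← ht]
  exact pow_mem hcent t

end Cfsg.Agent.Lib.Helper8.TameControl
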