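import Cfsg.Agent.Lib.Helper8.PPrimeP
import Cfsg.Agent.Lib.Helper8.Centric

set_option autoImplicit false
set_option linter.unusedSectionVars false
set_option linter.style.haveILetI false

namespace Cfsg.Agent.Lib.Helper8.Trace

open Cfsg
open Cfsg.Agent.Lib.Helper8.WellPlaced Cfsg.Agent.Lib.Helper8.Cfun

variable {G : Type*} [Group G]

/-- Conjugation by an element normalizing `A`, as an endomorphism of `A`. -/
def cjHom (A : Subgroup G) (n : G) (hn : ∀ a ∈ A, n * a * n⁻¹ ∈ A) : ↥A →* ↥A where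
  toFun a := ⟨n * a * n⁻¹, hn a a.2⟩
  map_one' := Subtype.ext (by simp)
  map_mul' a b := Subtype.ext (by
    show n * ((a : G) * (b : G)) * n⁻¹ = n * (a : G) * n⁻¹ * (n * (b : G) * n⁻¹)
    group)

/-- The fixed points of `N` on an abelian `p`-group `A` are a direct factor of the fixed points
of a subgroup `S` of index prime to `p` in `N` (by the trace map). -/
theorem direct_factor [Finite G] {p : ℕ} [Fact p.Prime] (A S N : Subgroup G)
    (hA : ∀ a ∈ A, ∀ b ∈ A, a * b = b * a) (hAp : IsPGroup p A) (hSN : S ≤ N)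
    (hNA : ∀ n ∈ N, ∀ a ∈ A, n * a * n⁻¹ ∈ A) (hidx : ¬ p ∣ S.relIndex N) :
    ∃ K : Subgroup G, K ≤ A ⊓ Subgroup.centralizer (S : Set G) ∧
      (A ⊓ Subgroup.centralizer (N : Set G)) ⊓ K = ⊥ ∧
      (A ⊓ Subgroup.centralizer (N : Set G)) ⊔ K = A ⊓ Subgroup.centralizer (S : Set G) := by
  classical
  have hp : p.Prime := Fact.out
  letI : CommGroup ↥A :=
    { (inferInstance : Group ↥A) with mul_comm := fun a b => Subtype.ext (hA a a.2 b b.2) }
  haveI : Fintype (↥N ⧸ S.subgroupOf N) := Fintype.ofFinite _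
  let cj : ↥N → (↥A →* ↥A) := fun n => cjHom A (n : G) (hNA n n.2)
  have hcj : ∀ (n : ↥N) (a : ↥A), ((cj n a : ↥A) : G) = (n : G) * a * (n : G)⁻¹ := fun n a => rfl
  let τ : ↥A →* ↥A := ∏ q : ↥N ⧸ S.subgroupOf N, cj q.out
  have hτ : ∀ a : ↥A, τ a = ∏ q : ↥N ⧸ S.subgroupOf N, cj q.out a :=
    fun a => MonoidHom.finsetProd_apply _ _ _
  have hcm : (Nat.card (↥N ⧸ S.subgroupOf N)).Coprime p := by
    have h : ¬ p ∣ Nat.card (↥N ⧸ S.subgroupOf N) := hidx
    exact ((Nat.Prime.coprime_iff_not_dvd hp).mpr h).symm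
  -- the trace of an `S`-fixed element is `N`-fixed
  have h1 : ∀ a : ↥A, (a : G) ∈ Subgroup.centralizer (S : Set G) →
      ∀ n : ↥N, cj n (τ a) = τ a := by
    intro a ha n
    rw [hτ, map_prod]
    have e2 : ∏ q : ↥N ⧸ S.subgroupOf N, cj q.out a =
        ∏ q : ↥N ⧸ S.subgroupOf N, cj ((n • q : ↥N ⧸ S.subgroupOf N)).out a :=
      (Equiv.prod_comp (MulAction.toPerm n : Equiv.Perm (↥N ⧸ S.subgroupOf N))
        (fun q => cj q.out a)).symm
    rw [e2]
    refine Finset.prod_congr rfl (fun q _ => ?_)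
    apply Subtype.ext
    rw [hcj, hcj, hcj]
    have hs : ((n * q.out)⁻¹ * (n • q : ↥N ⧸ S.subgroupOf N).out : ↥N) ∈ S.subgroupOf N := by
      rw [← QuotientGroup.eq, QuotientGroup.out_eq']
      conv_rhs => rw [← QuotientGroup.out_eq' q]
      rfl
    obtain ⟨k', hk'⟩ : ∃ k' : ↥N, k' = (n • q : ↥N ⧸ S.subgroupOf N).out := ⟨_, rfl⟩
    rw [← hk'] at hs ⊢
    obtain ⟨k, hk⟩ : ∃ k : ↥N, k = q.out := ⟨_, rfl⟩
    rw [← hk] at hs ⊢
    have hs' : ((n : G) * (k : G))⁻¹ * (k' : G) ∈ S := hs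
    obtain ⟨s, hsdef⟩ : ∃ s : G, s = ((n : G) * (k : G))⁻¹ * (k' : G) := ⟨_, rfl⟩
    rw [← hsdef] at hs'
    have hsa : s * (a : G) = (a : G) * s := Subgroup.mem_centralizer_iff.mp ha s hs'
    have ek : (k' : G) = (n : G) * (k : G) * s := by rw [hsdef]; group
    rw [ek]
    calc (n : G) * ((k : G) * (a : G) * (k : G)⁻¹) * (n : G)⁻¹
        = (n : G) * (k : G) * ((a : G) * s) * s⁻¹ * (k : G)⁻¹ * (n : G)⁻¹ := by group
      _ = (n : G) * (k : G) * s * (a : G) * ((n : G) * (k : G) * s)⁻¹ := by rw [← hsa]; group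
  -- the trace of an `N`-fixed element is a power
  have h2 : ∀ a : ↥A, (a : G) ∈ Subgroup.centralizer (N : Set G) →
      τ a = a ^ Nat.card (↥N ⧸ S.subgroupOf N) := by
    intro a ha
    rw [hτ]
    have hc : ∀ q : ↥N ⧸ S.subgroupOf N, cj q.out a = a := by
      intro q
      apply Subtype.ext
      rw [hcj]
      have h := Subgroup.mem_centralizer_iff.mp ha (q.out : G) q.out.2
      rw [h]; group
    rw [Finset.prod_congr rfl (fun q _ => hc q), Finset.prod_const, Finset.card_univ,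
      Nat.card_eq_fintype_card]
  have hCNS : Subgroup.centralizer (N : Set G) ≤ Subgroup.centralizer (S : Set G) :=
    Subgroup.centralizer_le hSN
  refine ⟨(τ.ker.map A.subtype) ⊓ Subgroup.centralizer (S : Set G), ?_, ?_, ?_⟩
  · exact inf_le_inf_right _ (Subgroup.map_subtype_le _)
  · rw [eq_bot_iff]
    rintro x ⟨⟨hxA, hxN⟩, ⟨⟨a, ha, rfl⟩, -⟩⟩
    have h3 : τ a = 1 := MonoidHom.mem_ker.mp ha
    rw [h2 a hxN] at h3
    have h4 : ((a : G)) ^ Nat.card (↥N ⧸ S.subgroupOf N) = 1 := by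
      have := congrArg Subtype.val h3
      exact this
    obtain ⟨k, hk⟩ := hAp a
    have hk' : (a : G) ^ p ^ k = 1 := by
      have := congrArg Subtype.val hk
      exact this
    have h5 := Centric.eq_one_of_pow_of_coprime hk' (orderOf_dvd_of_pow_eq_one h4) hcm
    exact Subgroup.mem_bot.mpr h5
  · apply le_antisymm
    · exact sup_le (inf_le_inf_left _ hCNS)
        (inf_le_inf_right _ (Subgroup.map_subtype_le _))
    · intro x hx
      obtain ⟨hxA, hxS⟩ := Subgroup.mem_inf.mp hx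
      obtain ⟨a, ha⟩ : ∃ a : ↥A, (a : G) = x := ⟨⟨x, hxA⟩, rfl⟩
      rw [← ha] at hxS ⊢
      -- w₀ = τ a is N-fixed
      have hw₀ : ((τ a : ↥A) : G) ∈ A ⊓ Subgroup.centralizer (N : Set G) := by
        refine Subgroup.mem_inf.mpr ⟨(τ a).2, Subgroup.mem_centralizer_iff.mpr ?_⟩
        intro n hn
        have h3 := congrArg Subtype.val (h1 a hxS ⟨n, hn⟩)
        rw [hcj] at h3
        calc n * ((τ a : ↥A) : G) = (n * ((τ a : ↥A) : G) * n⁻¹) * n := by group
          _ = ((τ a : ↥A) : G) * n := by rw [h3]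
      -- the m-th power map is bijective on the p-group W
      have hWp : IsPGroup p ↥(A ⊓ Subgroup.centralizer (N : Set G)) := hAp.to_le inf_le_left
      obtain ⟨i, hi⟩ := hWp.exists_card_eq
      have hcop : (Nat.card ↥(A ⊓ Subgroup.centralizer (N : Set G))).Coprime
          (Nat.card (↥N ⧸ S.subgroupOf N)) := by
        rw [hi]
        exact Nat.Coprime.pow_left i ((Nat.Prime.coprime_iff_not_dvd hp).mpr hidx)
      obtain ⟨w, hw⟩ := (powCoprime hcop).surjective ⟨((τ a : ↥A) : G), hw₀⟩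
      have hw' : (w : G) ^ Nat.card (↥N ⧸ S.subgroupOf N) = ((τ a : ↥A) : G) := by
        have := congrArg Subtype.val hw
        exact this
      obtain ⟨b, hb⟩ : ∃ b : ↥A, (b : G) = (w : G) := ⟨⟨(w : G), w.2.1⟩, rfl⟩
      have hbN : (b : G) ∈ Subgroup.centralizer (N : Set G) := by rw [hb]; exact w.2.2
      have hτb : τ b = τ a := by
        rw [h2 b hbN]
        apply Subtype.ext
        rw [← hw', ← hb]
        rfl
      have hker : b⁻¹ * a ∈ τ.ker := by
        rw [MonoidHom.mem_ker, map_mul, map_inv, hτb, inv_mul_cancel]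
      have e : (a : G) = (b : G) * ((b⁻¹ * a : ↥A) : G) := by
        show (a : G) = (b : G) * ((b : G)⁻¹ * (a : G))
        group
      rw [e]
      refine Subgroup.mul_mem_sup ⟨b.2, hbN⟩ ⟨⟨b⁻¹ * a, hker, rfl⟩, ?_⟩
      show (b : G)⁻¹ * (a : G) ∈ Subgroup.centralizer (S : Set G)
      exact Subgroup.mul_mem _ (Subgroup.inv_mem _ (hCNS hbN)) hxS

/-- The weakly closed elements of a Sylow `p`-subgroup `S` with `Z(S) ≤ O_{p',p}(G)` form a direct
factor of `Z(S)`. -/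
theorem weakly_closed_direct_factor [Finite G] {p : ℕ} [Fact p.Prime] (S : Sylow p G)
    (hZ : ((S : Subgroup G) ⊓ Subgroup.centralizer ((S : Subgroup G) : Set G)) ≤
      Cfsg.pPrimePCore p G) :
    ∃ W K : Subgroup G, (∀ x : G, x ∈ W ↔ (x ∈ (S : Subgroup G) ∧
        ∀ g : G, g * x * g⁻¹ ∈ (S : Subgroup G) → g * x * g⁻¹ = x)) ∧
      K ≤ ((S : Subgroup G) ⊓ Subgroup.centralizer ((S : Subgroup G) : Set G)) ∧ W ⊓ K = ⊥ ∧
      W ⊔ K = ((S : Subgroup G) ⊓ Subgroup.centralizer ((S : Subgroup G) : Set G)) := by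
  have hp : p.Prime := Fact.out
  obtain ⟨Q, hQ⟩ : ∃ Q : Subgroup G, Q = (S : Subgroup G) ⊓ pPrimePCore p G := ⟨_, rfl⟩
  obtain ⟨N, hN⟩ : ∃ N : Subgroup G, N = Subgroup.normalizer (Q : Set G) := ⟨_, rfl⟩
  obtain ⟨A, hAdef⟩ : ∃ A : Subgroup G, A = Q ⊓ Subgroup.centralizer (Q : Set G) := ⟨_, rfl⟩
  have hQS : Q ≤ S := by rw [hQ]; exact inf_le_left
  have hMn : (pPrimePCore p G).Normal := Cfsg.Agent.Lib.Helper8.AG1.pPrimePCore_normal p
  have hDn : (pPrimeCore p G).Normal := pPrimeCore_normal p G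
  have hSN : (S : Subgroup G) ≤ N := by
    rw [hN]
    intro s hs
    rw [Subgroup.mem_normalizer_iff]
    intro x
    rw [hQ]
    constructor
    · intro hx
      obtain ⟨hxS, hxM⟩ := Subgroup.mem_inf.mp hx
      exact Subgroup.mem_inf.mpr ⟨Subgroup.mul_mem _ (Subgroup.mul_mem _ hs hxS)
        (Subgroup.inv_mem _ hs), hMn.conj_mem x hxM s⟩
    · intro hx
      obtain ⟨hxS, hxM⟩ := Subgroup.mem_inf.mp hx
      refine Subgroup.mem_inf.mpr ⟨?_, ?_⟩
      · have e : x = s⁻¹ * (s * x * s⁻¹) * s := by group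
        rw [e]
        exact Subgroup.mul_mem _ (Subgroup.mul_mem _ (Subgroup.inv_mem _ hs) hxS) hs
      · have e : x = s⁻¹ * (s * x * s⁻¹) * s⁻¹⁻¹ := by group
        rw [e]; exact hMn.conj_mem _ hxM s⁻¹
  have hA : ∀ a ∈ A, ∀ b ∈ A, a * b = b * a := by
    intro a ha b hb
    rw [hAdef] at ha hb
    exact Subgroup.mem_centralizer_iff.mp (Subgroup.mem_inf.mp hb).2 a (Subgroup.mem_inf.mp ha).1
  have hAp : IsPGroup p A := by rw [hAdef]; exact (S.2.to_le hQS).to_le inf_le_left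
  have hNA : ∀ n ∈ N, ∀ a ∈ A, n * a * n⁻¹ ∈ A := by
    intro n hn a ha
    rw [hN] at hn
    rw [hAdef] at ha ⊢
    have hn2 := Cfsg.Agent.Lib.Helper8.GroupFusion.normalizer_le_normalizer_centralizer Q hn
    exact Subgroup.mem_inf.mpr ⟨(Subgroup.mem_normalizer_iff.mp hn a).mp (Subgroup.mem_inf.mp ha).1,
      (Subgroup.mem_normalizer_iff.mp hn2 a).mp (Subgroup.mem_inf.mp ha).2⟩
  have hidx : ¬ p ∣ (S : Subgroup G).relIndex N := fun h =>
    S.not_dvd_index (h.trans (Subgroup.relIndex_dvd_index_of_le hSN))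
  obtain ⟨K, hK1, hK2, hK3⟩ := direct_factor A (S : Subgroup G) N hA hAp hSN hNA hidx
  have hAS : A ⊓ Subgroup.centralizer ((S : Subgroup G) : Set G) =
      (S : Subgroup G) ⊓ Subgroup.centralizer ((S : Subgroup G) : Set G) := by
    apply le_antisymm
    · exact inf_le_inf_right _ (by rw [hAdef]; exact inf_le_left.trans hQS)
    · refine le_inf ?_ inf_le_right
      rw [hAdef]
      refine le_inf ?_ ?_
      · rw [hQ]; exact le_inf inf_le_left hZ
      · exact inf_le_right.trans (Subgroup.centralizer_le hQS)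
  rw [hAS] at hK1 hK3
  refine ⟨A ⊓ Subgroup.centralizer (N : Set G), K, ?_, hK1, hK2, hK3⟩
  intro x
  constructor
  · intro hx
    obtain ⟨hxA, hxN⟩ := Subgroup.mem_inf.mp hx
    have hxS : x ∈ (S : Subgroup G) := hQS (by rw [hAdef] at hxA; exact (Subgroup.mem_inf.mp hxA).1)
    refine ⟨hxS, ?_⟩
    intro g hg
    obtain ⟨d, hd, n, hn, rfl⟩ := Cfsg.Agent.Lib.Helper8.PPrimeP.frattini' S g
    rw [← hQ, ← hN] at hn
    have hnx : n * x * n⁻¹ = x := by
      have h := Subgroup.mem_centralizer_iff.mp hxN n hn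
      rw [h]; group
    have e : d * n * x * (d * n)⁻¹ = d * x * d⁻¹ := by
      calc d * n * x * (d * n)⁻¹ = d * (n * x * n⁻¹) * d⁻¹ := by group
        _ = d * x * d⁻¹ := by rw [hnx]
    rw [e] at hg ⊢
    have h1 : x⁻¹ * (d * x * d⁻¹) ∈ (S : Subgroup G) :=
      Subgroup.mul_mem _ (Subgroup.inv_mem _ hxS) hg
    have h2 : x⁻¹ * (d * x * d⁻¹) ∈ pPrimeCore p G := by
      have e2 : x⁻¹ * (d * x * d⁻¹) = (x⁻¹ * d * x⁻¹⁻¹) * d⁻¹ := by group
      rw [e2]; exact Subgroup.mul_mem _ (hDn.conj_mem d hd x⁻¹) (Subgroup.inv_mem _ hd)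
    have h3 : x⁻¹ * (d * x * d⁻¹) = 1 := by
      obtain ⟨k, hk⟩ := S.2 ⟨_, h1⟩
      have hk' : (x⁻¹ * (d * x * d⁻¹)) ^ p ^ k = 1 := congrArg Subtype.val hk
      have hord : orderOf (x⁻¹ * (d * x * d⁻¹)) ∣ Nat.card (pPrimeCore p G) := by
        have h4 := orderOf_dvd_natCard (⟨_, h2⟩ : ↥(pPrimeCore p G))
        rwa [Subgroup.orderOf_mk] at h4
      exact Centric.eq_one_of_pow_of_coprime hk' hord (Centric.pPrimeCore_coprime p)
    calc d * x * d⁻¹ = x * (x⁻¹ * (d * x * d⁻¹)) := by group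
      _ = x := by rw [h3, mul_one]
  · rintro ⟨hxS, hwc⟩
    have hxZ : x ∈ (S : Subgroup G) ⊓ Subgroup.centralizer ((S : Subgroup G) : Set G) := by
      refine Subgroup.mem_inf.mpr ⟨hxS, Subgroup.mem_centralizer_iff.mpr ?_⟩
      intro s hs
      have h1 := hwc s (Subgroup.mul_mem _ (Subgroup.mul_mem _ hs hxS) (Subgroup.inv_mem _ hs))
      calc s * x = (s * x * s⁻¹) * s := by group
        _ = x * s := by rw [h1]
    have hxA : x ∈ A ⊓ Subgroup.centralizer ((S : Subgroup G) : Set G) := by rw [hAS]; exact hxZ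
    have hxA1 : x ∈ A := (Subgroup.mem_inf.mp hxA).1
    refine Subgroup.mem_inf.mpr ⟨hxA1, Subgroup.mem_centralizer_iff.mpr ?_⟩
    intro n hn
    have h1 : n * x * n⁻¹ ∈ A := hNA n hn x hxA1
    have h2 : n * x * n⁻¹ ∈ (S : Subgroup G) :=
      hQS (by rw [hAdef] at h1; exact (Subgroup.mem_inf.mp h1).1)
    have h3 := hwc n h2
    calc n * x = (n * x * n⁻¹) * n := by group
      _ = x * n := by rw [h3]

end Cfsg.Agent.Lib.Helper8.Trace
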